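import Mathlib
import Cfsg.Agent.PLocal.KInfControl
import Cfsg.Agent.PLocal.SecNorm
import Cfsg.Agent.PLocal.QdStable

/-! Groups whose automizers `N(Q)/C(Q)` of `p`-subgroups have no section `X`; for `X = SL₂(p)` all
sections are `p`-stable. -/

set_option autoImplicit false
set_option linter.unusedSectionVars false

namespace Cfsg.Agent.PLocal.CF

open Subgroup Cfsg.Agent.Fus Cfsg.Agent.FGS
open scoped commutatorElement Matrix

universe u

/-- No automizer of a `p`-subgroup of `G` involves `X`. -/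
def AutFree (p : ℕ) (X : Type*) [Group X] (G : Type u) [Group G] : Prop :=
  ∀ Q : Subgroup G, IsPGroup p Q → ∀ (E : Type u) [Group E] (i : E →* G) (ψ : E →* X),
    (∀ e, i e ∈ Nm Q) → (∀ e, i e ∈ Ce Q → ψ e = 1) → ¬ Function.Surjective ψ

variable {p : ℕ} {X : Type*} [Group X] {G : Type u} [Group G] {H : Type u} [Group H]

theorem autFree_of_not_section
    (h : ∀ Q : Subgroup G, IsPGroup p Q → ¬ ∃ (H K : Subgroup G) (_ : (K.subgroupOf H).Normal),
      Ce Q ≤ K ∧ K ≤ H ∧ H ≤ Nm Q ∧ Nonempty ((H ⧸ K.subgroupOf H) ≃* X)) : AutFree p X G := by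
  intro Q hQ E _ i ψ hi hψ hs
  set π := QuotientGroup.mk' ((Ce Q).subgroupOf (Nm Q))
  let j := π.comp (i.codRestrict _ hi)
  have hj : j.rangeRestrict.ker ≤ ψ.ker := fun e he =>
    hψ e ((QuotientGroup.eq_one_iff (i.codRestrict _ hi e)).1 (congrArg Subtype.val he))
  let ψ' := j.rangeRestrict.liftOfSurjective j.rangeRestrict_surjective ⟨ψ, hj⟩
  have hψ' : Function.Surjective ψ' := fun x => by
    obtain ⟨e, rfl⟩ := hs x
    exact ⟨j.rangeRestrict e, MonoidHom.liftOfRightInverse_comp_apply _ _ _ _ _⟩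
  let ε := (j.range.comap π).equivMapOfInjective _ (Nm Q).subtype_injective
  let φ := (ψ'.comp (π.subgroupComap j.range)).comp ε.symm.toMonoidHom
  have hφ : Function.Surjective φ :=
    (hψ'.comp (π.subgroupComap_surjective_of_surjective _ (QuotientGroup.mk'_surjective _))).comp
      ε.symm.surjective
  have e : (φ.ker.map (Subgroup.subtype _)).subgroupOf _ = φ.ker :=
    comap_map_eq_self_of_injective (Subgroup.subtype_injective _) _
  have hn : ((φ.ker.map (Subgroup.subtype _)).subgroupOf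
      ((j.range.comap π).map (Nm Q).subtype)).Normal := by rw [e]; infer_instance
  refine h Q hQ ⟨_, φ.ker.map (Subgroup.subtype _), hn, fun c hc => ?_,
    map_subtype_le _, map_subtype_le _, ⟨(QuotientGroup.quotientMulEquivOfEq e).trans
      (QuotientGroup.quotientKerEquivOfSurjective φ hφ)⟩⟩
  have h1 : π ⟨c, centralizer_le_normalizer _ hc⟩ = 1 := (QuotientGroup.eq_one_iff _).2 hc
  refine ⟨ε ⟨⟨c, centralizer_le_normalizer _ hc⟩, by rw [mem_comap, h1]; exact one_mem _⟩, ?_, rfl⟩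
  change ψ' (π.subgroupComap j.range (ε.symm (ε _))) = 1
  rw [ε.symm_apply_apply, ← map_one ψ']
  exact congrArg ψ' (Subtype.ext h1)

variable [hp : Fact p.Prime] [Finite G]

theorem AutFree.sec (h : AutFree p X G) (hH : Sec H G) : AutFree p X H := by
  obtain ⟨K, f, hf⟩ := hH
  intro P hP E _ i ψ hi hψ hs
  obtain ⟨T, hT⟩ := Amb.exists_isSyl p (P.comap f)
  obtain ⟨h1, h2⟩ := SecNorm.map_of_isSyl_comap hf hP hT
  let E₀ : Subgroup (K × E) := (Nm T).prod ⊤ ⊓
    (f.comp (MonoidHom.fst K E)).eqLocus (i.comp (MonoidHom.snd K E))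
  refine h (T.map K.subtype) (hT.pgrp.map _) E₀ ((K.subtype.comp (MonoidHom.fst K E)).comp E₀.subtype)
    ((ψ.comp (MonoidHom.snd K E)).comp E₀.subtype) (fun e => le_normalizer_map _ ⟨_, e.2.1.1, rfl⟩)
    (fun e he => hψ _ ?_) fun x => ?_
  · rw [← h1]
    rintro _ ⟨a, ha, rfl⟩
    have h3 : f e.1.1 = i e.1.2 := e.2.2
    change f a * i e.1.2 = i e.1.2 * f a
    rw [← h3, ← map_mul, ← map_mul]
    exact congrArg f (Subtype.ext (he a ⟨a, ha, rfl⟩))
  · obtain ⟨e, rfl⟩ := hs x
    obtain ⟨y, hy, h3⟩ := h2.ge (hi e)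
    exact ⟨⟨(y, e), ⟨hy, trivial⟩, h3⟩, rfl⟩

/-- A quadratic element outside `O_p` modulo `C(P)` forces `SL₂(p)` in the automizer of `P`. -/
theorem exists_sl2_of_not_mem_pCore (hp2 : p ≠ 2) (P : Subgroup G) [P.Normal] (hP : IsPGroup p P)
    (C : Subgroup G) [C.Normal] (hC : Ce P ≤ C) (a : G) (hq : ⁅⁅P, zpowers a⁆, zpowers a⁆ = ⊥)
    (hna : (QuotientGroup.mk a : G ⧸ C) ∉ pCore p (G ⧸ C)) :
    ∃ (E : Subgroup G) (θ : E →* Matrix.SpecialLinearGroup (Fin 2) (ZMod p)),
      Function.Surjective θ ∧ ∀ e : E, (e : G) ∈ Ce P → θ e = 1 := by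
  set N := (frattini P).map P.subtype
  have : N.Normal := Grp.normal_map_subtype_of_characteristic P _
  have hKN := elemAb_map_mk_frattini hP N le_rfl
  have : (P.map (QuotientGroup.mk' N)).Normal :=
    Normal.map inferInstance _ (QuotientGroup.mk'_surjective N)
  have hn : (⊤ : Subgroup (G ⧸ N)) ≤ Nm (P.map (QuotientGroup.mk' N)) := le_normalizer_of_normal
  let f : G →* (⊤ : Subgroup (G ⧸ N)) := topEquiv.symm.toMonoidHom.comp (QuotientGroup.mk' N)
  set D := sectionKernel P N with hD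
  have hker : ∀ g, ((EA.rep hKN ⊤ hn).comp f) g = 1 ↔ g ∈ D := fun g =>
    EA.rep_eq_one_iff (hV := hKN) hn (f g)
  obtain ⟨E, θ, T, hθ, hT, hact⟩ := exists_natural_module_of_not_mem_pCore hp2
    ((EA.rep hKN ⊤ hn).comp f) D (fun g hg => (hker g).1 hg) a
    (by
      refine EA.rep_sub_one_sq hn (f a) ?_
      have e : zpowers ((f a : (⊤ : Subgroup (G ⧸ N))) : G ⧸ N)
          = (zpowers a).map (QuotientGroup.mk' N) := by
        rw [MonoidHom.map_zpowers]; rfl
      rw [e, ← map_commutator, ← map_commutator, hq, Subgroup.map_bot])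
    (fun h1 => hna (by
      refine Grp.le_pCore (N := ((pCore p (G ⧸ D)).comap (QuotientGroup.mk' D)).map
        (QuotientGroup.mk' C)) (Normal.map inferInstance _ (QuotientGroup.mk'_surjective C)) ?_
        ⟨a, h1, rfl⟩
      rw [isPGroup_subgroup_iff]
      rintro _ ⟨e, he, rfl⟩
      obtain ⟨k, hk⟩ := isPGroup_subgroup_iff.1 (Grp.pCore_isPGroup p (G ⧸ D)) _ he
      rw [← map_pow, QuotientGroup.mk'_apply, QuotientGroup.eq_one_iff, hD,
        mem_sectionKernel_iff] at hk
      obtain ⟨j, hj⟩ := exists_pow_mem_centralizer_of_frattini hP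
        (le_normalizer_of_normal (mem_top _)) hk
      refine ⟨k + j, ?_⟩
      rw [← map_pow, QuotientGroup.mk'_apply, QuotientGroup.eq_one_iff, pow_add, pow_mul]
      exact hC hj))
  refine ⟨E, θ, hθ, fun e he => Subtype.ext (Matrix.toLin'.injective (LinearMap.ext fun v => hT ?_))⟩
  have h1 := hact e v
  rw [(hker e).2 (mem_sectionKernel_iff.2 fun k hk => by
    rw [commutatorElement_eq_one_iff_mul_comm.2 (he k hk).symm]; exact one_mem _)] at h1
  simpa using h1.symm

theorem AutFree.isNormalizerPStable (hp2 : p ≠ 2)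
    (h : AutFree p (Matrix.SpecialLinearGroup (Fin 2) (ZMod p)) G) : IsNormalizerPStable p G := by
  intro P hP g hg hq
  by_contra hna
  have hce : ∀ x : Nm P, x ∈ Ce (P.subgroupOf (Nm P)) ↔ (x : G) ∈ Ce P := fun x =>
    ⟨fun hx y hy => congrArg Subtype.val (hx ⟨y, le_normalizer hy⟩ hy),
      fun hx y hy => Subtype.ext (hx y hy)⟩
  obtain ⟨E, θ, hθ, h1⟩ := exists_sl2_of_not_mem_pCore hp2 (P.subgroupOf (Nm P))
    (hP.comap_of_injective _ (Subgroup.subtype_injective _)) ((Ce P).subgroupOf (Nm P))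
    (fun x hx => (hce x).1 hx) ⟨g, hg⟩ (by
      rw [← map_eq_bot_iff_of_injective _ (Nm P).subtype_injective, map_commutator, map_commutator,
        MonoidHom.map_zpowers, map_subgroupOf_eq_of_le le_normalizer]
      exact hq) hna
  exact h P hP E ((Nm P).subtype.comp E.subtype) θ (fun e => e.1.2) (fun e he => h1 e ((hce _).2 he)) hθ

/-- `K^∞` and `K_∞` control strong fusion in all sections of a group with `p`-stable sections. -/
theorem kinf_familySF {W : ∀ (Q : Type u) [Group Q], Subgroup Q} (hW : W = kInfLower ∨ W = kInfUpper)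
    (hst : ∀ (K R : Subgroup G) [(R.subgroupOf K).Normal],
      IsNormalizerPStable p (K ⧸ R.subgroupOf K)) :
    ∀ (H : Type u) [Group H] [Finite H], Sec H G → FamilyControlsStrongFusionIn p (fam {W} H) ⊤ := by
  have h𝓦 : ∀ V ∈ ({W} : Set (∀ (Q : Type u) [Group Q], Subgroup Q)), IsCharPFunctor.{u} p V := by
    rintro _ rfl; exact kinf_isCharPFunctor hW
  refine familySF_of_constrained (G := G) h𝓦 fun K R _ hc _ => ?_
  obtain ⟨S⟩ : Nonempty (Sylow p (K ⧸ R.subgroupOf K)) := inferInstance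
  have : (inducedFunctor W (S : Subgroup (K ⧸ R.subgroupOf K))).Normal := by
    by_contra h
    obtain ⟨g, -, -, -, -, h3⟩ := S1983.result S (by
      rcases hW with rfl | rfl
      · exact Or.inl h
      · exact Or.inr h)
    obtain ⟨N, hN, h4⟩ := h3 hc
    exact h4 (((sec_quotient N).trans (sec_tmpl K R)).isNormalizerPStable hst)
  exact familySF_iff.2 ⟨S, syl_top S, fsf_of_normal (W := inducedFunctor W)
    (Set.mem_image_of_mem _ (Set.mem_singleton _)) le_normalizer_of_normal⟩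

end Cfsg.Agent.PLocal.CF
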