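import Mathlib
import Cfsg.Agent.PLocal.TraceFix

/-! If a Sylow `p`-subgroup `S` is a maximal subgroup of `G` and `u ∈ S \ O_p(G)` acts with minimal
polynomial of degree `< p` on a chief factor `U/V` inside `O_p(G)`, then `U/V` is central. -/

set_option autoImplicit false
open Cfsg

namespace Cfsg.Agent.PLocal.CoatomChief

open Subgroup
open scoped commutatorElement
open Cfsg.Agent.PLocal.CommMod Cfsg.Agent.PLocal.Amb Cfsg.Agent.PLocal.ChiefAct

variable {G : Type*} [Group G]

theorem commutator_top_le [Finite G] {p : ℕ} [Fact p.Prime] {S : Subgroup G} (hS : IsSyl p S ⊤)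
    (hc : IsCoatom S) {u : G} (huS : u ∈ S) (hu : u ∉ pCore p G) {U V : Subgroup G}
    (h : IsChiefFactor U V) (hU : U ≤ pCore p G)
    (hdeg : iterCommutator U (zpowers u) (p - 1) ≤ V) : ⁅U, ⊤⁆ ≤ V := by
  have hUn := h.2.1
  have hVn := h.2.2.1
  have hUp : IsPGroup p U := (Grp.pCore_isPGroup p G).to_le hU
  have hVp : IsPGroup p V := hUp.to_le h.1.le
  have hVS : V ≤ S := hS.le_of_le_normalizer hVp le_top le_normalizer_of_normal
  set f := QuotientGroup.mk' V with hf
  have hsurj : Function.Surjective f := QuotientGroup.mk'_surjective V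
  have hker : f.ker = V := QuotientGroup.ker_mk' V
  have hS' : IsSyl p (S.map f) ⊤ := by
    have := hS.map f
    rwa [← MonoidHom.range_eq_map, MonoidHom.range_eq_top.2 hsurj] at this
  have hZn : (U.map f).Normal := hUn.map f hsurj
  have hZp : IsPGroup p (U.map f) := hUp.map f
  have hbot : ∀ X : Subgroup G, X ≤ V → X.map f = ⊥ := fun X hX =>
    (Subgroup.map_eq_bot_iff _).2 (hX.trans hker.ge)
  have hZc : IsMulCommutative (U.map f) := by
    rw [← le_centralizer_iff_isMulCommutative, ← commutator_eq_bot_iff_le_centralizer,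
      ← map_commutator]
    exact hbot _ (commutator_le_of_isPGroup h hUp le_rfl)
  have key := TraceFix.inf_centralizer_le_center (M := S.map f) (Z := U.map f) (u := f u) hS'
    (fun K hK hne => by
      have h1 : S ≤ K.comap f := map_le_iff_le_comap.1 hK
      rcases h1.eq_or_lt with h2 | h2
      · rw [h2, map_comap_eq_self_of_surjective hsurj]
      · exact absurd (by
          rw [← map_comap_eq_self_of_surjective hsurj K, hc.2 _ h2, ← MonoidHom.range_eq_map,
            MonoidHom.range_eq_top.2 hsurj]) hne)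
    (mem_map_of_mem f huS)
    (fun h1 => hu (by rw [← Grp.comap_pCore_quotient V hVp]; exact h1)) hZp hZc
    (fun U' V' _ hU' => by
      refine (iter_mono hU' le_rfl _).trans ?_
      rw [← MonoidHom.map_zpowers, ← map_iter, hbot _ hdeg]
      exact bot_le)
  have hne : U.map f ⊓ 𝐂[S.map f] ≠ ⊥ :=
    inf_centralizer_ne_bot hS'.pgrp hZp le_normalizer_of_normal fun h1 =>
      not_le h (hker ▸ (Subgroup.map_eq_bot_iff _).1 h1)
  have hUc : U ≤ (center (G ⧸ V)).comap f := by
    rcases inf_le_or_eq h ((center (G ⧸ V)).comap f) with h1 | h1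
    · exfalso
      apply hne
      rw [eq_bot_iff]
      rintro x hx
      obtain ⟨y, hy, rfl⟩ := hx.1
      have : y ∈ V := h1 ⟨hy, key hx⟩
      rw [← hker] at this
      exact this
    · rw [← h1]
      refine sup_le inf_le_right fun v hv => ?_
      rw [← hker] at hv
      rw [mem_comap, MonoidHom.mem_ker.1 hv]
      exact one_mem _
  rw [commutator_le]
  intro a ha b _
  rw [← hker, MonoidHom.mem_ker, map_commutatorElement, commutatorElement_eq_one_iff_mul_comm]
  exact (mem_center_iff.1 (hUc ha) (f b)).symm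

end Cfsg.Agent.PLocal.CoatomChief
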