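import Mathlib
import Cfsg.Agent.Class.PGL2Dickson
import Cfsg.Agent.Fus.EssSmall
import Cfsg.Agent.Fus.GroupQuot
import Cfsg.Agent.PLocal.Amb

/-! Sylow `p`-subgroups that are extraspecial of order `p³` and exponent `p`: the normalizer acts on
the projective line of the subgroups of order `p²`. -/

set_option autoImplicit false
set_option linter.unusedSectionVars false

namespace Cfsg.Agent.PLocal.ESCube

open Subgroup Cfsg.Agent.Class.Dickson Cfsg.Agent.Fus Matrix MatrixGroups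
open scoped commutatorElement LinearAlgebra.Projectivization

theorem commutator_mem_unip {K : Type*} [Field K] {g g' : PGL(2, K)} {x : P1 K}
    (hg : g • x = x) (hg' : g' • x = x) : ⁅g, g'⁆ ∈ unip x := by
  obtain ⟨h, rfl⟩ := exists_smul_inf x
  rw [← conj_mem_unip]
  have h1 := (conj_smul_eq_iff h g _ _).2 hg
  have h2 := (conj_smul_eq_iff h g' _ _).2 hg'
  rw [show h⁻¹ * ⁅g, g'⁆ * h = ⁅h⁻¹ * g * h, h⁻¹ * g' * h⁆ by
    simp only [commutatorElement_def]; group]
  obtain ⟨a, ha⟩ := exists_pmk (h⁻¹ * g * h)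
  obtain ⟨b, hb⟩ := exists_pmk (h⁻¹ * g' * h)
  rw [ha] at h1 ⊢
  rw [hb] at h2 ⊢
  have h3 : pmk ⁅a, b⁆ • inf K = inf K := by
    rw [pmk, map_commutatorElement, commutatorElement_def, mul_smul, mul_smul, mul_smul,
      inv_smul_eq_iff.2 h2.symm, inv_smul_eq_iff.2 h1.symm, h2, h1]
  rw [← map_commutatorElement, pmk_mem_unip_inf]
  rw [pmk_smul_inf_eq_inf] at h1 h2 h3
  have e : ⁅a, b⁆ * (b * a) = a * b := by simp only [commutatorElement_def]; group
  have e0 := congrArg (fun m : GL (Fin 2) K => m 0 0) e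
  have e1 := congrArg (fun m : GL (Fin 2) K => m 1 1) e
  simp only [gl_mul_apply, h1, h2, h3, mul_zero, zero_mul, add_zero, zero_add] at e0 e1
  have da := gl_det_ne a
  have db := gl_det_ne b
  rw [h1, mul_zero, sub_zero] at da
  rw [h2, mul_zero, sub_zero] at db
  have f0 : ⁅a, b⁆ 0 0 = 1 := by
    have : (⁅a, b⁆ 0 0 - 1) * (a 0 0 * b 0 0) = 0 := by linear_combination e0
    exact sub_eq_zero.1 ((mul_eq_zero.1 this).resolve_right
      (mul_ne_zero (left_ne_zero_of_mul da) (left_ne_zero_of_mul db)))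
  have f1 : ⁅a, b⁆ 1 1 = 1 := by
    have : (⁅a, b⁆ 1 1 - 1) * (a 1 1 * b 1 1) = 0 := by linear_combination e1
    exact sub_eq_zero.1 ((mul_eq_zero.1 this).resolve_right
      (mul_ne_zero (right_ne_zero_of_mul da) (right_ne_zero_of_mul db)))
  exact ⟨h3, f0.trans f1.symm⟩

theorem tame_points {F : Type*} [Field F] (p : ℕ) [Fact p.Prime] [CharP F p]
    (H : Subgroup PGL(2, F)) [Finite H] (hH : ∀ g ∈ H, g ^ p = 1 → g = 1) (x : Fin 3 → P1 F)
    (hx : Function.Injective x) (hh : ∀ i, ∃ h ∈ H, h • x i = x i ∧ h ^ 2 ≠ 1) :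
    ∃ m, ((Nat.card H = 12 ∧ m = 3) ∨ (Nat.card H = 24 ∧ m = 4) ∨ (Nat.card H = 60 ∧ m = 5)) ∧
      ∀ g : H, orderOf g ∣ 2 ∨ orderOf g ∣ 3 ∨ orderOf g ∣ m := by
  let k := AlgebraicClosure F
  let ι := algebraMap F k
  let φ : H →* PGL(2, k) := (pmap ι).comp H.subtype
  have hφ : Function.Injective φ := (pmap_injective ι).comp H.subtype_injective
  have hU : ∀ (y : P1 k) (g : H), φ g ∈ unip y → g = 1 := fun y g hg => by
    have := pow_eq_one_of_mem_unip p hg
    rw [← map_pow, map_eq_one_iff φ hφ] at this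
    exact Subtype.ext (hH g g.2 (congrArg Subtype.val this))
  choose h hhH hfix hsq using hh
  let h' : Fin 3 → H := fun i => ⟨h i, hhH i⟩
  let y : Fin 3 → P1 k := fun i => lmap ι (x i)
  have hy : Function.Injective y := (lmap_injective ι).comp hx
  have hfix' : ∀ i, φ (h' i) • y i = y i := fun i => (pmap_smul_lmap_iff ι _ _ _).2 (hfix i)
  have hsq' : ∀ i, φ (h' i) * φ (h' i) ≠ 1 := fun i e => hsq i (by
    rw [← map_mul, map_eq_one_iff φ hφ] at e
    rw [sq]; exact congrArg Subtype.val e)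
  have hne : ∀ i, φ (h' i) ≠ 1 := fun i e => hsq' i (by rw [e, one_mul])
  let _ : MulAction H (P1 k) := MulAction.compHom _ φ
  rcases (lineAction φ hφ).tame (fun x => eq_bot_iff.2 fun g hg => hU x g hg) with
    ⟨u, hu⟩ | ⟨u, hu⟩ | h
  · exfalso
    have hu' : ∀ g : H, φ g • u = u := hu
    obtain ⟨i, j, hij, hi, hj⟩ : ∃ i j, i ≠ j ∧ y i ≠ u ∧ y j ≠ u := by
      by_cases h0 : y 0 = u
      · exact ⟨1, 2, by decide, fun e => absurd (hy (e.trans h0.symm)) (by decide),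
          fun e => absurd (hy (e.trans h0.symm)) (by decide)⟩
      by_cases h1 : y 1 = u
      · exact ⟨0, 2, by decide, h0, fun e => absurd (hy (e.trans h1.symm)) (by decide)⟩
      · exact ⟨0, 1, by decide, h0, h1⟩
    have hc : φ (h' i) * φ (h' j) = φ (h' j) * φ (h' i) := by
      have := hU u ⁅h' i, h' j⁆ (by
        rw [map_commutatorElement]; exact commutator_mem_unip (hu' _) (hu' _))
      rw [← map_mul, ← map_mul, commutatorElement_eq_one_iff_mul_comm.1 this]
    have h1 : φ (h' j) • y i = y i := by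
      by_contra h1
      refine hne i (eq_one_of_fix_three _ (x := φ (h' j) • y i) (y := y i) (z := u) h1
        (fun e => hi ?_) hi ?_ (hfix' i) (hu' _))
      · exact smul_left_cancel (φ (h' j)) (e.trans (hu' _).symm)
      · rw [← mul_smul, hc, mul_smul, hfix']
    exact hne j (eq_one_of_fix_three _ (fun e => hij (hy e)) hi hj h1 (hfix' j) (hu' _))
  · exfalso
    obtain ⟨v, huv, h⟩ := pair_of_card_orbit hu
    have h' : ∀ i, y i = u ∨ y i = v := fun i => by
      by_contra hn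
      push Not at hn
      refine hsq' i (eq_one_of_fix_three _ huv hn.1.symm hn.2.symm ?_ ?_ ?_)
      · rcases h (h' i) with h2 | h2
        · rw [mul_smul, show φ (h' i) • u = u from h2.1, show φ (h' i) • u = u from h2.1]
        · rw [mul_smul, show φ (h' i) • u = v from h2.1, show φ (h' i) • v = u from h2.2]
      · rcases h (h' i) with h2 | h2
        · rw [mul_smul, show φ (h' i) • v = v from h2.2, show φ (h' i) • v = v from h2.2]
        · rw [mul_smul, show φ (h' i) • v = u from h2.2, show φ (h' i) • u = v from h2.1]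
      · rw [mul_smul, hfix', hfix']
    rcases h' 0 with a | a <;> rcases h' 1 with b | b <;> rcases h' 2 with c | c <;>
      first
        | exact absurd (hy (a.trans b.symm)) (by decide)
        | exact absurd (hy (a.trans c.symm)) (by decide)
        | exact absurd (hy (b.trans c.symm)) (by decide)
  · exact h

theorem card_order_four : (Finset.univ.filter fun g : Equiv.Perm (Fin 4) => g ^ 2 ≠ 1 ∧ g ^ 3 ≠ 1).card
    = 6 := by decide

/-- At most twelve points are fixed by elements of order four of a subgroup `S₄`. -/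
theorem card_le_twelve {F : Type*} [Field F] [Finite F] (H : Subgroup PGL(2, F))
    (e : H ≃* Equiv.Perm (Fin 4)) (hh : ∀ x : P1 F, ∃ h ∈ H, h • x = x ∧ h ^ 2 ≠ 1 ∧ h ^ 3 ≠ 1) :
    Nat.card F + 1 ≤ 12 := by
  classical
  rw [← Projectivization.card_of_finrank_two F (Fin 2 → F) (by simp)]
  have := Fintype.ofFinite (P1 F)
  choose h hhH hfix h2 h3 using hh
  have := Finset.card_le_mul_card_image_of_maps_to (s := (Finset.univ : Finset (P1 F)))
    (t := Finset.univ.filter fun g : Equiv.Perm (Fin 4) => g ^ 2 ≠ 1 ∧ g ^ 3 ≠ 1)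
    (f := fun x => e ⟨h x, hhH x⟩) (fun x _ => by
      simp only [Finset.mem_filter, Finset.mem_univ, true_and, ← map_pow, ne_eq,
        EmbeddingLike.map_eq_one_iff]
      exact ⟨fun a => h2 x (congrArg Subtype.val a), fun a => h3 x (congrArg Subtype.val a)⟩) 2
    (fun g _ => by
      by_contra hlt
      obtain ⟨a, ha, b, hb, c, hc, hab, hac, hbc⟩ := Finset.two_lt_card.1 (not_le.1 hlt)
      simp only [Finset.mem_filter, Finset.mem_univ, true_and] at ha hb hc
      have e1 : h b = h a := congrArg Subtype.val (e.injective (hb.trans ha.symm))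
      have e2 : h c = h a := congrArg Subtype.val (e.injective (hc.trans ha.symm))
      refine h2 a ?_
      rw [eq_one_of_fix_three (h a) hab hac hbc (hfix a) (e1 ▸ hfix b) (e2 ▸ hfix c), one_pow])
  rw [card_order_four, Finset.card_univ, ← Nat.card_eq_fintype_card] at this
  exact this

variable {G : Type*} [Group G] [Finite G] {p : ℕ} [hp : Fact p.Prime]

/-- `P` has order `p³`, exponent `p`, and centre and derived group `⟨z⟩`. -/
structure ES (p : ℕ) (P : Subgroup G) (z : G) : Prop where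
  card : Nat.card P = p ^ 3
  exp : ∀ g ∈ P, g ^ p = 1
  ord : orderOf z = p
  mem : z ∈ P
  cent : ∀ g ∈ P, g ∈ zpowers z ↔ ∀ h ∈ P, h * g = g * h
  comm : ∀ g ∈ P, ∀ h ∈ P, ⁅g, h⁆ ∈ zpowers z

theorem exists_es {P : Subgroup G} (hE : IsExtraspecial p P) (hcard : Nat.card P = p ^ 3)
    (hexp : Monoid.exponent P = p) : ∃ z, ES p P z := by
  have hZ : (center P).index = p ^ 2 := by
    have := (center P).card_mul_index
    rw [hE.2, hcard, pow_succ' p 2] at this
    exact Nat.eq_of_mul_eq_mul_left hp.out.pos this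
  obtain ⟨z, h1, h2, h3, -⟩ := AC.exists_z hZ
  have h4 : center P = zpowers z := AC.eq_zpowers_of_card hE.2 h2 fun e => by
    rw [e, orderOf_one] at h1; exact hp.out.one_lt.ne h1
  have h5 : ∀ g : P, (g : G) ∈ zpowers (z : G) ↔ g ∈ zpowers z := fun g => by
    rw [show zpowers (z : G) = (zpowers z).map P.subtype from (MonoidHom.map_zpowers P.subtype z).symm]
    exact mem_map_iff_mem P.subtype_injective
  refine ⟨z, hcard, fun g hg => congrArg Subtype.val
    (hexp ▸ Monoid.pow_exponent_eq_one (⟨g, hg⟩ : P)), by rw [Subgroup.orderOf_coe, h1], z.2,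
    fun g hg => ?_, fun g hg h hh => (h5 ⁅⟨g, hg⟩, ⟨h, hh⟩⁆).2 (h3 _ _)⟩
  rw [h5 ⟨g, hg⟩, ← h4, mem_center_iff]
  exact ⟨fun h a ha => congrArg Subtype.val (h ⟨a, ha⟩), fun h a => Subtype.ext (h a a.2)⟩

namespace ES

variable {P : Subgroup G} {z : G}

theorem z_ne (h : ES p P z) : z ≠ 1 := fun e => by
  have := h.ord
  rw [e, orderOf_one] at this; exact hp.out.one_lt.ne this

theorem Z_le (h : ES p P z) : zpowers z ≤ P := zpowers_le.2 h.mem

theorem card_Z (h : ES p P z) : Nat.card (zpowers z) = p := by rw [Nat.card_zpowers, h.ord]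

theorem commZ (h : ES p P z) {w g : G} (hw : w ∈ zpowers z) (hg : g ∈ P) : Commute g w :=
  (h.cent w (h.Z_le hw)).1 hw g hg

theorem eq_of_lt (h : ES p P z) {A C : Subgroup G} (hA : Nat.card A = p ^ 2) (h1 : A < C)
    (h2 : C ≤ P) : C = P := by
  obtain ⟨j, hj, e⟩ := (Nat.dvd_prime_pow hp.out).1 (h.card ▸ card_dvd_of_le h2)
  have h3 : Nat.card A < Nat.card C :=
    lt_of_le_of_ne (Subgroup.card_le_of_le h1.le) fun e => h1.ne (eq_of_le_of_card_ge h1.le e.ge)
  rw [hA, e, Nat.pow_lt_pow_iff_right hp.out.one_lt] at h3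
  refine eq_of_le_of_card_ge h2 ?_
  rw [e, h.card, show j = 3 by omega]

omit hp in
theorem comm_of_card [Fact p.Prime] {A : Subgroup G} (hA : Nat.card A = p ^ 2) {a b : G} (ha : a ∈ A)
    (hb : b ∈ A) : a * b = b * a :=
  have := IsPGroup.isMulCommutative_of_card_eq_prime_sq hA
  setLike_mul_comm ha hb

theorem comm_ne (h : ES p P z) {A : Subgroup G} (hAP : A ≤ P) (hA : Nat.card A = p ^ 2) {y b : G}
    (hy : y ∈ A) (hyz : y ∉ zpowers z) (hb : b ∈ P) (hbA : b ∉ A) : ⁅b, y⁆ ≠ 1 := by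
  intro e
  have h1 : A < P ⊓ centralizer {y} := by
    refine lt_of_le_of_ne (le_inf hAP fun a ha => ?_) fun e' => hbA (e' ▸ ⟨hb, ?_⟩)
    · exact mem_centralizer_singleton_iff.2 (comm_of_card hA ha hy)
    · exact mem_centralizer_singleton_iff.2 (commutatorElement_eq_one_iff_mul_comm.1 e)
  have h2 := h.eq_of_lt hA h1 inf_le_left
  exact hyz ((h.cent y (hAP hy)).2 fun g hg =>
    mem_centralizer_singleton_iff.1 (h2.ge hg).2)

theorem exists_not_mem (h : ES p P z) {A : Subgroup G} (hA : Nat.card A = p ^ 2) :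
    ∃ y ∈ A, y ∉ zpowers z := by
  by_contra hn
  push Not at hn
  have := Subgroup.card_le_of_le (show A ≤ zpowers z from hn)
  rw [hA, h.card_Z] at this
  have := hp.out.one_lt
  nlinarith

theorem exists_not_mem' (h : ES p P z) {A : Subgroup G} (hA : Nat.card A = p ^ 2) :
    ∃ b ∈ P, b ∉ A := by
  by_contra hn
  push Not at hn
  have := Subgroup.card_le_of_le (show P ≤ A from hn)
  rw [hA, h.card, Nat.pow_le_pow_iff_right hp.out.one_lt] at this
  omega

theorem z_mem (h : ES p P z) {A : Subgroup G} (hAP : A ≤ P) (hA : Nat.card A = p ^ 2) : z ∈ A := by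
  by_contra hz
  obtain ⟨y, hy, hyz⟩ := h.exists_not_mem hA
  exact h.comm_ne hAP hA hy hyz h.mem hz (h.commZ (mem_zpowers z) (hAP hy)).symm.commutator_eq

theorem le_normalizer (h : ES p P z) {A : Subgroup G} (hAP : A ≤ P) (hA : Nat.card A = p ^ 2) :
    P ≤ normalizer (A : Set G) :=
  le_normalizer_iff_commutator_le_right.2 (commutator_le.2 fun g hg a ha =>
    zpowers_le.2 (h.z_mem hAP hA) (h.comm g hg a (hAP ha)))

theorem zpowers_eq (h : ES p P z) {w : G} (hw : w ∈ zpowers z) (h1 : w ≠ 1) :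
    zpowers z = zpowers w := AC.eq_zpowers_of_card h.card_Z hw h1

theorem comm_zpow_left (h : ES p P z) {b y : G} (hb : b ∈ P) (hy : y ∈ P) (j : ℤ) :
    ⁅b ^ j, y⁆ = ⁅b, y⁆ ^ j := by
  have hc := h.commZ (h.comm b hb y hy) hb
  have e : y * b⁻¹ * y⁻¹ = b⁻¹ * ⁅b, y⁆ := by simp only [commutatorElement_def]; group
  have : ⁅b ^ j, y⁆ = b ^ j * (y * b⁻¹ * y⁻¹) ^ j := by
    rw [conj_zpow, commutatorElement_def]; group
  rw [this, e, hc.inv_left.mul_zpow]; group

/-- The torus of an `SL₂(p)` acting on `A` extends to the normalizer of `P`. -/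
theorem exists_torus {S : Sylow p G} (h : ES p (S : Subgroup G) z) {A : Subgroup G}
    (hAP : A ≤ S) (hA : Nat.card A = p ^ 2) {g : G} (hg : g ∈ normalizer (A : Set G))
    (hgz : g * z * g⁻¹ ∉ zpowers z) : ∃ y ∈ A, y ∉ zpowers z ∧ ∀ l m : ℤ, (p : ℤ) ∣ l * m - 1 →
      ∃ n ∈ normalizer ((S : Subgroup G) : Set G), n * z * n⁻¹ = z ^ l ∧ n * y * n⁻¹ = y ^ m := by
  obtain ⟨b, hb, hbA⟩ := h.exists_not_mem' hA
  have hzA := h.z_mem hAP hA
  have hPA := h.le_normalizer hAP hA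
  let t := A.normalizerMonoidHom ⟨b, hPA hb⟩
  have ht : ∀ a : A, (t a : G) = b * a * b⁻¹ := fun a => rfl
  have hfix : ∀ a : A, t a = a → (a : G) ∈ zpowers z := fun a ha => by
    by_contra hn
    refine h.comm_ne hAP hA a.2 hn hb hbA ?_
    rw [commutatorElement_def, ← ht, ha, mul_inv_cancel]
  obtain ⟨x, y, hx, hgen, hind, hβ⟩ := AC.exists_sl2_coord (G := A) (ℬ := A.normalizerMonoidHom.range)
    (fun a b => Subtype.ext (comm_of_card hA a.2 b.2))
    (fun a => Subtype.ext (h.exp a (hAP a.2))) hA (t := t) ⟨_, rfl⟩ (fun e => by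
      obtain ⟨y, hy, hyz⟩ := h.exists_not_mem hA
      exact hyz (hfix ⟨y, hy⟩ (by rw [e]; rfl))) (k := 1) (by
      rw [pow_one, ← map_pow, show (⟨b, hPA hb⟩ : normalizer (A : Set G)) ^ p = 1 from
        Subtype.ext (h.exp b hb), map_one]) (fun L hL => by
      by_contra hn
      push Not at hn
      have hLc := AC.card_eq_prime_of_ne hA hn.1 hn.2
      have hLZ : ∀ y ∈ L, (y : G) ∈ zpowers z := fun y hy => by
        by_contra hyz
        have h1 : t y * y⁻¹ ∈ L := mul_mem (hL t ⟨_, rfl⟩ y hy) (inv_mem hy)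
        have h2 : t y * y⁻¹ ≠ 1 := fun e => hyz (hfix y (mul_inv_eq_one.1 e))
        rw [AC.eq_zpowers_of_card hLc h1 h2] at hy
        obtain ⟨k, hk⟩ := hy
        rw [← hk] at hyz
        exact hyz (zpow_mem (h.comm b hb y (hAP y.2)) k)
      obtain ⟨⟨w, hw⟩, hw1⟩ := ne_bot_iff_exists_ne_one.1 hn.1
      have hw2 : (w : G) ≠ 1 := fun e => hw1 (Subtype.ext (Subtype.ext e))
      have hz : z ∈ zpowers (w : G) := h.zpowers_eq (hLZ w hw) hw2 ▸ mem_zpowers z
      obtain ⟨k, hk⟩ := hz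
      have hzL : (⟨z, hzA⟩ : A) ∈ L := by
        rw [show (⟨z, hzA⟩ : A) = w ^ k from Subtype.ext hk.symm]; exact zpow_mem hw k
      exact hgz (hLZ _ (hL (A.normalizerMonoidHom ⟨g, hg⟩) ⟨_, rfl⟩ _ hzL)))
  have hxz := hfix x hx
  have hx1 : (x : G) ≠ 1 := fun e => by
    have := (hind 1 0 (by rw [show x = 1 from Subtype.ext e]; simp)).1
    exact hp.out.one_lt.ne' (by exact_mod_cast Int.eq_one_of_dvd_one (by positivity) this)
  have hZx := h.zpowers_eq hxz hx1
  have hyz : (y : G) ∉ zpowers z := fun hy => by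
    rw [hZx] at hy
    obtain ⟨k, hk⟩ := hy
    have := (hind k (-1) (Subtype.ext (by simp [← hk]))).2
    exact hp.out.one_lt.ne' (by
      exact_mod_cast Int.eq_one_of_dvd_one (by positivity) (Int.dvd_neg.1 this))
  refine ⟨y, y.2, hyz, fun l m hlm => ?_⟩
  obtain ⟨_, ⟨v, rfl⟩, h1, h2⟩ := hβ l 0 0 m (by simpa using hlm)
  have h1' : (v : G) * x * (v : G)⁻¹ = (x : G) ^ l := by simpa using congrArg Subtype.val h1
  have h2' : (v : G) * y * (v : G)⁻¹ = (y : G) ^ m := by simpa using congrArg Subtype.val h2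
  have hvZ : ∀ w ∈ zpowers z, (v : G) * w * (v : G)⁻¹ = w ^ l := by
    rw [hZx]
    rintro _ ⟨k, rfl⟩
    rw [← conj_zpow, h1', ← _root_.zpow_mul, ← _root_.zpow_mul, mul_comm]
  have hvZ' : ∀ w ∈ zpowers z, (v : G)⁻¹ * w * (v : G) ∈ zpowers z := by
    have : (v : G) ∈ normalizer (zpowers z : Set G) :=
      mem_normalizer_fintype fun w hw => hvZ w hw ▸ zpow_mem hw l
    exact fun w hw => (mem_normalizer_iff''.1 this w).1 hw
  have hSC : (S : Subgroup G) ≤ normalizer (centralizer (A : Set G) : Set G) :=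
    hPA.trans (Amb.normalizer_le_normalizer_centralizer _)
  obtain ⟨c, hc, hcS⟩ := (sylIn_of_sylow_le S le_sup_left).exists_conj_of_sup hSC
    (S.isPGroup'.map (MulAut.conj (v : G)).toMonoidHom) (by
      rintro _ ⟨u, hu, rfl⟩
      have hy' : (v : G)⁻¹ * y * v ∈ A := (mem_normalizer_iff''.1 v.2 _).1 y.2
      have hw : (v : G) * ⁅u, (v : G)⁻¹ * y * v⁆ * (v : G)⁻¹ ∈ zpowers ⁅b, (y : G)⁆ := by
        rw [← h.zpowers_eq (h.comm b hb y (hAP y.2)) (h.comm_ne hAP hA y.2 hyz hb hbA),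
          hvZ _ (h.comm u hu _ (hAP hy'))]
        exact zpow_mem (h.comm u hu _ (hAP hy')) l
      obtain ⟨j, hj⟩ := mem_zpowers_iff.1 hw
      rw [← h.comm_zpow_left hb (hAP y.2)] at hj
      have e : (MulAut.conj (v : G)).toMonoidHom u = b ^ j * ((b ^ j)⁻¹ * (v * u * (v : G)⁻¹)) := by
        simp
      rw [e]
      refine mul_mem_sup (zpow_mem hb j) fun a ha => ?_
      obtain ⟨r, s, e⟩ := hgen ⟨a, ha⟩
      have e' : a = (x : G) ^ r * (y : G) ^ s := congrArg Subtype.val e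
      rw [e']
      refine (Commute.mul_left (Commute.zpow_left ?_ r) (Commute.zpow_left ?_ s)).eq
      · refine (h.commZ hxz (inv_mem (zpow_mem hb j))).symm.mul_right ?_
        have := (h.commZ (hvZ' _ hxz) hu).eq
        show (x : G) * (v * u * (v : G)⁻¹) = v * u * (v : G)⁻¹ * x
        calc (x : G) * (v * u * (v : G)⁻¹) = v * ((v : G)⁻¹ * x * v * u) * (v : G)⁻¹ := by group
          _ = _ := by rw [← this]; group
      · show (y : G) * ((b ^ j)⁻¹ * (v * u * (v : G)⁻¹)) = (b ^ j)⁻¹ * (v * u * (v : G)⁻¹) * y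
        simp only [commutatorElement_def] at hj
        calc (y : G) * ((b ^ j)⁻¹ * (v * u * (v : G)⁻¹))
            = (b ^ j)⁻¹ * (b ^ j * y * (b ^ j)⁻¹ * (y : G)⁻¹) * y * (v * u * (v : G)⁻¹) := by group
          _ = _ := by rw [hj]; group)
  refine ⟨c * v, mem_normalizer_fintype fun u hu => ?_, ?_, ?_⟩
  · have := hcS _ (mem_map_of_mem (MulAut.conj (v : G)).toMonoidHom hu)
    rw [show c * v * u * (c * v)⁻¹ = c * (v * u * (v : G)⁻¹) * c⁻¹ by group]
    exact this
  · rw [show c * v * z * (c * v)⁻¹ = c * (v * z * (v : G)⁻¹) * c⁻¹ by group,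
      hvZ z (mem_zpowers z), ← hc _ (zpow_mem hzA l), mul_inv_cancel_right]
  · rw [show c * v * y * (c * v)⁻¹ = c * (v * y * (v : G)⁻¹) * c⁻¹ by group,
      h2', ← hc _ (zpow_mem y.2 m), mul_inv_cancel_right]

theorem exists_coord (h : ES p P z) : ∃ c : G → Fin 2 → ZMod p,
    (∀ g ∈ P, ∀ g' ∈ P, c (g * g') = c g + c g') ∧ (∀ g ∈ P, c g = 0 ↔ g ∈ zpowers z) ∧
      ∀ v, ∃ g ∈ P, c g = v := by
  classical
  have hn : ((zpowers z).subgroupOf P).Normal := ⟨fun w hw g => by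
    rw [mem_subgroupOf] at hw ⊢
    show (g : G) * w * (g : G)⁻¹ ∈ _
    rw [(h.commZ hw g.2).eq, mul_inv_cancel_right]; exact hw⟩
  have hc : Nat.card (P ⧸ (zpowers z).subgroupOf P) = p ^ 2 := by
    have := card_eq_card_quotient_mul_card_subgroup ((zpowers z).subgroupOf P)
    rw [Nat.card_congr (subgroupOfEquivOfLe h.Z_le).toEquiv, h.card_Z, h.card, pow_succ] at this
    exact (Nat.eq_of_mul_eq_mul_right hp.out.pos this).symm
  have hcm := IsPGroup.isMulCommutative_of_card_eq_prime_sq hc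
  have he : ∀ q : P ⧸ (zpowers z).subgroupOf P, q ^ p = 1 := fun q => by
    obtain ⟨g, rfl⟩ := QuotientGroup.mk_surjective q
    rw [← QuotientGroup.mk_pow, show g ^ p = 1 from Subtype.ext (h.exp g g.2), QuotientGroup.mk_one]
  have : Nontrivial (P ⧸ (zpowers z).subgroupOf P) := Finite.one_lt_card_iff_nontrivial.1 (by
    rw [hc]; exact Nat.one_lt_pow two_ne_zero hp.out.one_lt)
  obtain ⟨x, hx⟩ := exists_ne (1 : P ⧸ (zpowers z).subgroupOf P)
  obtain ⟨y, hy⟩ : ∃ y, y ∉ zpowers x := by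
    by_contra hn
    push Not at hn
    have h1 := Nat.card_zpowers x
    rw [show zpowers x = ⊤ from eq_top_iff.2 fun y _ => hn y, card_top, hc, orderOf_eq_prime (he x) hx] at h1
    have := hp.out.one_lt
    nlinarith
  obtain ⟨e, -⟩ := AC.exists_equiv₂_of_gen (he x) (he y) (mul_comm' x y)
    (AC.gen_of_card_sq hc (mul_comm' x y) hx hy) (by rw [hc, sq])
  let d : P → ZMod p × ZMod p := fun g => Multiplicative.toAdd (e.symm g)
  refine ⟨fun g => if hg : g ∈ P then ![(d ⟨g, hg⟩).1, (d ⟨g, hg⟩).2] else 0,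
    fun g hg g' hg' => ?_, fun g hg => ?_, fun v => ?_⟩
  · have : d ⟨g * g', mul_mem hg hg'⟩ = d ⟨g, hg⟩ + d ⟨g', hg'⟩ := by
      simp only [d]
      rw [← toAdd_mul, ← map_mul, ← QuotientGroup.mk_mul]; rfl
    simp only [hg, hg', mul_mem hg hg', dif_pos, this]
    ext i; fin_cases i <;> simp
  · simp only [hg, dif_pos]
    rw [← mem_subgroupOf (H := zpowers z) (K := P) (h := ⟨g, hg⟩), 
      ← QuotientGroup.eq_one_iff (N := (zpowers z).subgroupOf P),
      ← e.symm.map_eq_one_iff, ← toAdd_eq_zero]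
    constructor
    · intro h1
      exact Prod.ext (congrFun h1 0) (congrFun h1 1)
    · intro h1
      ext i; fin_cases i <;> simp [d, h1]
  · obtain ⟨g, hg⟩ := QuotientGroup.mk_surjective (e (Multiplicative.ofAdd (v 0, v 1)))
    refine ⟨g, g.2, ?_⟩
    simp only [g.2, dif_pos, d, Subtype.coe_eta, hg, MulEquiv.symm_apply_apply]
    ext i; fin_cases i <;> simp

end ES

/-- Coordinates on `P / ⟨z⟩`. -/
structure Coord (p : ℕ) (P : Subgroup G) (z : G) (c : G → Fin 2 → ZMod p) : Prop where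
  es : ES p P z
  add : ∀ g ∈ P, ∀ g' ∈ P, c (g * g') = c g + c g'
  zero : ∀ g ∈ P, c g = 0 ↔ g ∈ zpowers z
  surj : ∀ v, ∃ g ∈ P, c g = v

namespace Coord

variable {P : Subgroup G} {z : G} {c : G → Fin 2 → ZMod p}

theorem one (h : Coord p P z c) : c 1 = 0 := (h.zero 1 (one_mem _)).2 (one_mem _)

theorem inv (h : Coord p P z c) {g : G} (hg : g ∈ P) : c g⁻¹ = - c g := by
  rw [eq_neg_iff_add_eq_zero, ← h.add _ (inv_mem hg) _ hg, inv_mul_cancel, h.one]

theorem zpow (h : Coord p P z c) {g : G} (hg : g ∈ P) (k : ℤ) : c (g ^ k) = (k : ZMod p) • c g := by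
  induction k using Int.induction_on with
  | zero => simp [h.one]
  | succ k ih => rw [_root_.zpow_add_one, h.add _ (zpow_mem hg _) _ hg, ih]; simp [add_smul]
  | pred k ih =>
    rw [_root_.zpow_sub_one, h.add _ (zpow_mem hg _) _ (inv_mem hg), ih, h.inv hg]
    simp [add_smul, sub_eq_add_neg]

theorem eq_iff (h : Coord p P z c) {g g' : G} (hg : g ∈ P) (hg' : g' ∈ P) :
    c g = c g' ↔ g'⁻¹ * g ∈ zpowers z := by
  rw [← h.zero _ (mul_mem (inv_mem hg') hg), h.add _ (inv_mem hg') _ hg, h.inv hg',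
    neg_add_eq_zero, eq_comm]

theorem conj_Z (h : Coord p P z c) {n w : G} (hn : n ∈ normalizer (P : Set G))
    (hw : w ∈ zpowers z) : n * w * n⁻¹ ∈ zpowers z := by
  refine (h.es.cent _ ((mem_normalizer_iff.1 hn w).1 (h.es.Z_le hw))).2 fun g hg => ?_
  have := (h.es.commZ hw ((mem_normalizer_iff''.1 hn g).1 hg)).eq
  calc g * (n * w * n⁻¹) = n * (n⁻¹ * g * n * w) * n⁻¹ := by group
    _ = _ := by rw [this]; group

/-- The matrices induced by the normalizer of `P`. -/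
def img (h : Coord p P z c) : Subgroup (GL (Fin 2) (ZMod p)) where
  carrier := {M | ∃ n ∈ normalizer (P : Set G), ∀ g ∈ P,
    c (n * g * n⁻¹) = (M : Matrix (Fin 2) (Fin 2) (ZMod p)) *ᵥ c g}
  one_mem' := ⟨1, one_mem _, fun g _ => by simp⟩
  mul_mem' := by
    rintro M M' ⟨n, hn, e⟩ ⟨n', hn', e'⟩
    refine ⟨n * n', mul_mem hn hn', fun g hg => ?_⟩
    rw [show n * n' * g * (n * n')⁻¹ = n * (n' * g * n'⁻¹) * n⁻¹ by group,
      e _ ((mem_normalizer_iff.1 hn' g).1 hg), e' g hg, Matrix.mulVec_mulVec, Units.val_mul]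
  inv_mem' := by
    rintro M ⟨n, hn, e⟩
    refine ⟨n⁻¹, inv_mem hn, fun g hg => ?_⟩
    have := e _ ((mem_normalizer_iff''.1 hn g).1 hg)
    rw [show n * (n⁻¹ * g * n) * n⁻¹ = g by group] at this
    rw [this, Matrix.mulVec_mulVec, ← Units.val_mul, inv_mul_cancel, inv_inv]
    simp

theorem exists_mat (h : Coord p P z c) {n : G} (hn : n ∈ normalizer (P : Set G)) :
    ∃ M : GL (Fin 2) (ZMod p), ∀ g ∈ P,
      c (n * g * n⁻¹) = (M : Matrix (Fin 2) (Fin 2) (ZMod p)) *ᵥ c g := by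
  choose s hs hcs using h.surj
  have hP : ∀ g ∈ P, n * g * n⁻¹ ∈ P := fun g hg => (mem_normalizer_iff.1 hn g).1 hg
  have key : ∀ g ∈ P, c (n * s (c g) * n⁻¹) = c (n * g * n⁻¹) := fun g hg => by
    rw [h.eq_iff (hP _ (hs _)) (hP _ hg),
      show (n * g * n⁻¹)⁻¹ * (n * s (c g) * n⁻¹) = n * (g⁻¹ * s (c g)) * n⁻¹ by group]
    exact h.conj_Z hn ((h.eq_iff (hs _) hg).1 (hcs _))
  let f : (Fin 2 → ZMod p) →+ (Fin 2 → ZMod p) := AddMonoidHom.mk' (fun v => c (n * s v * n⁻¹))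
    fun v w => by
      have := key _ (mul_mem (hs v) (hs w))
      rw [h.add _ (hs v) _ (hs w), hcs, hcs] at this
      rw [this, ← h.add _ (hP _ (hs v)) _ (hP _ (hs w))]
      congr 1; group
  let M := LinearMap.toMatrix' (f.toZModLinearMap p)
  have hM : ∀ v, M *ᵥ v = c (n * s v * n⁻¹) := fun v => by
    simp only [M, LinearMap.toMatrix'_mulVec]; rfl
  have hd : M.det ≠ 0 := fun e => by
    obtain ⟨v, hv, e⟩ := Matrix.exists_mulVec_eq_zero_iff.2 e
    rw [hM, h.zero _ (hP _ (hs v))] at e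
    have := h.conj_Z (inv_mem hn) e
    rw [show n⁻¹ * (n * s v * n⁻¹) * n⁻¹⁻¹ = s v by group, ← h.zero _ (hs v), hcs] at this
    exact hv this
  exact ⟨Matrix.GeneralLinearGroup.mkOfDetNeZero M hd, fun g hg => by
    rw [← key g hg, ← hM]; rfl⟩

theorem pow_act (h : Coord p P z c) {n : G} (hn : n ∈ normalizer (P : Set G))
    {M : GL (Fin 2) (ZMod p)}
    (hM : ∀ g ∈ P, c (n * g * n⁻¹) = (M : Matrix (Fin 2) (Fin 2) (ZMod p)) *ᵥ c g) (j : ℕ) :
    ∀ g ∈ P, c (n ^ j * g * (n ^ j)⁻¹) =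
      ((M ^ j : GL (Fin 2) (ZMod p)) : Matrix (Fin 2) (Fin 2) (ZMod p)) *ᵥ c g := by
  induction j with
  | zero => intro g _; simp
  | succ j ih =>
    intro g hg
    rw [show n ^ (j + 1) * g * (n ^ (j + 1))⁻¹ = n ^ j * (n * g * n⁻¹) * (n ^ j)⁻¹ by group,
      ih _ ((mem_normalizer_iff.1 hn g).1 hg), hM g hg, Matrix.mulVec_mulVec, pow_succ,
      Units.val_mul]

theorem tame {S : Sylow p G} (h : Coord p (S : Subgroup G) z c) :
    ∀ g ∈ h.img.map Matrix.ProjGenLinGroup.mk, g ^ p = 1 → g = 1 := by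
  rintro _ ⟨M, ⟨n, hn, hM⟩, rfl⟩ hg
  set N := normalizer ((S : Subgroup G) : Set G)
  have h1 : n ^ ((S : Subgroup G).subgroupOf N).index ∈ (S : Subgroup G) :=
    Subgroup.pow_index_mem ((S : Subgroup G).subgroupOf N) ⟨n, hn⟩
  have h2 : ¬ p ∣ ((S : Subgroup G).subgroupOf N).index :=
    (sylIn_of_sylow_le S Subgroup.le_normalizer).not_dvd_relIndex
  set k := ((S : Subgroup G).subgroupOf N).index
  have h3 : M ^ k = 1 := by
    refine Units.ext (Matrix.ext_of_mulVec_single fun i => ?_)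
    obtain ⟨g, hg, e⟩ := h.surj (Pi.single i 1)
    rw [← e, ← h.pow_act hn hM k g hg, h.add _ (mul_mem h1 hg) _ (inv_mem h1), h.add _ h1 _ hg,
      h.inv h1]
    simp
  have h4 : Matrix.ProjGenLinGroup.mk M ^ k = 1 := by rw [← map_pow, h3, map_one]
  exact orderOf_eq_one_iff.1 (Nat.eq_one_of_dvd_coprimes ((Nat.Prime.coprime_iff_not_dvd hp.out).2 h2)
    (orderOf_dvd_of_pow_eq_one hg) (orderOf_dvd_of_pow_eq_one h4))

/-- A subgroup `A` of order `p²` whose automizer moves `⟨z⟩` gives a point fixed by an element of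
large order. -/
theorem exists_point {S : Sylow p G} (h : Coord p (S : Subgroup G) z c) {A : Subgroup G}
    (hAP : A ≤ S) (hA : Nat.card A = p ^ 2) {g : G} (hg : g ∈ normalizer (A : Set G))
    (hgz : g * z * g⁻¹ ∉ zpowers z) : ∃ y ∈ A, ∃ hy : c y ≠ 0,
      ∃ t ∈ h.img.map Matrix.ProjGenLinGroup.mk,
        t • Projectivization.mk (ZMod p) (c y) hy = Projectivization.mk (ZMod p) (c y) hy ∧
        ∀ j : ℕ, t ^ j = 1 → p - 1 ∣ 3 * j := by
  obtain ⟨y, hy, hyz, h1⟩ := h.es.exists_torus hAP hA hg hgz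
  have hy0 : c y ≠ 0 := fun e => hyz ((h.zero y (hAP hy)).1 e)
  obtain ⟨u, hu⟩ := IsCyclic.exists_ofOrder_eq_natCard (α := (ZMod p)ˣ)
  rw [Nat.card_eq_fintype_card, ZMod.card_units] at hu
  obtain ⟨l, hl⟩ := ZMod.intCast_surjective (u : ZMod p)
  obtain ⟨m, hm⟩ := ZMod.intCast_surjective ((u⁻¹ : (ZMod p)ˣ) : ZMod p)
  obtain ⟨n, hn, hz, hy'⟩ := h1 l m ((ZMod.intCast_zmod_eq_zero_iff_dvd _ _).1 (by
    push_cast; rw [hl, hm, Units.mul_inv, sub_self]))
  obtain ⟨M, hM⟩ := h.exists_mat hn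
  refine ⟨y, hy, hy0, _, ⟨M, ⟨n, hn, hM⟩, rfl⟩, ?_, fun j hj => ?_⟩
  · rw [Projectivization.PGL.mk_smul_mk, Projectivization.mk_eq_mk_iff]
    refine ⟨u⁻¹, ?_⟩
    have := hM y (hAP hy)
    rw [hy', h.zpow (hAP hy), hm] at this
    exact this
  · rw [← map_pow, pmk_eq_one_iff] at hj
    obtain ⟨s, hs⟩ := ZMod.intCast_surjective ((M ^ j) 0 0)
    have hMj : ∀ g ∈ (S : Subgroup G), c (n ^ j * g * (n ^ j)⁻¹) = c (g ^ s) := fun g hg => by
      rw [h.pow_act hn hM j g hg, h.zpow hg, hs]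
      generalize M ^ j = N at hj
      ext i
      fin_cases i <;> simp [Matrix.mulVec, dotProduct, hj.1, hj.2.1, hj.2.2]
    have hzj : ∀ j : ℕ, n ^ j * z * (n ^ j)⁻¹ = z ^ (l ^ j) ∧
        n ^ j * y * (n ^ j)⁻¹ = y ^ (m ^ j) := fun j => by
      induction j with
      | zero => simp
      | succ j ih =>
        constructor
        · rw [show n ^ (j + 1) * z * (n ^ (j + 1))⁻¹ = n * (n ^ j * z * (n ^ j)⁻¹) * n⁻¹ by group,
            ih.1, ← conj_zpow, hz, ← _root_.zpow_mul, pow_succ']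
        · rw [show n ^ (j + 1) * y * (n ^ (j + 1))⁻¹ = n * (n ^ j * y * (n ^ j)⁻¹) * n⁻¹ by group,
            ih.2, ← conj_zpow, hy', ← _root_.zpow_mul, pow_succ']
    have e1 : ((m : ZMod p)) ^ j = s := by
      have := hMj y (hAP hy)
      rw [(hzj j).2, h.zpow (hAP hy), h.zpow (hAP hy)] at this
      exact_mod_cast smul_left_injective _ hy0 this
    obtain ⟨b, hb, hbA⟩ := h.es.exists_not_mem' hA
    have hw := h.es.comm b hb y (hAP hy)
    have hw1 := h.es.comm_ne hAP hA hy hyz hb hbA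
    have hnj : n ^ j ∈ normalizer ((S : Subgroup G) : Set G) := pow_mem hn j
    have e2 : ⁅b, y⁆ ^ (l ^ j) = ⁅b, y⁆ ^ (s * m ^ j) := by
      have e3 : n ^ j * ⁅b, y⁆ * (n ^ j)⁻¹ = ⁅b, y⁆ ^ (l ^ j) := by
        obtain ⟨k, hk⟩ := mem_zpowers_iff.1 hw
        rw [← hk, ← conj_zpow, (hzj j).1, ← _root_.zpow_mul, ← _root_.zpow_mul, mul_comm]
      have hb' := (mem_normalizer_iff.1 hnj b).1 hb
      have e4 := (h.eq_iff hb' (zpow_mem hb s)).1 (hMj b hb)
      have e5 : n ^ j * b * (n ^ j)⁻¹ = b ^ s * ((b ^ s)⁻¹ * (n ^ j * b * (n ^ j)⁻¹)) := by group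
      rw [← e3, conjugate_commutatorElement, (hzj j).2, e5, commutatorElement_mul_left_eq_conj_mul,
        (h.es.commZ e4 (zpow_mem (hAP hy) _)).symm.commutator_eq,
        h.es.comm_zpow_left hb (zpow_mem (hAP hy) _), ← commutatorElement_inv,
        h.es.comm_zpow_left (hAP hy) hb, ← commutatorElement_inv b y]
      generalize ⁅b, y⁆ = w
      group
    have ho : orderOf ⁅b, y⁆ = p := orderOf_eq_prime (h.es.exp _ (h.es.Z_le hw)) hw1
    rw [zpow_eq_zpow_iff_modEq, ho, ← ZMod.intCast_eq_intCast_iff] at e2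
    push_cast at e2
    rw [← e1, hl, hm] at e2
    rw [← hu, orderOf_dvd_iff_pow_eq_one]
    have e6 : u ^ j = u⁻¹ ^ j * u⁻¹ ^ j := Units.ext (by
      rw [Units.val_mul, Units.val_pow_eq_pow_val, Units.val_pow_eq_pow_val]; exact e2)
    calc u ^ (3 * j) = u ^ j * (u ^ j * u ^ j) := by group
      _ = 1 := by nth_rewrite 1 [e6]; group

theorem point_ne (h : Coord p P z c) {A B : Subgroup G} (hAP : A ≤ P) (hA : Nat.card A = p ^ 2)
    (hBP : B ≤ P) (hB : Nat.card B = p ^ 2) {a b : G} (ha : a ∈ A) (hb : b ∈ B) (ha0 : c a ≠ 0)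
    (hb0 : c b ≠ 0)
    (e : Projectivization.mk (ZMod p) (c a) ha0 = Projectivization.mk (ZMod p) (c b) hb0) :
    A = B := by
  obtain ⟨u, hu⟩ := (Projectivization.mk_eq_mk_iff _ _ _ _ _).1 e
  obtain ⟨k, hk⟩ := ZMod.intCast_surjective (u : ZMod p)
  have h1 : c a = c (b ^ k) := by rw [h.zpow (hBP hb), hk, ← hu]; rfl
  have h2 := (h.eq_iff (hAP ha) (zpow_mem (hBP hb) k)).1 h1
  have h3 : a ∈ B := by
    simpa using B.mul_mem (zpow_mem hb k) (zpowers_le.2 (h.es.z_mem hBP hB) h2)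
  refine eq_of_le_of_card_ge (fun x hx => ?_) (by rw [hA, hB])
  by_contra hxB
  exact h.es.comm_ne hBP hB h3 (fun e => ha0 ((h.zero a (hAP ha)).2 e)) (hAP hx) hxB
    (commutatorElement_eq_one_iff_mul_comm.2 (ES.comm_of_card hA hx ha))

end Coord

theorem ES.coord {P : Subgroup G} {z : G} (h : ES p P z) : ∃ c, Coord p P z c := by
  obtain ⟨c, h1, h2, h3⟩ := h.exists_coord
  exact ⟨c, h, h1, h2, h3⟩

/-- Three subgroups of order `p²` whose automizers move the centre. -/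
theorem three {S : Sylow p G} {z : G} {c : G → Fin 2 → ZMod p}
    (h : Coord p (S : Subgroup G) z c) (A : Fin 3 → Subgroup G) (hA : Function.Injective A)
    (hAP : ∀ i, A i ≤ S) (hc : ∀ i, Nat.card (A i) = p ^ 2)
    (hg : ∀ i, ∃ g ∈ normalizer (A i : Set G), g * z * g⁻¹ ∉ zpowers z) (h7 : 7 < p) :
    p = 13 ∧ Nonempty (h.img.map Matrix.ProjGenLinGroup.mk ≃* Equiv.Perm (Fin 4)) := by
  choose g hg hgz using hg
  choose y hy hy0 t ht hfix hord using fun i => h.exists_point (hAP i) (hc i) (hg i) (hgz i)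
  have hsm : ∀ i j, 0 < j → t i ^ j = 1 → p - 1 ≤ 3 * j := fun i j hj e =>
    Nat.le_of_dvd (by omega) (hord i j e)
  obtain ⟨m, hm, h1⟩ := tame_points p _ h.tame
    (fun i => Projectivization.mk (ZMod p) (c (y i)) (hy0 i))
    (fun i j e => hA (h.point_ne (hAP i) (hc i) (hAP j) (hc j) (hy i) (hy j) _ _ e))
    (fun i => ⟨t i, ht i, hfix i, fun e => by have := hsm i 2 (by omega) e; omega⟩)
  have key : ∀ j : ℕ, orderOf (⟨t 0, ht 0⟩ : h.img.map Matrix.ProjGenLinGroup.mk) ∣ j →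
      p - 1 ∣ 3 * j := fun j hj =>
    hord 0 j (congrArg Subtype.val (orderOf_dvd_iff_pow_eq_one.1 hj))
  have hpr := hp.out
  have aux : ∀ j ≤ 5, 0 < j → p - 1 ∣ 3 * j → p = 13 ∧ j = 4 := fun j h5 h0 hd => by
    have := Nat.le_of_dvd (by omega) hd
    have h16 : p ≤ 16 := by omega
    interval_cases p <;> first | (exfalso; revert hpr; decide) | (interval_cases j <;> omega)
  have hm4 : p = 13 ∧ m = 4 := by
    rcases h1 ⟨t 0, ht 0⟩ with h2 | h2 | h2
    · have := aux 2 (by omega) (by omega) (key _ h2); omega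
    · have := aux 3 (by omega) (by omega) (key _ h2); omega
    · exact aux m (by omega) (by omega) (key _ h2)
  refine ⟨hm4.1, ?_⟩
  rcases small_of_orders hm h1 with ⟨⟨e⟩⟩ | e | ⟨⟨e⟩⟩
  · have := Nat.card_congr e.toEquiv
    rw [nat_card_alternatingGroup, Nat.card_eq_fintype_card (α := Fin _), Fintype.card_fin] at this
    simp only [Nat.factorial] at this
    omega
  · exact e
  · have := Nat.card_congr e.toEquiv
    rw [nat_card_alternatingGroup, Nat.card_eq_fintype_card (α := Fin _), Fintype.card_fin] at this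
    simp only [Nat.factorial] at this
    omega

end Cfsg.Agent.PLocal.ESCube
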