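import Mathlib
import Cfsg.Agent.PLocal.ThompsonAb
import Cfsg.Agent.PLocal.CommMod
import Cfsg.Agent.Grp.Card
import Cfsg.Agent.PLocal.KInf
import Cfsg.Agent.PLocal.ChiefAct
import Cfsg.Agent.S2003
import Cfsg.Agent.S0093
import Cfsg.Agent.S0121
import Cfsg.Agent.Grp.PFrattini

/-! The action of a large abelian subgroup on a class two normal subgroup has bounded degree
(Glauberman, prime-power factor groups). -/

set_option autoImplicit false

namespace Cfsg.Agent.PLocal.JDeg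

open Subgroup Cfsg.Agent.PLocal.CommMod Cfsg.Agent.PLocal.Amb
open scoped commutatorElement

variable {G : Type*} [Group G]

/-- The subgroup `[A, x]`. -/
def cm (A : Subgroup G) (x : G) : Subgroup G := closure {g | ∃ a ∈ A, g = ⁅a, x⁆}

theorem mem_cm {A : Subgroup G} {a : G} (ha : a ∈ A) (x : G) : ⁅a, x⁆ ∈ cm A x :=
  subset_closure ⟨a, ha, rfl⟩

theorem cm_le {A K : Subgroup G} {x : G} (h : ∀ a ∈ A, ⁅a, x⁆ ∈ K) : cm A x ≤ K := by
  rw [cm, closure_le]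
  rintro _ ⟨a, ha, rfl⟩
  exact h a ha

theorem le_normalizer_cm (A : Subgroup G) (x : G) : A ≤ normalizer (cm A x : Set G) := by
  rw [le_normalizer_iff]
  intro a ha m hm
  have : cm A x ≤ (cm A x).comap (MulAut.conj a).toMonoidHom := by
    refine cm_le fun b hb => ?_
    have e : a * ⁅b, x⁆ * a⁻¹ = ⁅a * b, x⁆ * ⁅a, x⁆⁻¹ := by
      simp only [commutatorElement_def]; group
    show a * ⁅b, x⁆ * a⁻¹ ∈ cm A x
    rw [e]
    exact mul_mem (mem_cm (mul_mem ha hb) x) (inv_mem (mem_cm ha x))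
  exact this hm

theorem le_centralizer_cm {A : Subgroup G} {x g : G} (h : ∀ a ∈ A, Commute g ⁅a, x⁆) :
    g ∈ centralizer (cm A x : Set G) := by
  have : cm A x ≤ centralizer {g} := cm_le fun a ha => by
    rw [mem_centralizer_singleton_iff]; exact (h a ha).symm.eq
  intro m hm
  exact (mem_centralizer_singleton_iff.1 (this hm))

theorem comm_swap {a b x : G} (hab : Commute a b) (h : Commute ⁅a, x⁆ ⁅b, x⁆) :
    ⁅a, ⁅b, x⁆⁆ = ⁅b, ⁅a, x⁆⁆ := by
  have e1 : ⁅a, ⁅b, x⁆⁆ = ⁅a * b, x⁆ * (⁅b, x⁆ * ⁅a, x⁆)⁻¹ := by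
    simp only [commutatorElement_def]; group
  have e2 : ⁅b, ⁅a, x⁆⁆ = ⁅b * a, x⁆ * (⁅a, x⁆ * ⁅b, x⁆)⁻¹ := by
    simp only [commutatorElement_def]; group
  rw [e1, e2, hab.eq, h.eq]

theorem comm_mul_of_commute {a u c : G} (h : Commute a c) : ⁅a, u * c⁆ = ⁅a, u⁆ := by
  rw [commutatorElement_mul_right_eq_mul_conj, h.commutator_eq]; group

theorem comm_mul_of_comm {a u v : G} (h : Commute u ⁅a, v⁆) : ⁅a, u * v⁆ = ⁅a, u⁆ * ⁅a, v⁆ := by
  rw [commutatorElement_mul_right_eq_mul_conj, mul_assoc ⁅a, u⁆, h.eq]; group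

theorem comm_mem_of_normalizer {a u : G} {K : Subgroup G} (ha : a ∈ normalizer (K : Set G))
    (hu : u ∈ K) : ⁅a, u⁆ ∈ K :=
  K.mul_mem (CommMod.conj_mem_of_mem_normalizer ha hu) (K.inv_mem hu)

theorem commute_of_mem {K : Subgroup G} (hK : IsMulCommutative K) {u v : G} (hu : u ∈ K)
    (hv : v ∈ K) : Commute u v := setLike_mul_comm hu hv

theorem exists_mul_of_mem_sup {H K : Subgroup G} (h : K ≤ normalizer (H : Set G)) {x : G}
    (hx : x ∈ H ⊔ K) : ∃ a ∈ H, ∃ b ∈ K, x = a * b := by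
  have hx' : x ∈ ((H ⊔ K : Subgroup G) : Set G) := hx
  rw [sup_comm, coe_mul_of_left_le_normalizer_right K H h] at hx'
  obtain ⟨b, hb, a, ha, rfl⟩ := hx'
  exact ⟨b * a * b⁻¹, CommMod.conj_mem_of_mem_normalizer (h hb) ha, b, hb, by group⟩

/-- Thompson's replacement lemma. -/
theorem thompson [Finite G] {S A : Subgroup G} (hA : A ∈ maxAb S) {x : G} (hx : x ∈ S)
    (hM : IsMulCommutative (cm A x)) :
    cm A x ⊔ (A ⊓ centralizer (cm A x : Set G)) ∈ maxAb S ∧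
      ∀ m ∈ cm A x, ∃ a ∈ A, ∃ c ∈ A, m = ⁅a, x⁆ * c := by
  classical
  set M := cm A x with hMdef
  set B := A ⊓ centralizer (M : Set G) with hB
  have hMS : M ≤ S := cm_le fun a ha => comm_mem_of_normalizer (le_normalizer (hA.1 ha)) hx
  have hab : IsMulCommutative (M ⊔ B : Subgroup G) := by
    rw [← le_centralizer_iff_isMulCommutative]
    have h1 : M ≤ centralizer (M : Set G) := le_centralizer_iff_isMulCommutative.2 hM
    have h2 : A ≤ centralizer (A : Set G) := le_centralizer_iff_isMulCommutative.2 hA.2.1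
    have h3 : B ≤ centralizer (M : Set G) := inf_le_right
    have h4 : M ≤ centralizer (B : Set G) := le_centralizer_iff.1 h3
    have h5 : B ≤ centralizer (B : Set G) :=
      (inf_le_left.trans h2).trans (centralizer_le (show (B : Set G) ⊆ A from inf_le_left))
    refine sup_le ?_ ?_ <;> rw [le_centralizer_iff] <;> exact sup_le (by assumption) (by assumption)
  have hMB : M ⊓ B = M ⊓ A := by
    refine le_antisymm (inf_le_inf_left _ inf_le_left) fun y hy => ⟨hy.1, hy.2, fun m hm => ?_⟩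
    exact setLike_mul_comm hm hy.1
  have hcard := Grp.card_sup_mul_card_inf_of_le_normalizer
    (show B ≤ normalizer (M : Set G) from inf_le_left.trans (le_normalizer_cm A x))
  have hle := hA.2.2 (M ⊔ B) (sup_le hMS (inf_le_left.trans hA.1)) hab
  -- the injection
  let f : A ⧸ B.subgroupOf A → M ⧸ (M ⊓ A).subgroupOf M := fun q =>
    ((⟨⁅(q.out : G), x⁆, mem_cm q.out.2 x⟩ : M) : M ⧸ (M ⊓ A).subgroupOf M)
  have hf : Function.Injective f := by
    intro q q' h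
    have h1 := QuotientGroup.eq.1 h
    rw [mem_subgroupOf] at h1
    rw [← q.out_eq', ← q'.out_eq', QuotientGroup.eq, mem_subgroupOf]
    set a : G := (q.out : G)
    set a' : G := (q'.out : G)
    have ha : a ∈ A := q.out.2
    have ha' : a' ∈ A := q'.out.2
    have hc : ⁅a, x⁆⁻¹ * ⁅a', x⁆ ∈ A := h1.2
    refine ⟨A.mul_mem (A.inv_mem ha) ha', le_centralizer_cm fun b hb => ?_⟩
    have e1 : ⁅a', ⁅b, x⁆⁆ = ⁅a, ⁅b, x⁆⁆ := by
      rw [comm_swap (commute_of_mem hA.2.1 ha' hb) (commute_of_mem hM (mem_cm ha' x) (mem_cm hb x)),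
        comm_swap (commute_of_mem hA.2.1 ha hb) (commute_of_mem hM (mem_cm ha x) (mem_cm hb x)),
        ← comm_mul_of_commute (u := ⁅a, x⁆) (commute_of_mem hA.2.1 hb hc), mul_inv_cancel_left]
    have e2 : a' * ⁅b, x⁆ * a'⁻¹ = a * ⁅b, x⁆ * a⁻¹ := by
      simpa only [commutatorElement_def a', commutatorElement_def a, mul_left_inj] using e1
    show a⁻¹ * a' * ⁅b, x⁆ = ⁅b, x⁆ * (a⁻¹ * a')
    calc a⁻¹ * a' * ⁅b, x⁆ = a⁻¹ * (a' * ⁅b, x⁆ * a'⁻¹) * a' := by group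
      _ = _ := by rw [e2]; group
  have c1 := card_eq_card_quotient_mul_card_subgroup (B.subgroupOf A)
  have c2 := card_eq_card_quotient_mul_card_subgroup ((M ⊓ A).subgroupOf M)
  rw [Nat.card_congr (subgroupOfEquivOfLe (show B ≤ A from inf_le_left)).toEquiv] at c1
  rw [Nat.card_congr (subgroupOfEquivOfLe (show M ⊓ A ≤ M from inf_le_left)).toEquiv] at c2
  have c3 := Nat.card_le_card_of_injective f hf
  rw [inf_comm, hMB, sup_comm] at hcard
  have hpos : 0 < Nat.card (M ⊓ A : Subgroup G) := Nat.card_pos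
  have hposB : 0 < Nat.card B := Nat.card_pos
  have c4 : Nat.card (M ⊔ B : Subgroup G) =
      Nat.card (M ⧸ (M ⊓ A).subgroupOf M) * Nat.card B := by
    refine Nat.eq_of_mul_eq_mul_right hpos ?_
    rw [hcard, c2]; ring
  have c5 : Nat.card (M ⧸ (M ⊓ A).subgroupOf M) ≤ Nat.card (A ⧸ B.subgroupOf A) := by
    rw [c4, c1] at hle
    exact Nat.le_of_mul_le_mul_right hle hposB
  refine ⟨mem_maxAb_of_card_le hA (sup_le hMS (inf_le_left.trans hA.1)) hab ?_, fun m hm => ?_⟩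
  · rw [c4, c1]; exact Nat.mul_le_mul_right _ c3
  · have hs : Function.Surjective f :=
      ((Nat.bijective_iff_injective_and_card f).2 ⟨hf, le_antisymm c3 c5⟩).2
    obtain ⟨q, hq⟩ := hs ((⟨m, hm⟩ : M) : M ⧸ (M ⊓ A).subgroupOf M)
    have h1 := QuotientGroup.eq.1 hq
    rw [mem_subgroupOf] at h1
    exact ⟨q.out, q.out.2, ⁅(q.out : G), x⁆⁻¹ * m, h1.2, by rw [mul_inv_cancel_left]⟩

/-! ### Upper series -/

/-- Iterated commutator `[a_1, [a_2, ..., [a_n, y]]]`. -/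
def T {A : Subgroup G} (y : G) (l : List A) : G := l.foldr (fun a v => ⁅(a : G), v⁆) y

@[simp] theorem T_nil {A : Subgroup G} (y : G) : T y ([] : List A) = y := rfl
@[simp] theorem T_cons {A : Subgroup G} (y : G) (a : A) (l : List A) :
    T y (a :: l) = ⁅(a : G), T y l⁆ := rfl
theorem T_append {A : Subgroup G} (y : G) (l l' : List A) : T y (l ++ l') = T (T y l') l := by
  simp [T]

theorem T_mem {A K : Subgroup G} (h : A ≤ normalizer (K : Set G)) {y : G} (hy : y ∈ K)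
    (l : List A) : T y l ∈ K := by
  induction l with
  | nil => exact hy
  | cons a l ih => exact comm_mem_of_normalizer (h a.2) ih

/-- The upper series of `A` acting on `K / N`. -/
def up (K A N : Subgroup G) : ℕ → Subgroup G
  | 0 => N
  | k + 1 => K ⊓ centMod A (up K A N k)

section up
variable {K A N : Subgroup G}

theorem up_le (hNK : N ≤ K) (k : ℕ) : up K A N k ≤ K := by
  cases k with
  | zero => exact hNK
  | succ k => exact inf_le_left

theorem le_normalizer_of_between (hKK : ⁅K, K⁆ ≤ N) {U : Subgroup G} (h1 : N ≤ U) (h2 : U ≤ K) :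
    K ≤ normalizer (U : Set G) :=
  le_normalizer_iff_commutator_le_right.2 ((commutator_mono le_rfl h2).trans (hKK.trans h1))

theorem le_up (hNK : N ≤ K) (hKK : ⁅K, K⁆ ≤ N) (hAN : A ≤ normalizer (N : Set G)) (k : ℕ) :
    N ≤ up K A N k := by
  induction k with
  | zero => exact le_rfl
  | succ k ih =>
    refine le_inf hNK (le_centMod.2 ⟨hNK.trans (le_normalizer_of_between hKK ih (up_le hNK k)), ?_⟩)
    exact (le_normalizer_iff_commutator_le_left.1 hAN).trans ih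

theorem mem_up_succ (hNK : N ≤ K) (hKK : ⁅K, K⁆ ≤ N) (hAN : A ≤ normalizer (N : Set G)) {k : ℕ}
    {y : G} : y ∈ up K A N (k + 1) ↔ y ∈ K ∧ ∀ a ∈ A, ⁅a, y⁆ ∈ up K A N k := by
  refine ⟨fun h => ⟨h.1, fun a ha => ?_⟩, fun h => ⟨h.1, le_normalizer_of_between hKK
    (le_up hNK hKK hAN k) (up_le hNK k) h.1, fun a ha => ?_⟩⟩
  · rw [← commutatorElement_inv]; exact inv_mem (h.2.2 a ha)
  · rw [← commutatorElement_inv]; exact inv_mem (h.2 a ha)

theorem mem_up (hNK : N ≤ K) (hKK : ⁅K, K⁆ ≤ N) (hAN : A ≤ normalizer (N : Set G))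
    (hAK : A ≤ normalizer (K : Set G)) {k : ℕ} {y : G} :
    y ∈ up K A N k ↔ y ∈ K ∧ ∀ l : List A, l.length = k → T y l ∈ N := by
  induction k generalizing y with
  | zero =>
    refine ⟨fun h => ⟨hNK h, fun l hl => ?_⟩, fun h => h.2 [] rfl⟩
    rw [List.length_eq_zero_iff.1 hl]; exact h
  | succ k ih =>
    rw [mem_up_succ hNK hKK hAN]
    refine ⟨fun h => ⟨h.1, fun l hl => ?_⟩, fun h => ⟨h.1, fun a ha => ih.2
      ⟨comm_mem_of_normalizer (hAK ha) h.1, fun l hl => ?_⟩⟩⟩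
    · obtain ⟨l', a, rfl⟩ : ∃ l' a, l = l' ++ [a] := by
        rcases List.eq_nil_or_concat l with rfl | ⟨l', a, rfl⟩
        · simp at hl
        · exact ⟨l', a, by simp⟩
      rw [T_append]
      exact (ih.1 (h.2 a a.2)).2 l' (by simpa using hl)
    · have := h.2 (l ++ [⟨a, ha⟩]) (by simp [hl])
      rwa [T_append] at this

theorem iter_le_of_le_up {k : ℕ} {X : Subgroup G} (h : X ≤ up K A N k) :
    iterCommutator X A k ≤ N := by
  induction k generalizing X with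
  | zero => exact h
  | succ k ih =>
    rw [iter_succ']
    exact ih ((commutator_mono (h.trans inf_le_right) le_rfl).trans (commutator_centMod_le _ _))

/-- If `X` is not inside `up k` there is an element of `X` in `up (k+1)` but not in `up k`. -/
theorem exists_mem_up_succ (hNK : N ≤ K) (hKK : ⁅K, K⁆ ≤ N) (hAN : A ≤ normalizer (N : Set G))
    {S X : Subgroup G} [Group.IsNilpotent S] (hXS : X ≤ S) (hAS : A ≤ S) (hXK : X ≤ K)
    (hAX : A ≤ normalizer (X : Set G)) {k : ℕ} (h : ¬ X ≤ up K A N k) :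
    ∃ y ∈ X, y ∉ up K A N k ∧ y ∈ up K A N (k + 1) := by
  obtain ⟨n, hn⟩ := exists_iter_eq_bot hXS hAS
  obtain ⟨y, hy, h1, h2⟩ := exists_not_mem_commutator_mem hAX ⟨n, hn.le.trans bot_le⟩ h
  refine ⟨y, hy, h1, (mem_up_succ hNK hKK hAN).2 ⟨hXK hy, fun a ha => ?_⟩⟩
  rw [← commutatorElement_inv]; exact inv_mem (h2 a ha).2

end up

/-- The set-up: `C` is a critical-type subgroup of `P ⊴ S`, `Z` central in `C`, and `A` is a large
abelian subgroup of `S` chosen with `AP` minimal and then `A ∩ Z` maximal. -/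
structure Setup (S P C Z A : Subgroup G) : Prop where
  hZC : Z ≤ C
  hCP : C ≤ P
  hPS : P ≤ S
  nP : S ≤ normalizer (P : Set G)
  nC : S ≤ normalizer (C : Set G)
  nZ : S ≤ normalizer (Z : Set G)
  hZ : Z ≤ centralizer (C : Set G)
  hPC : ⁅P, C⁆ ≤ Z
  hA : A ∈ maxAb S
  hmin : ∀ A' ∈ maxAb S, A' ≤ A ⊔ P → ¬ A' ≤ P → A ≤ A' ⊔ P
  hmax : ∀ A' ∈ maxAb S, A' ≤ A ⊔ P → ¬ A' ≤ P →
    Nat.card (A' ⊓ Z : Subgroup G) ≤ Nat.card (A ⊓ Z : Subgroup G)

theorem exists_setup [Finite G] {S P C Z : Subgroup G} (hZC : Z ≤ C) (hCP : C ≤ P) (hPS : P ≤ S)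
    (nP : S ≤ normalizer (P : Set G)) (nC : S ≤ normalizer (C : Set G))
    (nZ : S ≤ normalizer (Z : Set G)) (hZ : Z ≤ centralizer (C : Set G)) (hPC : ⁅P, C⁆ ≤ Z)
    (hJ : ¬ thompsonSubgroupAOf S ≤ P) : ∃ A, ¬ A ≤ P ∧ Setup S P C Z A := by
  rw [thompsonSubgroupAOf_le_iff] at hJ
  push Not at hJ
  obtain ⟨A₁, hA₁, h1⟩ := Set.exists_min_image {A ∈ maxAb S | ¬ A ≤ P}
    (fun A => Nat.card (A ⊔ P : Subgroup G)) (Set.toFinite _) hJ
  have key : ∀ A' ∈ maxAb S, A' ≤ A₁ ⊔ P → ¬ A' ≤ P → A' ⊔ P = A₁ ⊔ P := fun A' h2 h3 h4 =>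
    eq_of_le_of_card_ge (sup_le h3 le_sup_right) (h1 A' ⟨h2, h4⟩)
  obtain ⟨A, hA, h2⟩ := Set.exists_max_image {A ∈ maxAb S | ¬ A ≤ P ∧ A ≤ A₁ ⊔ P}
    (fun A => Nat.card (A ⊓ Z : Subgroup G)) (Set.toFinite _) ⟨A₁, hA₁.1, hA₁.2, le_sup_left⟩
  have e := key A hA.1 hA.2.2 hA.2.1
  refine ⟨A, hA.2.1, hZC, hCP, hPS, nP, nC, nZ, hZ, hPC, hA.1, fun A' h3 h4 h5 => ?_,
    fun A' h3 h4 h5 => h2 A' ⟨h3, h5, e ▸ h4⟩⟩
  rw [key A' h3 (e ▸ h4) h5]
  exact hA.2.2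

namespace Setup

variable {S P C Z A : Subgroup G}

theorem commZ (h : Setup S P C Z A) {z c : G} (hz : z ∈ Z) (hc : c ∈ C) : Commute z c :=
  (h.hZ hz c hc).symm

theorem Zab (h : Setup S P C Z A) : IsMulCommutative Z :=
  IsMulCommutative.of_setLike_mul_comm fun _ ha _ hb => (h.commZ ha (h.hZC hb)).eq

theorem commA (h : Setup S P C Z A) {a b : G} (ha : a ∈ A) (hb : b ∈ A) : Commute a b :=
  commute_of_mem h.hA.2.1 ha hb

theorem AZ (h : Setup S P C Z A) : A ≤ normalizer (Z : Set G) := h.hA.1.trans h.nZ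
theorem AC (h : Setup S P C Z A) : A ≤ normalizer (C : Set G) := h.hA.1.trans h.nC
theorem AP (h : Setup S P C Z A) : A ≤ normalizer (P : Set G) := h.hA.1.trans h.nP
theorem ZP (h : Setup S P C Z A) : Z ≤ P := h.hZC.trans h.hCP
theorem CC (h : Setup S P C Z A) : ⁅C, C⁆ ≤ Z := (commutator_mono h.hCP le_rfl).trans h.hPC
theorem ZZ (h : Setup S P C Z A) : ⁅Z, Z⁆ ≤ ⊥ := (commutator_self_eq_bot_iff.2 h.Zab).le

theorem tZ (h : Setup S P C Z A) {a z : G} (ha : a ∈ A) (hz : z ∈ Z) : ⁅a, z⁆ ∈ Z :=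
  comm_mem_of_normalizer (h.AZ ha) hz
theorem tC (h : Setup S P C Z A) {a z : G} (ha : a ∈ A) (hz : z ∈ C) : ⁅a, z⁆ ∈ C :=
  comm_mem_of_normalizer (h.AC ha) hz
theorem tP (h : Setup S P C Z A) {b c : G} (hb : b ∈ P) (hc : c ∈ C) : ⁅b, c⁆ ∈ Z :=
  h.hPC (commutator_mem_commutator hb hc)

theorem abZ (h : Setup S P C Z A) {M : Subgroup G} (hM : M ≤ Z) : IsMulCommutative M :=
  IsMulCommutative.of_setLike_mul_comm fun _ ha _ hb => (h.commZ (hM ha) (h.hZC (hM hb))).eq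

/-- First dichotomy, from the minimality of `AP`. -/
theorem D1 [Finite G] (h : Setup S P C Z A) {x : G} (hx : x ∈ P)
    (hM : IsMulCommutative (cm A x)) (h0 : A ⊓ P ≤ centralizer (cm A x : Set G)) :
    A ⊓ centralizer (cm A x : Set G) ≤ P ∨ A ≤ centralizer (cm A x : Set G) := by
  have hMP : cm A x ≤ P := cm_le fun a ha => comm_mem_of_normalizer (h.AP ha) hx
  by_cases h1 : A ⊓ centralizer (cm A x : Set G) ≤ P
  · exact Or.inl h1
  refine Or.inr fun a ha => ?_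
  have h2 := h.hmin _ (thompson h.hA (h.hPS hx) hM).1
    (sup_le (hMP.trans le_sup_right) (inf_le_left.trans le_sup_left))
    (fun h3 => h1 (le_sup_right.trans h3))
  have h3 : A ≤ P ⊔ (A ⊓ centralizer (cm A x : Set G)) :=
    h2.trans (sup_le (sup_le (hMP.trans le_sup_left) le_sup_right) le_sup_left)
  obtain ⟨q, hq, b, hb, rfl⟩ := exists_mul_of_mem_sup (inf_le_left.trans h.AP) (h3 ha)
  exact mul_mem (h0 ⟨by simpa using A.mul_mem ha (A.inv_mem hb.1), hq⟩) hb.2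

/-- Second dichotomy, from the maximality of `A ∩ Z`. -/
theorem D2 [Finite G] (h : Setup S P C Z A) {x : G} (hx : x ∈ Z) :
    A ⊓ centralizer (cm A x : Set G) ≤ P ∨ cm A x ≤ A := by
  have hMZ : cm A x ≤ Z := cm_le fun a ha => h.tZ ha hx
  by_cases h1 : A ⊓ centralizer (cm A x : Set G) ≤ P
  · exact Or.inl h1
  right
  have h2 := h.hmax _ (thompson h.hA (h.hPS (h.ZP hx)) (h.abZ hMZ)).1
    (sup_le ((hMZ.trans h.ZP).trans le_sup_right) (inf_le_left.trans le_sup_left))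
    (fun h3 => h1 (le_sup_right.trans h3))
  have h3 : A ⊓ Z ≤ (cm A x ⊔ A ⊓ centralizer (cm A x : Set G)) ⊓ Z := fun y hy =>
    ⟨mem_sup_right ⟨hy.1, fun m hm => (h.commZ (hMZ hm) (h.hZC hy.2)).eq⟩, hy.2⟩
  have h4 := eq_of_le_of_card_ge h3 h2
  exact ((le_inf le_sup_left hMZ).trans h4.ge).trans inf_le_left

theorem mem_upZ (h : Setup S P C Z A) {k : ℕ} {y : G} :
    y ∈ up Z A ⊥ k ↔ y ∈ Z ∧ ∀ l : List A, l.length = k → T y l = 1 :=
  mem_up bot_le h.ZZ le_normalizer_of_normal h.AZ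

theorem mem_upZ_succ (h : Setup S P C Z A) {k : ℕ} {y : G} :
    y ∈ up Z A ⊥ (k + 1) ↔ y ∈ Z ∧ ∀ a ∈ A, ⁅a, y⁆ ∈ up Z A ⊥ k :=
  mem_up_succ bot_le h.ZZ le_normalizer_of_normal

theorem quad (h : Setup S P C Z A) {y a b : G} (hy : y ∈ up Z A ⊥ 2) (ha : a ∈ A) (hb : b ∈ A) :
    ⁅b, ⁅a, y⁆⁆ = 1 := (h.mem_upZ.1 hy).2 [⟨b, hb⟩, ⟨a, ha⟩] rfl

theorem mem_up2 (h : Setup S P C Z A) {y : G} (hy : y ∈ Z)
    (h2 : ∀ a ∈ A, ∀ b ∈ A, ⁅b, ⁅a, y⁆⁆ = 1) : y ∈ up Z A ⊥ 2 :=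
  h.mem_upZ_succ.2 ⟨hy, fun a ha => h.mem_upZ_succ.2 ⟨h.tZ ha hy, fun b hb => h2 a ha b hb⟩⟩

theorem swapZ (h : Setup S P C Z A) {a b z : G} (ha : a ∈ A) (hb : b ∈ A) (hz : z ∈ Z) :
    ⁅a, ⁅b, z⁆⁆ = ⁅b, ⁅a, z⁆⁆ :=
  comm_swap (h.commA ha hb) (h.commZ (h.tZ ha hz) (h.hZC (h.tZ hb hz)))

theorem mulZ (h : Setup S P C Z A) {a u v : G} (ha : a ∈ A) (hu : u ∈ Z) (hv : v ∈ Z) :
    ⁅a, u * v⁆ = ⁅a, u⁆ * ⁅a, v⁆ :=
  comm_mul_of_comm (h.commZ hu (h.hZC (h.tZ ha hv)))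

theorem invZ (h : Setup S P C Z A) {a u : G} (ha : a ∈ A) (hu : u ∈ Z) :
    ⁅a, u⁻¹⁆ = ⁅a, u⁆⁻¹ := by
  rw [eq_inv_iff_mul_eq_one, ← h.mulZ ha (inv_mem hu) hu]; simp

/-- `A` acts cubically on the sections of `Z` centralized by `P`. -/
theorem b3 [Finite G] [Group.IsNilpotent S] (h : Setup S P C Z A) {x : G} (hx : x ∈ Z)
    {Y : Subgroup G} (hY : A ≤ normalizer (Y : Set G)) (h0 : ∀ a ∈ A ⊓ P, ⁅a, x⁆ ∈ Y)
    {a₁ a₂ a₃ : G} (h1 : a₁ ∈ A) (h2 : a₂ ∈ A) (h3 : a₃ ∈ A) : ⁅a₃, ⁅a₂, ⁅a₁, x⁆⁆⁆ ∈ Y := by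
  have hMZ : cm A x ≤ Z := cm_le fun a ha => h.tZ ha hx
  have hm : ⁅a₂, ⁅a₁, x⁆⁆ ∈ cm A x :=
    comm_mem_of_normalizer (le_normalizer_cm A x h2) (mem_cm h1 x)
  obtain ⟨a, ha, c, hc, e⟩ := (thompson h.hA (h.hPS (h.ZP hx)) (h.abZ hMZ)).2 _ hm
  by_cases haP : a ∈ P
  · rw [e, comm_mul_of_commute (h.commA h3 hc)]
    exact comm_mem_of_normalizer (hY h3) (h0 a ⟨ha, haP⟩)
  have key : ∀ m ∈ cm A x, ⁅a, m⁆ = ⁅a₂, ⁅a₁, m⁆⁆ := by
    intro m hm
    induction hm using closure_induction with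
    | mem g hg =>
      obtain ⟨b, hb, rfl⟩ := hg
      rw [h.swapZ ha hb hx, h.swapZ h1 hb hx, h.swapZ h2 hb (h.tZ h1 hx), e,
        comm_mul_of_commute (h.commA hb hc)]
    | one => simp
    | mul u v hu hv e1 e2 =>
      rw [h.mulZ ha (hMZ hu) (hMZ hv), h.mulZ h1 (hMZ hu) (hMZ hv),
        h.mulZ h2 (h.tZ h1 (hMZ hu)) (h.tZ h1 (hMZ hv)), e1, e2]
    | inv u hu e1 =>
      rw [h.invZ ha (hMZ hu), h.invZ h1 (hMZ hu), h.invZ h2 (h.tZ h1 (hMZ hu)), e1]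
  by_cases hq : cm A x ≤ up Z A ⊥ 2
  · rw [h.quad (hq (mem_cm h1 x)) h2 h3]; exact one_mem _
  exfalso
  obtain ⟨y, hy, hy2, hy3⟩ := exists_mem_up_succ bot_le h.ZZ le_normalizer_of_normal
    (hMZ.trans (h.ZP.trans h.hPS)) h.hA.1 hMZ (le_normalizer_cm A x) hq
  have hyM : cm A y ≤ cm A x :=
    cm_le fun b hb => comm_mem_of_normalizer (le_normalizer_cm A x hb) hy
  rcases h.D2 (hMZ hy) with h4 | h4
  · refine haP (h4 ⟨ha, le_centralizer_cm fun b hb => ?_⟩)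
    rw [← commutatorElement_eq_one_iff_commute, key _ (hyM (mem_cm hb y))]
    exact h.quad ((h.mem_upZ_succ.1 hy3).2 b hb) h1 h2
  · exact hy2 (h.mem_up2 (hMZ hy) fun a ha b hb =>
      (h.commA hb (h4 (mem_cm ha y))).commutator_eq)

/-- If `A` is not quadratic on `Z`, it is cubic on `C / Z`. -/
theorem beta [Finite G] [Group.IsNilpotent S] (h : Setup S P C Z A) (hq : ¬ Z ≤ up Z A ⊥ 2)
    {x : G} (hx : x ∈ C) {a₁ a₂ a₃ : G} (h1 : a₁ ∈ A) (h2 : a₂ ∈ A) (h3 : a₃ ∈ A) :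
    ⁅a₃, ⁅a₂, ⁅a₁, x⁆⁆⁆ ∈ Z := by
  obtain ⟨y, hy, hy2, hy3⟩ := exists_mem_up_succ bot_le h.ZZ le_normalizer_of_normal
    (h.ZP.trans h.hPS) h.hA.1 le_rfl h.AZ hq
  have hM0 : cm A y ≤ up Z A ⊥ 2 := cm_le (h.mem_upZ_succ.1 hy3).2
  have hM0Z : cm A y ≤ Z := hM0.trans (up_le bot_le _)
  have hB : A ⊓ centralizer (cm A y : Set G) ≤ P := by
    rcases h.D2 hy with h4 | h4
    · exact h4
    · exact (hy2 (h.mem_up2 hy fun a ha b hb =>
        (h.commA hb (h4 (mem_cm ha y))).commutator_eq)).elim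
  have hA' := (thompson h.hA (h.hPS (h.ZP hy)) (h.abZ hM0Z)).1
  set A' := cm A y ⊔ A ⊓ centralizer (cm A y : Set G) with hA'def
  have hA'P : A' ≤ P := sup_le (hM0Z.trans h.ZP) hB
  have hdec : ∀ b ∈ A', ∃ m ∈ cm A y, ∃ b₀ ∈ A, b = m * b₀ := fun b hb => by
    obtain ⟨m, hm, b₀, hb₀, e⟩ := exists_mul_of_mem_sup
      (inf_le_left.trans (le_normalizer_cm A y)) hb
    exact ⟨m, hm, b₀, hb₀.1, e⟩
  have hA'Z : A' ⊓ Z ≤ up Z A ⊥ 2 := by
    rintro b ⟨hb, hbZ⟩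
    obtain ⟨m, hm, b₀, hb₀, rfl⟩ := hdec b hb
    have : b₀ ∈ Z := by simpa using Z.mul_mem (Z.inv_mem (hM0Z hm)) hbZ
    exact mul_mem (hM0 hm) (h.mem_up2 this fun a ha b _ => by
      rw [(h.commA ha hb₀).commutator_eq]; simp)
  have hM1Z : cm A' x ≤ Z := cm_le fun b hb => h.tP (hA'P hb) hx
  have hA'' := (thompson hA' (h.hPS (h.hCP hx)) (h.abZ hM1Z)).1
  have hx' : ⁅a₂, ⁅a₁, x⁆⁆ ∈ C := h.tC h2 (h.tC h1 hx)
  have hmem : ⁅a₂, ⁅a₁, x⁆⁆ ∈ cm A' x ⊔ A' ⊓ centralizer (cm A' x : Set G) := by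
    refine mem_of_mem_maxAb_of_centralizes hA'' (h.hPS (h.hCP hx')) ?_
    refine (le_centralizer_iff.1 (sup_le ?_ ?_) : zpowers _ ≤ _) (mem_zpowers _)
    · intro m hm
      rw [mem_centralizer_iff]
      rintro _ ⟨k, rfl⟩
      exact ((h.commZ (hM1Z hm) hx').zpow_right k).symm.eq
    · rintro b ⟨hb, hbc⟩
      rw [mem_centralizer_iff]
      rintro _ ⟨k, rfl⟩
      refine (Commute.zpow_right ?_ k).symm.eq
      have hbx : ⁅b, x⁆ ∈ up Z A ⊥ 2 := by
        refine hA'Z ⟨mem_of_mem_maxAb_of_centralizes hA' (h.hPS (h.ZP (h.tP (hA'P hb) hx)))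
          fun b' hb' => ?_, h.tP (hA'P hb) hx⟩
        rw [← commutatorElement_eq_one_iff_mul_comm,
          comm_swap (commute_of_mem hA'.2.1 hb' hb)
            (h.commZ (h.tP (hA'P hb') hx) (h.hZC (h.tP (hA'P hb) hx))),
          commutatorElement_eq_one_iff_mul_comm]
        exact (hbc _ (mem_cm hb' x)).symm
      obtain ⟨m, hm, b₀, hb₀, rfl⟩ := hdec b hb
      have hb₀P : b₀ ∈ P := by simpa using P.mul_mem (P.inv_mem (h.ZP (hM0Z hm))) (hA'P hb)
      have e : ∀ c ∈ C, ⁅m * b₀, c⁆ = ⁅b₀, c⁆ := fun c hc => by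
        rw [commutatorElement_mul_left_eq_conj_mul, (h.commZ (hM0Z hm) hc).commutator_eq,
          (h.commZ (hM0Z hm) (h.hZC (h.tP hb₀P hc))).eq]
        group
      rw [← commutatorElement_eq_one_iff_commute, e _ hx',
        comm_swap (h.commA hb₀ h2) (h.commZ (h.tP hb₀P (h.tC h1 hx)) hx'),
        comm_swap (h.commA hb₀ h1) (h.commZ (h.tP hb₀P hx) (h.tC h1 hx)), ← e x hx]
      exact h.quad hbx h1 h2
  have hle : cm A' x ⊔ A' ⊓ centralizer (cm A' x : Set G) ≤ Z ⊔ A :=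
    sup_le (hM1Z.trans le_sup_left) (inf_le_left.trans
      (sup_le (hM0Z.trans le_sup_left) (inf_le_left.trans le_sup_right)))
  obtain ⟨z, hz, a, ha, e⟩ := exists_mul_of_mem_sup h.AZ (hle hmem)
  rw [e, comm_mul_of_commute (h.commA h3 ha)]
  exact h.tZ h3 hz

/-! ### The quadratic case -/

theorem mulC (h : Setup S P C Z A) {u v w : G} (hu : u ∈ C) (hv : v ∈ C) (hw : w ∈ C) :
    ⁅u, v * w⁆ = ⁅u, v⁆ * ⁅u, w⁆ :=
  comm_mul_of_comm (h.commZ (h.tP (h.hCP hu) hw) hv).symm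

theorem mulC' (h : Setup S P C Z A) {u v w : G} (hu : u ∈ C) (hv : v ∈ C) (hw : w ∈ C) :
    ⁅v * w, u⁆ = ⁅v, u⁆ * ⁅w, u⁆ := by
  rw [commutatorElement_mul_left_eq_conj_mul, ← (h.commZ (h.tP (h.hCP hw) hu) hv).eq,
    mul_inv_cancel_right, (h.commZ (h.tP (h.hCP hw) hu) (h.hZC (h.tP (h.hCP hv) hu))).eq]

theorem identI (h : Setup S P C Z A) {a v w : G} (ha : a ∈ A) (hv : v ∈ C) (hw : w ∈ C) :
    ⁅a, ⁅v, w⁆⁆ = ⁅⁅a, v⁆, ⁅a, w⁆⁆ * (⁅v, ⁅a, w⁆⁆ * ⁅⁅a, v⁆, w⁆) := by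
  have e : a * ⁅v, w⁆ * a⁻¹ = ⁅⁅a, v⁆ * v, ⁅a, w⁆ * w⁆ := by
    simp only [commutatorElement_def]; group
  have hv' := h.tC ha hv
  have hw' := h.tC ha hw
  rw [commutatorElement_def a, e, h.mulC (mul_mem hv' hv) hw' hw, h.mulC' hw' hv' hv,
    h.mulC' hw hv' hv]
  group

theorem T_perm (h : Setup S P C Z A) {y : G} (hy : y ∈ C) {l l' : List A} (hl : l.Perm l') :
    T y l * (T y l')⁻¹ ∈ Z := by
  induction hl with
  | nil => simp
  | @cons a l l' _ ih =>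
    have hw := T_mem h.AC hy l'
    have e : T y l = (T y l * (T y l')⁻¹) * T y l' := by group
    rw [T_cons, T_cons, e, comm_mul_of_comm (h.commZ ih (h.tC a.2 hw)), mul_inv_cancel_right]
    exact h.tZ a.2 ih
  | swap a b l =>
    have hw := T_mem h.AC hy l
    simp only [T_cons]
    set w := T y l
    have e : ⁅(b : G), ⁅(a : G), w⁆⁆ * ⁅(a : G), ⁅(b : G), w⁆⁆⁻¹ =
        ⁅(b : G) * a, w⁆ * ⁅⁅(b : G), w⁆⁻¹, ⁅(a : G), w⁆⁻¹⁆ * ⁅(a : G) * b, w⁆⁻¹ := by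
      simp only [commutatorElement_def]; group
    rw [e, (h.commA b.2 a.2).eq]
    exact CommMod.conj_mem_of_mem_normalizer (h.nZ (h.hPS (h.hCP (h.tC (mul_mem a.2 b.2) hw))))
      (h.tP (h.hCP (inv_mem (h.tC b.2 hw))) (inv_mem (h.tC a.2 hw)))
  | trans _ _ ih1 ih2 => simpa using Z.mul_mem ih1 ih2

section bil
variable (h : Setup S P C Z A) {y : G} (hy : y ∈ C)
  (h5 : ∀ l : List A, 5 ≤ l.length → T y l ∈ Z)
include h hy

theorem bZ (l l' : List A) : ⁅T y l, T y l'⁆ ∈ Z :=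
  h.tP (h.hCP (T_mem h.AC hy l)) (T_mem h.AC hy l')

theorem move {N : Subgroup G} {d : ℕ}
    (h1 : ∀ l l' : List A, l.length + l'.length = d + 2 → ⁅T y l, T y l'⁆ ∈ N)
    (h2 : ∀ l l' : List A, l.length + l'.length = d → ∀ a ∈ A, ⁅a, ⁅T y l, T y l'⁆⁆ ∈ N)
    (l l' : List A) (hl : l.length + l'.length = d) (a : A) :
    ⁅T y l, T y (a :: l')⁆ * ⁅T y (a :: l), T y l'⁆ ∈ N := by
  have e := h.identI a.2 (T_mem h.AC hy l) (T_mem h.AC hy l')
  have h3 := h2 l l' hl a a.2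
  have h4 := h1 (a :: l) (a :: l') (by simp; omega)
  rw [e] at h3
  exact (N.mul_mem_cancel_left h4).1 h3

theorem move_all {N : Subgroup G} {d : ℕ}
    (h1 : ∀ l l' : List A, l.length + l'.length = d + 2 → ⁅T y l, T y l'⁆ ∈ N)
    (h2 : ∀ l l' : List A, l.length + l'.length = d → ∀ a ∈ A, ⁅a, ⁅T y l, T y l'⁆⁆ ∈ N)
    (h3 : ∀ l : List A, l.length = d + 1 → ⁅T y l, y⁆ ∈ N)
    (l l' : List A) (hl : l.length + l'.length = d + 1) : ⁅T y l, T y l'⁆ ∈ N := by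
  induction l' generalizing l with
  | nil => exact h3 l hl
  | cons a l' ih =>
    have h4 := h.move hy h1 h2 l l' (by simp at hl; omega) a
    have h5 := ih (a :: l) (by simp at hl ⊢; omega)
    exact (N.mul_mem_cancel_right h5).1 h4

include h5

theorem down {N : Subgroup G} {d₀ : ℕ} (hd : 5 ≤ d₀)
    (h2 : ∀ l l' : List A, d₀ ≤ l.length + l'.length + 1 → ∀ a ∈ A, ⁅a, ⁅T y l, T y l'⁆⁆ ∈ N)
    (l l' : List A) (hl : d₀ ≤ l.length + l'.length) : ⁅T y l, T y l'⁆ ∈ N := by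
  have big : ∀ l l' : List A, 9 ≤ l.length + l'.length → ⁅T y l, T y l'⁆ ∈ N := by
    intro l l' h9
    rcases le_or_gt 5 l.length with h6 | h6
    · rw [(h.commZ (h5 l h6) (T_mem h.AC hy l')).commutator_eq]; exact one_mem _
    · rw [(h.commZ (h5 l' (by omega)) (T_mem h.AC hy l)).symm.commutator_eq]; exact one_mem _
  have : ∀ k, ∀ l l' : List A, d₀ ≤ l.length + l'.length → 9 - k ≤ l.length + l'.length →
      ⁅T y l, T y l'⁆ ∈ N := by
    intro k
    induction k with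
    | zero => exact fun l l' _ h9 => big l l' h9
    | succ k ih =>
      intro l l' h6 h7
      obtain ⟨d, hd'⟩ : ∃ d, l.length + l'.length = d + 1 := ⟨l.length + l'.length - 1, by omega⟩
      refine h.move_all hy (fun m m' hm => ih m m' (by omega) (by omega))
        (fun m m' hm => h2 m m' (by omega)) (fun m hm => ?_) l l' hd'
      rw [(h.commZ (h5 m (by omega)) hy).commutator_eq]; exact one_mem _
  exact this 9 l l' hl (by omega)

theorem bil_eq_one (hq : Z ≤ up Z A ⊥ 2) (hodd : ∀ z ∈ Z, z ∈ zpowers (z ^ 2))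
    (l l' : List A) (hl : 5 ≤ l.length + l'.length) : ⁅T y l, T y l'⁆ = 1 := by
  have hW : ∀ z ∈ Z, ∀ a ∈ A, ⁅a, z⁆ ∈ centralizer (A : Set G) := fun z hz a ha b hb =>
    commutatorElement_eq_one_iff_mul_comm.1 (h.quad (hq hz) ha hb)
  have P5 : ∀ l l' : List A, 5 ≤ l.length + l'.length →
      ⁅T y l, T y l'⁆ ∈ centralizer (A : Set G) :=
    h.down hy h5 le_rfl fun l l' _ a ha => hW _ (h.bZ hy l l') a ha
  have P4 : ∀ l l' : List A, l.length + l'.length = 4 →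
      ⁅T y l, T y l'⁆ ∈ centralizer (A : Set G) := by
    have mv := h.move hy (N := centralizer (A : Set G)) (d := 3) (fun l l' e => P5 l l' e.ge)
      (fun l l' _ a ha => hW _ (h.bZ hy l l') a ha)
    refine h.move_all hy (d := 3) (fun l l' e => P5 l l' e.ge)
      (fun l l' _ a ha => hW _ (h.bZ hy l l') a ha) fun l hl => ?_
    obtain ⟨a, b, c, e, rfl⟩ : ∃ a b c e, l = [a, b, c, e] := by
      match l, hl with
      | [a, b, c, e], _ => exact ⟨a, b, c, e, rfl⟩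
    have m1 := mv [b, c, e] [] rfl a
    have m2 := mv [c, e] [a] rfl b
    have m3 := mv [e] [b, a] rfl c
    have m4 := mv [] [c, b, a] rfl e
    have z0 := h.bZ hy [a, b, c, e] []
    have z1 := h.bZ hy [b, c, e] [a]
    have z2 := h.bZ hy [c, e] [b, a]
    have z3 := h.bZ hy [e] [c, b, a]
    have e4 : ⁅T y ([] : List A), T y [e, c, b, a]⁆ = ⁅T y [a, b, c, e], T y ([] : List A)⁆⁻¹ := by
      have hp : T y [e, c, b, a] * (T y [a, b, c, e])⁻¹ ∈ Z :=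
        h.T_perm hy (List.reverse_perm [a, b, c, e])
      have e5 : T y [e, c, b, a] = (T y [e, c, b, a] * (T y [a, b, c, e])⁻¹) * T y [a, b, c, e] := by
        group
      rw [commutatorElement_inv, e5, h.mulC (T_mem h.AC hy _) (h.hZC hp) (T_mem h.AC hy _),
        (h.commZ hp (T_mem h.AC hy _)).symm.commutator_eq, one_mul]
    rw [e4] at m4
    change ⁅T y [a, b, c, e], T y ([] : List A)⁆ ∈ _
    generalize ⁅T y [a, b, c, e], T y ([] : List A)⁆ = u0 at *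
    generalize ⁅T y [b, c, e], T y [a]⁆ = u1 at *
    generalize ⁅T y [c, e], T y [b, a]⁆ = u2 at *
    generalize ⁅T y [e], T y [c, b, a]⁆ = u3 at *
    have c01 := (h.commZ z0 (h.hZC z1)).eq
    have c23 := (h.commZ z2 (h.hZC z3)).eq
    have e6 : u0 ^ 2 = (u1 * u0) * (u2 * u1)⁻¹ * (u3 * u2) * (u0⁻¹ * u3)⁻¹ := by
      rw [← c01, ← c23, sq]; group
    have h7 : u0 ^ 2 ∈ centralizer (A : Set G) := by
      rw [e6]
      exact mul_mem (mul_mem (mul_mem m1 (inv_mem m2)) m3) (inv_mem m4)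
    exact (zpowers_le.2 h7) (hodd u0 z0)
  refine mem_bot.1 (h.down hy h5 le_rfl (fun l l' h4 a ha => ?_) l l' hl)
  have : ⁅T y l, T y l'⁆ ∈ centralizer (A : Set G) := by
    rcases eq_or_lt_of_le (show 4 ≤ l.length + l'.length by omega) with e | e
    · exact P4 l l' e.symm
    · exact P5 l l' e
  exact commutatorElement_eq_one_iff_mul_comm.2 (this a ha)

end bil

/-- If `A` is quadratic on `Z`, it has degree at most four on `C / Z`. -/
theorem alpha [Finite G] [Group.IsNilpotent S] (h : Setup S P C Z A) (hq : Z ≤ up Z A ⊥ 2)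
    (hodd : ∀ z ∈ Z, z ∈ zpowers (z ^ 2)) : C ≤ up C A Z 4 := by
  by_contra hC
  obtain ⟨y, hy, hy4, hy5⟩ := exists_mem_up_succ h.hZC h.CC h.AZ (h.hCP.trans h.hPS) h.hA.1
    le_rfl h.AC hC
  have h5 : ∀ l : List A, 5 ≤ l.length → T y l ∈ Z := by
    intro l hl
    rw [← List.take_append_drop (l.length - 5) l, T_append]
    exact T_mem h.AZ (((mem_up h.hZC h.CC h.AZ h.AC).1 hy5).2 _ (by simp; omega)) _
  have hb := h.bil_eq_one hy h5 hq hodd
  refine hy4 ((mem_up h.hZC h.CC h.AZ h.AC).2 ⟨hy, fun l hl => ?_⟩)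
  obtain ⟨a₄, a₃, a₂, a₁, rfl⟩ : ∃ a b c e, l = [a, b, c, e] := by
    match l, hl with
    | [a, b, c, e], _ => exact ⟨a, b, c, e, rfl⟩
  set x := T y [a₂, a₁] with hxdef
  have hx : x ∈ C := T_mem h.AC hy _
  have hxM : x ∈ centralizer (cm A x : Set G) := le_centralizer_cm fun a ha =>
    commutatorElement_eq_one_iff_commute.1 (hb [a₂, a₁] [⟨a, ha⟩, a₂, a₁] le_rfl)
  have hM : IsMulCommutative (cm A x) := by
    rw [← le_centralizer_iff_isMulCommutative]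
    exact cm_le fun a ha => le_centralizer_cm fun b hb' =>
      commutatorElement_eq_one_iff_commute.1
        (hb [⟨a, ha⟩, a₂, a₁] [⟨b, hb'⟩, a₂, a₁] (by simp))
  have h0x : ∀ b ∈ A ⊓ P, Commute b x := fun b hb' => by
    rw [← commutatorElement_eq_one_iff_commute, hxdef, T_cons, T_cons, T_nil,
      comm_swap (h.commA hb'.1 a₂.2) (h.commZ (h.tP hb'.2 (h.tC a₁.2 hy)) hx),
      comm_swap (h.commA hb'.1 a₁.2) (h.commZ (h.tP hb'.2 hy) (h.tC a₁.2 hy))]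
    exact h.quad (hq (h.tP hb'.2 hy)) a₁.2 a₂.2
  have h0 : A ⊓ P ≤ centralizer (cm A x : Set G) := fun b hb' => le_centralizer_cm fun a ha => by
    have c1 := h.commA hb'.1 ha
    have c2 := h0x b hb'
    exact ((c1.mul_right c2).mul_right c1.inv_right).mul_right c2.inv_right
  show ⁅(a₄ : G), ⁅(a₃ : G), x⁆⁆ ∈ Z
  rcases h.D1 (h.hCP hx) hM h0 with h1 | h1
  · have hA' := (thompson h.hA (h.hPS (h.hCP hx)) hM).1
    have hmem : x ∈ cm A x ⊔ A ⊓ centralizer (cm A x : Set G) := by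
      refine mem_of_mem_maxAb_of_centralizes hA' (h.hPS (h.hCP hx)) ?_
      refine (le_centralizer_iff.1 (sup_le ?_ ?_) : zpowers _ ≤ _) (mem_zpowers _)
      · exact le_centralizer_iff.1 (zpowers_le.2 hxM)
      · rintro b hb'
        rw [mem_centralizer_iff]
        rintro _ ⟨k, rfl⟩
        exact ((h0x b ⟨hb'.1, h1 hb'⟩).zpow_right k).symm.eq
    obtain ⟨m, hm, b, hb', e⟩ := exists_mul_of_mem_sup
      (inf_le_left.trans (le_normalizer_cm A x)) hmem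
    have hle : cm A x ≤ ⁅cm A x, A⁆ ⊔ ⊥ := cm_le fun a ha => by
      have : ⁅a, x⁆ = ⁅m, a⁆⁻¹ := by
        rw [commutatorElement_inv]
        conv_lhs => rw [e]
        exact comm_mul_of_commute (h.commA ha hb'.1)
      rw [this]
      exact mem_sup_left (inv_mem (commutator_mem_commutator hm ha))
    have hMS : cm A x ≤ S := cm_le fun a ha => h.hPS (h.hCP (h.tC ha hx))
    have hbot := le_of_le_commutator_sup hMS h.hA.1 hle
    rw [mem_bot.1 (hbot (mem_cm a₃.2 x))]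
    simp
  · rw [commutatorElement_eq_one_iff_mul_comm.2 (h1 a₄.2 _ (mem_cm a₃.2 x)).symm]
    exact one_mem _

theorem iter_four [Finite G] [Group.IsNilpotent S] (h : Setup S P C Z A)
    (hodd : ∀ z ∈ Z, z ∈ zpowers (z ^ 2)) : iterCommutator C A 4 ≤ Z := by
  by_cases hq : Z ≤ up Z A ⊥ 2
  · exact iter_le_of_le_up (h.alpha hq hodd)
  · refine (iter_antitone h.AC (show 3 ≤ 4 by omega)).trans
      (iter_le_of_le_up (K := C) fun x hx => (mem_up h.hZC h.CC h.AZ h.AC).2 ⟨hx, fun l hl => ?_⟩)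
    match l, hl with
    | [a, b, c], _ => exact h.beta hq hx c.2 b.2 a.2

theorem iter_three [Finite G] [Group.IsNilpotent S] (h : Setup S P C Z A) {X Y : Subgroup G}
    (hX : X ≤ Z) (hY : A ≤ normalizer (Y : Set G)) (hXP : ⁅X, P⁆ ≤ Y) :
    iterCommutator X A 3 ≤ Y := by
  have hn : A ≤ normalizer ((Z ⊓ Y : Subgroup G) : Set G) :=
    (le_inf h.AZ hY).trans inf_normalizer_le_normalizer_inf
  refine (iter_le_of_le_up (K := Z) (N := Z ⊓ Y) fun x hx =>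
    (mem_up inf_le_left (h.ZZ.trans bot_le) hn h.AZ).2 ⟨hX hx, fun l hl => ?_⟩).trans inf_le_right
  refine ⟨T_mem h.AZ (hX hx) l, ?_⟩
  match l, hl with
  | [a, b, c], _ =>
    exact h.b3 (hX hx) hY (fun a ha => by
      rw [← commutatorElement_inv]
      exact inv_mem (hXP (commutator_mem_commutator hx ha.2))) c.2 b.2 a.2

end Setup

/-- If `J(S)` is not normal in `G` (`p` odd), some `g ∈ S ∖ O_p(G)` acts with degree at most six on
the chief factors below `O_p(G)`, and with degree at most four on those inside a critical subgroup. -/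
theorem exists_low_degree [Finite G] {p : ℕ} [hp : Fact p.Prime] (hp2 : p ≠ 2) (S : Sylow p G)
    (hJ : ¬ (thompsonSubgroupAOf (S : Subgroup G)).Normal) :
    ∃ g ∈ (S : Subgroup G), g ∉ pCore p G ∧
      (∀ U V : Subgroup G, IsChiefFactor U V → U ≤ pCore p G →
        iterCommutator U (zpowers g) 6 ≤ V) ∧
      (centralizer (pCore p G : Set G) ≤ pCore p G → ∃ U V : Subgroup G, IsChiefFactor U V ∧
        U ≤ pCore p G ∧ iterCommutator U (zpowers g) 4 ≤ V ∧ ¬ ⁅U, zpowers g⁆ ≤ V) := by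
  have hTp := Grp.pCore_isPGroup p G
  obtain ⟨H, hH, h1, h2, h3⟩ := S0093.result hTp
  have hinj := (pCore p G).subtype_injective
  set C : Subgroup G := H.map (pCore p G).subtype with hA
  have hAT : C ≤ pCore p G := map_subtype_le H
  have hZ : (H ⊓ 𝐂[H]).map (pCore p G).subtype = C ⊓ 𝐂[C] := KInf.map_center_eq hinj H
  have hchar : (C.subgroupOf (pCore p G)).Characteristic := by
    rw [hA, map_subtype_subgroupOf]; exact hH
  have hA1 : ∀ a ∈ C, a ^ p ∈ C ⊓ 𝐂[C] := by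
    rintro _ ⟨a, ha, rfl⟩
    rw [← hZ, ← map_pow]
    refine mem_map_of_mem _ ⟨H.pow_mem ha p, h1 ?_⟩
    exact ⟨(⟨a, ha⟩ : H) ^ p, Grp.PFrattini.pow_mem_frattini (hTp.to_subgroup H) _, rfl⟩
  have hA3 : ⁅pCore p G, C⁆ ≤ C ⊓ 𝐂[C] := by
    rw [← hZ, commutator_comm]
    refine le_trans ?_ (map_mono h2)
    rw [map_commutator, ← MonoidHom.range_eq_map, subtype_range]
  have hA2 : ⁅C, C⁆ ≤ 𝐂[C] := ((commutator_mono hAT le_rfl).trans hA3).trans inf_le_right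
  have hA4 : pCore p G ⊓ 𝐂[C] = C ⊓ 𝐂[C] := by
    refine le_antisymm (le_inf ?_ inf_le_right) (inf_le_inf_right _ hAT)
    rintro x ⟨hx, hx'⟩
    refine ⟨⟨x, hx⟩, h3 fun y hy => Subtype.ext (hx' _ (mem_map_of_mem _ hy)), rfl⟩
  have hA5 : ∀ φ : MulAut ↥(pCore p G), (orderOf φ).Coprime p →
      (∀ a : ↥(pCore p G), (a : G) ∈ C → φ a = a) → φ = 1 := fun φ hφ h =>
    S0121.result hTp H hH h1 h2 h3 φ hφ fun x hx => h x (mem_map_of_mem _ hx)
  have hAn : C.Normal := Grp.normal_map_subtype_of_characteristic _ _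
  have hPS : pCore p G ≤ S := Grp.pCore_le_sylow S
  have hJP : ¬ thompsonSubgroupAOf (S : Subgroup G) ≤ pCore p G := fun h => hJ (by
    rw [← thompsonSubgroupAOf_eq_of_le h hPS, ← normalizer_eq_top_iff, eq_top_iff]
    exact le_normalizer_of_normal.trans (normalizer_le_normalizer_thompsonSubgroupAOf _))
  have : Group.IsNilpotent (S : Subgroup G) := S.isPGroup'.isNilpotent
  obtain ⟨A, hAP, h⟩ := exists_setup (S := S) (P := pCore p G) (C := C) (Z := C ⊓ 𝐂[C])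
    inf_le_left hAT hPS le_normalizer_of_normal le_normalizer_of_normal le_normalizer_of_normal
    inf_le_right hA3 hJP
  have hodd : ∀ z ∈ C ⊓ 𝐂[C], z ∈ zpowers (z ^ 2) := fun z hz => by
    obtain ⟨k, hk⟩ := (IsPGroup.iff_orderOf.1 hTp) ⟨z, hAT hz.1⟩
    rw [mem_zpowers_pow_iff, ← Subgroup.orderOf_coe (⟨z, hAT hz.1⟩ : pCore p G)] at *
    rw [show orderOf z = p ^ k from hk]
    exact Nat.Coprime.pow_right k ((Nat.coprime_primes Nat.prime_two hp.out).mpr hp2.symm)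
  obtain ⟨g, hgA, hgP⟩ := SetLike.not_le_iff_exists.1 hAP
  have hg : zpowers g ≤ A := zpowers_le.2 hgA
  have k3 : ∀ U V : Subgroup G, IsChiefFactor U V → U ≤ C → ∀ X ≤ U ⊓ (C ⊓ 𝐂[C]),
      iterCommutator X (zpowers g) 3 ≤ V := fun U V hUV hU X hX => by
    have := hUV.2.2.1
    exact (iter_mono le_rfl hg 3).trans (h.iter_three (hX.trans inf_le_right)
      le_normalizer_of_normal ((commutator_mono (hX.trans inf_le_left) le_rfl).trans
        (ChiefAct.commutator_le_of_isPGroup hUV hTp (hU.trans hAT))))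
  have k4 : ∀ U V : Subgroup G, IsChiefFactor U V → U ≤ C →
      iterCommutator U (zpowers g) 4 ≤ V := fun U V hUV hU => by
    have := hUV.2.2.1
    have := hUV.2.1
    rcases ChiefAct.inf_le_or_eq hUV (C ⊓ 𝐂[C]) with h4 | h4
    · exact (le_inf (iter_le le_normalizer_of_normal 4)
        ((iter_mono hU hg 4).trans (h.iter_four hodd))).trans h4
    · refine (iter_antitone le_normalizer_of_normal (show 3 ≤ 4 by omega)).trans ?_
      conv_lhs => rw [← h4]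
      exact (iter_sup_le 3).trans (sup_le (k3 U V hUV hU _ le_rfl) le_rfl)
  refine ⟨g, h.hA.1 hgA, hgP, S2003.result (pCore p G) hTp C hAT hchar hA1 hA2 hA3 hA4 hA5 g 4 3
    (by omega) (by omega) k4 fun U V hUV hU => k3 U V hUV (hU.trans inf_le_left) U
      (le_inf le_rfl hU), fun hC => ?_⟩
  have hs : ChiefAct.stab C ≤ pCore p G := by
    refine ChiefAct.stab_le_pCore (hTp.to_le hAT) fun g hg hc => ?_
    have h1 := hA5 (MulAut.conjNormal g)
      (Nat.Coprime.coprime_dvd_left (orderOf_map_dvd MulAut.conjNormal g) hc) (fun a ha => by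
        ext
        rw [MulAut.conjNormal_apply, ← hg _ ha, mul_inv_cancel_right])
    refine eq_one_of_isPGroup_of_coprime hTp (hC fun t ht => ?_) hc
    have h2 := congrArg (fun φ : MulAut (pCore p G) => ((φ ⟨t, ht⟩ : pCore p G) : G)) h1
    simp only [MulAut.conjNormal_apply, MulAut.one_apply] at h2
    rw [mul_inv_eq_iff_eq_mul] at h2
    exact h2.symm
  by_contra hno
  push Not at hno
  exact hgP (hs (ChiefAct.le_stab.2 (fun U V hUV hU => hno U V hUV (hU.trans hAT) (k4 U V hUV hU))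
    (mem_zpowers g)))

end Cfsg.Agent.PLocal.JDeg
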