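import Mathlib
import Cfsg.Agent.PLocal.CFSection
import Cfsg.Agent.PLocal.WeakCl
import Cfsg.Agent.S1983

/-! The quadratic element of Glauberman's `K_∞` theorem, inside a subgroup `H` of the ambient group. -/

set_option autoImplicit false

namespace Cfsg.Agent.PLocal.KInf

open Subgroup
open Cfsg.Agent.PLocal.Amb Cfsg.Agent.PLocal.CF Cfsg.Agent.PLocal.WeakCl

universe u

theorem exists_quadratic_of_not_normal {G : Type u} [Group G] [Finite G] {p : ℕ} [Fact p.Prime]
    {H T : Subgroup G} (hT : Syl p T H) (hn : ¬ H ≤ Nm (inducedFunctor kInfLower T)) :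
    ∃ g : G, g ∈ T ∧ g ∉ pCoreOf p H ∧
      ⁅⁅pCoreOf p H ⊓ 𝐂[pCoreOf p H], zpowers g⁆, zpowers g⁆ = ⊥ := by
  obtain ⟨P, hP⟩ := (isSyl_of_syl hT).exists_sylow_map
  have h1 : ¬ (inducedFunctor kInfLower (P : Subgroup H)).Normal := by
    intro h
    apply hn
    rw [← hP, induced_map_inj (isCharPFunctor_lower p) _ H.subtype_injective P.isPGroup']
    exact le_normalizer_map_subtype _
  obtain ⟨g, hgP, hgO, -, hq, -⟩ := S1983.result P (Or.inl h1)
  refine ⟨g, hP ▸ mem_map_of_mem _ hgP, fun h => hgO (mem_map_subtype.1 h), ?_⟩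
  have h2 := congrArg (map H.subtype) hq
  rw [map_commutator, map_commutator, map_center_eq H.subtype_injective, MonoidHom.map_zpowers,
    Subgroup.map_bot] at h2
  exact h2

end Cfsg.Agent.PLocal.KInf
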