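import Mathlib

/-!
# Limits of subspaces under a quadratic one-parameter group

For `β` with `β * β = 0` in an algebra `R`, conjugation by `1 + β X` is an automorphism of `R[X]`.
For a subspace `S` of `R`, `lim β S` is the space of top coefficients of the conjugate of `S[X]`
(the limit of the conjugates of `S` under `1 + t β` for `t → ∞`).
-/

set_option autoImplicit false
set_option linter.unusedSectionVars false

namespace Cfsg.Agent.PLocal.Lynd

open Polynomial Module

variable {F R : Type*} [Field F] [Ring R] [Algebra F R]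

/-- Polynomials with all coefficients in `S`. -/
def coeffIn (S : Submodule F R) : Submodule F R[X] where
  carrier := {f | ∀ i, f.coeff i ∈ S}
  add_mem' := fun {a b} ha hb i => by rw [coeff_add]; exact S.add_mem (ha i) (hb i)
  zero_mem' := fun i => by simp
  smul_mem' := fun c f hf i => by rw [coeff_smul]; exact S.smul_mem c (hf i)

theorem mem_coeffIn {S : Submodule F R} {f : R[X]} : f ∈ coeffIn S ↔ ∀ i, f.coeff i ∈ S := Iff.rfl

theorem coeffIn_mul_X_pow {S : Submodule F R} {f : R[X]} (hf : f ∈ coeffIn S) (k : ℕ) :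
    f * X ^ k ∈ coeffIn S := fun i => by
  rw [coeff_mul_X_pow']
  split_ifs
  · exact hf _
  · exact S.zero_mem

theorem C_mem_coeffIn {S : Submodule F R} {x : R} (hx : x ∈ S) : C x ∈ coeffIn S := fun i => by
  rw [coeff_C]
  split_ifs
  · exact hx
  · exact S.zero_mem

/-- Conjugation by `1 + β X`. -/
noncomputable def cj (F : Type*) [Field F] [Algebra F R] (β : R) : R[X] →ₗ[F] R[X] :=
  (LinearMap.mulRight F (1 - C β * X)) ∘ₗ (LinearMap.mulLeft F (1 + C β * X))

theorem cj_apply (β : R) (f : R[X]) : cj F β f = (1 + C β * X) * f * (1 - C β * X) := rfl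

theorem cj_eq (β : R) (f : R[X]) :
    cj F β f = f + (C β * f - f * C β) * X ^ 1 - C β * f * C β * X ^ 2 := by
  rw [cj_apply]
  have h1 : X * f = f * X := X_mul
  have h2 : X * C β = C β * X := X_mul
  calc (1 + C β * X) * f * (1 - C β * X)
      = f + C β * (X * f) - f * C β * X - C β * (X * f) * C β * X := by noncomm_ring
    _ = f + C β * f * X - f * C β * X - C β * f * (X * C β) * X := by rw [h1]; noncomm_ring
    _ = _ := by rw [h2]; noncomm_ring

theorem one_sub_mul_one_add {β : R} (hβ : β * β = 0) :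
    (1 - C β * X) * (1 + C β * X) = (1 : R[X]) := by
  have h2 : X * C β = C β * X := X_mul
  calc (1 - C β * X) * (1 + C β * X) = 1 - C β * (X * C β) * X := by noncomm_ring
    _ = 1 - C (β * β) * X * X := by rw [h2, C_mul]; noncomm_ring
    _ = 1 := by rw [hβ]; simp

theorem cj_neg_cj {β : R} (hβ : β * β = 0) (f : R[X]) : cj F (-β) (cj F β f) = f := by
  have h := one_sub_mul_one_add hβ
  rw [cj_apply, cj_apply, C_neg]
  calc (1 + -C β * X) * ((1 + C β * X) * f * (1 - C β * X)) * (1 - -C β * X)
      = ((1 - C β * X) * (1 + C β * X)) * f * ((1 - C β * X) * (1 + C β * X)) := by noncomm_ring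
    _ = f := by rw [h]; simp

theorem cj_mul_X_pow (β : R) (f : R[X]) (k : ℕ) : cj F β (f * X ^ k) = cj F β f * X ^ k := by
  rw [cj_apply, cj_apply]
  have h : X ^ k * (1 - C β * X) = (1 - C β * X) * X ^ k := X_pow_mul
  calc (1 + C β * X) * (f * X ^ k) * (1 - C β * X)
      = (1 + C β * X) * f * (X ^ k * (1 - C β * X)) := by noncomm_ring
    _ = _ := by rw [h]; noncomm_ring

theorem cj_mem_coeffIn {β : R} {S W : Submodule F R} (h0 : S ≤ W)
    (h1 : ∀ x ∈ S, β * x - x * β ∈ W) (h2 : ∀ x ∈ S, β * x * β ∈ W) {f : R[X]}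
    (hf : f ∈ coeffIn S) : cj F β f ∈ coeffIn W := by
  rw [cj_eq]
  refine Submodule.sub_mem _ (Submodule.add_mem _ (fun i => h0 (hf i)) (coeffIn_mul_X_pow
    (fun i => ?_) _)) (coeffIn_mul_X_pow (fun i => ?_) _)
  · rw [coeff_sub, coeff_C_mul, coeff_mul_C]; exact h1 _ (hf i)
  · rw [coeff_mul_C, coeff_C_mul]; exact h2 _ (hf i)

/-- The conjugate of `S[X]`. -/
noncomputable def cm (β : R) (S : Submodule F R) : Submodule F R[X] := (coeffIn S).map (cj F β)

theorem cm_mul_X_pow {β : R} {S : Submodule F R} {m : R[X]} (hm : m ∈ cm β S) (k : ℕ) :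
    m * X ^ k ∈ cm β S := by
  obtain ⟨f, hf, rfl⟩ := hm
  exact ⟨f * X ^ k, coeffIn_mul_X_pow hf k, cj_mul_X_pow β f k⟩

theorem cm_mono {β : R} {S T : Submodule F R} (h : S ≤ T) : cm β S ≤ cm β T :=
  Submodule.map_mono fun _ hf i => h (hf i)

theorem natDegree_mul_X_pow_le {m : R[X]} {d : ℕ} (h : m.natDegree ≤ d) (k : ℕ) :
    (m * X ^ k).natDegree ≤ d + k :=
  natDegree_mul_le.trans (add_le_add h (natDegree_X_pow_le k))

/-- The limit of `S`. -/
noncomputable def lim (β : R) (S : Submodule F R) : Submodule F R where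
  carrier := {y | ∃ d, ∃ m ∈ cm β S, m.natDegree ≤ d ∧ m.coeff d = y}
  add_mem' := by
    rintro _ _ ⟨d, m, hm, hd, rfl⟩ ⟨e, n, hn, he, rfl⟩
    refine ⟨d + e, m * X ^ e + n * X ^ d, Submodule.add_mem _ (cm_mul_X_pow hm e)
      (cm_mul_X_pow hn d), (natDegree_add_le _ _).trans (max_le (natDegree_mul_X_pow_le hd e)
      (add_comm e d ▸ natDegree_mul_X_pow_le he d)), ?_⟩
    rw [coeff_add, coeff_mul_X_pow, add_comm d e, coeff_mul_X_pow]
  zero_mem' := ⟨0, 0, Submodule.zero_mem _, by simp, by simp⟩
  smul_mem' := by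
    rintro c _ ⟨d, m, hm, hd, rfl⟩
    exact ⟨d, c • m, Submodule.smul_mem _ c hm, (natDegree_smul_le c m).trans hd, by simp⟩

theorem mem_lim {β : R} {S : Submodule F R} {y : R} :
    y ∈ lim β S ↔ ∃ d, ∃ m ∈ cm β S, m.natDegree ≤ d ∧ m.coeff d = y := Iff.rfl

theorem lim_mono {β : R} {S T : Submodule F R} (h : S ≤ T) : lim β S ≤ lim β T := by
  rintro _ ⟨d, m, hm, hd, rfl⟩
  exact ⟨d, m, cm_mono h hm, hd, rfl⟩

theorem lim_le {β : R} {S W : Submodule F R} (h0 : S ≤ W)
    (h1 : ∀ x ∈ S, β * x - x * β ∈ W) (h2 : ∀ x ∈ S, β * x * β ∈ W) : lim β S ≤ W := by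
  rintro _ ⟨d, _, ⟨f, hf, rfl⟩, -, rfl⟩
  exact cj_mem_coeffIn h0 h1 h2 hf d

theorem lim_mul_lim {β : R} (hβ : β * β = 0) {S T : Submodule F R}
    (h : ∀ x ∈ S, ∀ y ∈ T, x * y = 0) : ∀ x ∈ lim β S, ∀ y ∈ lim β T, x * y = 0 := by
  rintro _ ⟨d, _, ⟨f, hf, rfl⟩, hd, rfl⟩ _ ⟨e, _, ⟨g, hg, rfl⟩, he, rfl⟩
  have hfg : f * g = 0 := by
    ext i
    rw [coeff_mul, coeff_zero]
    exact Finset.sum_eq_zero fun c _ => h _ (hf _) _ (hg _)
  rw [← coeff_mul_add_eq_of_natDegree_le hd he, cj_apply, cj_apply]
  have : (1 + C β * X) * f * (1 - C β * X) * ((1 + C β * X) * g * (1 - C β * X))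
      = (1 + C β * X) * (f * ((1 - C β * X) * (1 + C β * X)) * g) * (1 - C β * X) := by
    noncomm_ring
  rw [this, one_sub_mul_one_add hβ, mul_one, hfg]
  simp

theorem C_mem_cm {β : R} (hβ : β * β = 0) {S : Submodule F R}
    (h1 : ∀ x ∈ S, β * x - x * β ∈ S) (h2 : ∀ x ∈ S, β * x * β ∈ S) {x : R} (hx : x ∈ S) :
    C x ∈ cm β S := by
  refine ⟨cj F (-β) (C x), cj_mem_coeffIn le_rfl (fun y hy => ?_) (fun y hy => ?_)
    (C_mem_coeffIn hx), ?_⟩
  · have := S.neg_mem (h1 y hy)
    convert this using 1; noncomm_ring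
  · have := h2 y hy
    convert this using 1; noncomm_ring
  · have := cj_neg_cj (F := F) (β := -β) (by rw [neg_mul_neg, hβ]) (C x)
    rwa [neg_neg] at this

/-- Polynomials of degree `< d`. -/
def ltD (F : Type*) [Field F] (R : Type*) [Ring R] [Algebra F R] (d : ℕ) : Submodule F R[X] where
  carrier := {f | ∀ i, d ≤ i → f.coeff i = 0}
  add_mem' := fun {a b} ha hb i hi => by rw [coeff_add, ha i hi, hb i hi, add_zero]
  zero_mem' := fun i _ => by simp
  smul_mem' := fun c f hf i hi => by rw [coeff_smul, hf i hi, smul_zero]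

/-- The `d`-th coefficient as an `F`-linear map. -/
noncomputable def co (F : Type*) [Field F] (R : Type*) [Ring R] [Algebra F R] (d : ℕ) :
    R[X] →ₗ[F] R where
  toFun f := f.coeff d
  map_add' _ _ := coeff_add _ _ _
  map_smul' _ _ := coeff_smul _ _ _

theorem finite_ltD [FiniteDimensional F R] (d : ℕ) (M : Submodule F R[X]) :
    FiniteDimensional F ↥(M ⊓ ltD F R d) := by
  refine FiniteDimensional.of_injective
    ((LinearMap.pi fun i : Fin d => co F R i) ∘ₗ (M ⊓ ltD F R d).subtype) ?_
  rw [injective_iff_map_eq_zero]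
  rintro ⟨f, hf⟩ h
  refine Subtype.ext (Polynomial.ext fun i => ?_)
  by_cases hi : i < d
  · exact congrFun h ⟨i, hi⟩
  · exact hf.2 i (not_lt.1 hi)

theorem finrank_cm_le [FiniteDimensional F R] (β : R) (S : Submodule F R) (d : ℕ) :
    finrank F ↥(cm β S ⊓ ltD F R d) ≤ d * finrank F (lim β S) := by
  induction d with
  | zero =>
    have : cm β S ⊓ ltD F R 0 = ⊥ := by
      rw [eq_bot_iff]
      rintro f ⟨-, hf⟩
      exact Polynomial.ext fun i => hf i (Nat.zero_le _)
    rw [this]; simp
  | succ d ih =>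
    have := finite_ltD (F := F) (d + 1) (cm β S)
    have := finite_ltD (F := F) d (cm β S)
    set φ := co F R d ∘ₗ (cm β S ⊓ ltD F R (d + 1)).subtype with hφ
    have h1 := LinearMap.finrank_range_add_finrank_ker φ
    have h2 : finrank F (LinearMap.range φ) ≤ finrank F (lim β S) := by
      refine Submodule.finrank_mono ?_
      rintro _ ⟨⟨f, hf⟩, rfl⟩
      exact ⟨d, f, hf.1, natDegree_le_iff_coeff_eq_zero.2 fun i hi => hf.2 i hi, rfl⟩
    have h3 : finrank F (LinearMap.ker φ) ≤ finrank F ↥(cm β S ⊓ ltD F R d) := by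
      refine LinearMap.finrank_le_finrank_of_injective (f := LinearMap.codRestrict _
        ((cm β S ⊓ ltD F R (d + 1)).subtype ∘ₗ (LinearMap.ker φ).subtype) ?_) ?_
      · rintro ⟨⟨f, hf⟩, hk⟩
        refine ⟨hf.1, fun i hi => ?_⟩
        rcases hi.eq_or_lt with rfl | hi
        · exact hk
        · exact hf.2 i hi
      · intro a b hab
        have h4 := congrArg Subtype.val hab
        exact Subtype.ext (Subtype.ext h4)
    nlinarith

theorem le_finrank_cm [FiniteDimensional F R] {β : R} (hβ : β * β = 0) (S : Submodule F R)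
    (d : ℕ) : d * finrank F S ≤ finrank F ↥(cm β S ⊓ ltD F R (d + 2)) := by
  have := finite_ltD (F := F) (d + 2) (cm β S)
  let ι : (Fin d → S) →ₗ[F] R[X] :=
    { toFun := fun v => ∑ i : Fin d, monomial i (v i : R)
      map_add' := fun v w => by simp [Finset.sum_add_distrib]
      map_smul' := fun c v => by
        rw [RingHom.id_apply, Finset.smul_sum]
        exact Finset.sum_congr rfl fun i _ => by rw [smul_monomial]; rfl }
  have hι : ∀ v (j : ℕ), (ι v).coeff j = if h : j < d then (v ⟨j, h⟩ : R) else 0 := by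
    intro v j
    simp only [ι, LinearMap.coe_mk, AddHom.coe_mk, finsetSum_coeff, coeff_monomial]
    split_ifs with h
    · rw [Finset.sum_eq_single ⟨j, h⟩]
      · simp
      · intro b _ hb
        rw [if_neg]
        exact fun e => hb (Fin.ext e)
      · simp
    · refine Finset.sum_eq_zero fun i _ => if_neg ?_
      intro e
      exact h (e ▸ i.2)
  have hfin : finrank F (Fin d → S) = d * finrank F S := by
    rw [Module.finrank_pi_fintype]; simp
  rw [← hfin]
  refine LinearMap.finrank_le_finrank_of_injective (f := LinearMap.codRestrict _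
    (cj F β ∘ₗ ι) ?_) ?_
  · intro v
    refine ⟨⟨ι v, fun j => ?_, rfl⟩, fun i hi => ?_⟩
    · rw [hι]
      split_ifs
      · exact (v _).2
      · exact S.zero_mem
    · have hz : ∀ j, d ≤ j → (ι v).coeff j = 0 := fun j hj => by rw [hι, dif_neg (not_lt.2 hj)]
      rw [LinearMap.comp_apply, cj_eq, coeff_sub, coeff_add, coeff_mul_X_pow', coeff_mul_X_pow',
        if_pos (by omega), if_pos (by omega), coeff_sub, coeff_mul_C, coeff_C_mul, coeff_mul_C,
        coeff_C_mul, hz i (by omega), hz (i - 1) (by omega), hz (i - 2) (by omega)]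
      simp
  · intro v w hvw
    have h1 : cj F β (ι v) = cj F β (ι w) := congrArg Subtype.val hvw
    have h2 : ι v = ι w := by rw [← cj_neg_cj (F := F) hβ (ι v), h1, cj_neg_cj hβ]
    funext i
    have h3 := congrArg (fun f => coeff f i) h2
    simp only [hι, dif_pos i.2] at h3
    exact Subtype.ext h3

theorem finrank_le_lim [FiniteDimensional F R] {β : R} (hβ : β * β = 0) (S : Submodule F R) :
    finrank F S ≤ finrank F (lim β S) := by
  by_contra h
  push Not at h
  have h1 := (le_finrank_cm hβ S (2 * finrank F S)).trans (finrank_cm_le β S _)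
  obtain ⟨k, hk⟩ := Nat.exists_eq_add_of_lt h
  rw [hk] at h1
  nlinarith

/-- Three mutually normalizing quadratic spaces: a square-zero element of their sum is the
logarithm of a product of elements `1 + y`, `y` in one of the spaces. -/
theorem one_add_eq_prod {a b c : R} {h : F} (hh : h + h = 1) (ha : a * a = 0) (hb : b * b = 0)
    (hc : c * c = 0) (hab : a * b * a = 0) (hba : b * a * b = 0) (hac : a * c * a = 0)
    (hca : c * a * c = 0) (hbc : b * c * b = 0) (hcb : c * b * c = 0)
    (huv : (a * b - b * a) * (a * c - c * a) = 0) (huw : (a * b - b * a) * (b * c - c * b) = 0)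
    (hvw : (a * c - c * a) * (b * c - c * b) = 0)
    (hs : (a + b + c) * (a + b + c) = 0) :
    1 + (a + b + c) = (1 + a) * (1 + b) * (1 + c) * (1 + -(h • (a * b - b * a))) *
      (1 + -(h • (a * c - c * a))) * (1 + -(h • (b * c - c * b))) := by
  set u := a * b - b * a with hu
  set v := a * c - c * a with hv
  set w := b * c - c * b with hw
  have hs2 : a * b + b * a + a * c + c * a + b * c + c * b = 0 := by
    have : (a + b + c) * (a + b + c) = a * a + b * b + c * c +
        (a * b + b * a + a * c + c * a + b * c + c * b) := by noncomm_ring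
    rw [this, ha, hb, hc] at hs
    simpa using hs
  have e1 : a * b * c + a * c * b = 0 := by
    have : a * (a * b + b * a + a * c + c * a + b * c + c * b) = a * a * b + a * b * a +
        a * a * c + a * c * a + (a * b * c + a * c * b) := by noncomm_ring
    rw [hs2, ha, hab, hac] at this
    simpa using this.symm
  have e2 : b * a * c + b * c * a = 0 := by
    have : b * (a * b + b * a + a * c + c * a + b * c + c * b) = b * a * b + b * b * a +
        b * b * c + b * c * b + (b * a * c + b * c * a) := by noncomm_ring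
    rw [hs2, hb, hba, hbc] at this
    simpa using this.symm
  have e3 : c * a * b + c * b * a = 0 := by
    have : c * (a * b + b * a + a * c + c * a + b * c + c * b) = c * a * c + c * c * a +
        c * c * b + c * b * c + (c * a * b + c * b * a) := by noncomm_ring
    rw [hs2, hc, hca, hcb] at this
    simpa using this.symm
  have e4 : a * b * c + b * a * c = 0 := by
    have : (a * b + b * a + a * c + c * a + b * c + c * b) * c = a * (c * c) + c * a * c +
        b * (c * c) + c * b * c + (a * b * c + b * a * c) := by noncomm_ring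
    rw [hs2, hc, hca, hcb] at this
    simpa using this.symm
  have e5 : a * c * b + c * a * b = 0 := by
    have : (a * b + b * a + a * c + c * a + b * c + c * b) * b = a * (b * b) + b * a * b +
        c * (b * b) + b * c * b + (a * c * b + c * a * b) := by noncomm_ring
    rw [hs2, hb, hba, hbc] at this
    simpa using this.symm
  -- `m = h (u + v + w)`
  set m := h • (u + v + w) with hmdef
  have hm1 : a * b + a * c + b * c = m := by
    have : u + v + w = (a * b + a * c + b * c) + (a * b + a * c + b * c) -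
        (a * b + b * a + a * c + c * a + b * c + c * b) := by rw [hu, hv, hw]; abel
    rw [hmdef, this, hs2, sub_zero, smul_add, ← add_smul, hh, one_smul]
  have hQ : (1 + -(h • u)) * (1 + -(h • v)) * (1 + -(h • w)) = 1 - m := by
    have k1 : (h • u) * (h • v) = 0 := by rw [smul_mul_smul_comm, huv, smul_zero]
    have k2 : (h • u) * (h • w) = 0 := by rw [smul_mul_smul_comm, huw, smul_zero]
    have k3 : (h • v) * (h • w) = 0 := by rw [smul_mul_smul_comm, hvw, smul_zero]
    rw [hmdef, smul_add, smul_add]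
    generalize h • u = x at k1 k2 k3 ⊢
    generalize h • v = y at k1 k2 k3 ⊢
    generalize h • w = z at k1 k2 k3 ⊢
    have : (1 + -x) * (1 + -y) * (1 + -z) = 1 - (x + y + z) + (x * y + x * z + y * z - x * y * z) := by
      noncomm_ring
    rw [this, k1, k2, k3]
    simp
  have hP : (1 + a) * (1 + b) * (1 + c) = 1 + (a + b + c) + m + a * b * c := by
    rw [← hm1]; noncomm_ring
  have hsm : (a + b + c) * m = a * b * c := by
    have : (a + b + c) * (a * b + a * c + b * c) = a * a * b + a * a * c + b * a * b + b * b * c +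
        c * a * c + c * b * c + a * b * c + ((a * b * c + b * a * c) - (a * b * c + a * c * b) +
        (a * c * b + c * a * b)) := by noncomm_ring
    rw [← hm1, this, ha, hb, hba, hca, hcb, e4, e1, e5]
    simp
  have hmm : m * m = 0 := by
    have : (a * b + a * c + b * c) * (a * b + a * c + b * c) = a * b * a * b + a * b * a * c +
        a * (b * b) * c + a * c * a * b + a * c * a * c + a * (c * b * c) +
        (b * (c * a * b + c * b * a) - b * c * b * a) + b * (c * a * c) + b * c * b * c := by
      noncomm_ring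
    rw [← hm1, this, hab, hb, hac, hcb, e3, hbc, hca]
    simp
  have h4' : a * b * c * m = 0 := by
    have : a * b * c * (a * b + a * c + b * c) = (a * (b * a * c + b * c * a) * b -
        a * b * a * c * b) + a * b * (c * a * c) + a * b * (c * b * c) := by noncomm_ring
    rw [← hm1, this, e2, hab, hca, hcb]
    simp
  calc 1 + (a + b + c) = 1 + (a + b + c) + (a * b * c - (a + b + c) * m) - m * m - a * b * c * m := by
        rw [hsm, hmm, h4']; simp
    _ = (1 + (a + b + c) + m + a * b * c) * (1 - m) := by noncomm_ring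
    _ = _ := by rw [← hP, ← hQ]; noncomm_ring

end Cfsg.Agent.PLocal.Lynd
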