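import Mathlib
import Cfsg.Agent.PLocal.LyndLim
import Cfsg.Agent.Grp.Subnormal

/-!
# A quadratic offender normalized by all quadratic elements (Glauberman, Lynd)

`G` is a finite `p`-group (`p` odd) acting on `V`. Among the quadratic elementary abelian subgroups
`1 + S` with `dim S ≥ a`, `dim C_V(S) ≥ u`, one which lies deepest in the filtration of `End V`
given by a `G`-central flag of `V` is normalized by every quadratic element of `G`.
-/

set_option autoImplicit false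
set_option linter.unusedSectionVars false

namespace Cfsg.Agent.PLocal.Lynd

open Polynomial Module

section Alg

variable {F R : Type*} [Field F] [Ring R] [Algebra F R]

theorem cj_C (β x : R) :
    cj F β (C x) = C x + C (β * x - x * β) * X ^ 1 + C (-(β * x * β)) * X ^ 2 := by
  rw [cj_eq, C_sub, C_neg, C_mul, C_mul, C_mul, C_mul, _root_.neg_mul, ← sub_eq_add_neg]

theorem br_mem {h : F} (hh : h + h = 1) {S : Submodule F R} {x y : R}
    (h1 : (1 + y) * x * (1 - y) ∈ S) (h2 : (1 + -y) * x * (1 - -y) ∈ S) : y * x - x * y ∈ S := by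
  have h3 := S.smul_mem h (S.sub_mem h1 h2)
  have : (1 + y) * x * (1 - y) - (1 + -y) * x * (1 - -y) = (y * x - x * y) + (y * x - x * y) := by
    noncomm_ring
  rwa [this, smul_add, ← add_smul, hh, one_smul] at h3

/-- The replacement lies in the group. -/
theorem one_add_mem {h : F} (hh : h + h = 1) (Γ : Submonoid R) {A B C : Submodule F R}
    (qA : ∀ x ∈ A, ∀ y ∈ A, x * y = 0) (qB : ∀ x ∈ B, ∀ y ∈ B, x * y = 0)
    (qC : ∀ x ∈ C, ∀ y ∈ C, x * y = 0) (iA : ∀ x ∈ A, 1 + x ∈ Γ) (iB : ∀ x ∈ B, 1 + x ∈ Γ)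
    (iC : ∀ x ∈ C, 1 + x ∈ Γ)
    (nAB : ∀ x ∈ A, ∀ y ∈ B, x * y - y * x ∈ A ⊓ B) (nAC : ∀ x ∈ A, ∀ y ∈ C, x * y - y * x ∈ A ⊓ C)
    (nBC : ∀ x ∈ B, ∀ y ∈ C, x * y - y * x ∈ B ⊓ C) {s : R} (hs : s ∈ A ⊔ B ⊔ C)
    (hs2 : s * s = 0) : 1 + s ∈ Γ := by
  obtain ⟨ab, hab, c, hc, rfl⟩ := Submodule.mem_sup.1 hs
  obtain ⟨a, ha, b, hb, rfl⟩ := Submodule.mem_sup.1 hab
  have hu := nAB a ha b hb
  have hv := nAC a ha c hc
  have hw := nBC b hb c hc
  have key : ∀ {x y : R}, x * x = 0 → x * (x * y - y * x) = 0 → x * y * x = 0 := by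
    intro x y h1 h2
    have : x * (x * y - y * x) = x * x * y - x * y * x := by noncomm_ring
    rw [this, h1] at h2
    simpa using h2
  have key' : ∀ {x y : R}, x * x = 0 → x * (y * x - x * y) = 0 → x * y * x = 0 := by
    intro x y h1 h2
    have : x * (y * x - x * y) = x * y * x - x * x * y := by noncomm_ring
    rw [this, h1] at h2
    simpa using h2
  have a2 := qA a ha a ha
  have b2 := qB b hb b hb
  have c2 := qC c hc c hc
  rw [one_add_eq_prod hh a2 b2 c2 (key a2 (qA _ ha _ hu.1)) (key' b2 (qB _ hb _ hu.2))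
    (key a2 (qA _ ha _ hv.1)) (key' c2 (qC _ hc _ hv.2)) (key b2 (qB _ hb _ hw.1))
    (key' c2 (qC _ hc _ hw.2)) (qA _ hu.1 _ hv.1) (qB _ hu.2 _ hw.1) (qC _ hv.2 _ hw.2) hs2]
  refine Γ.mul_mem (Γ.mul_mem (Γ.mul_mem (Γ.mul_mem (Γ.mul_mem (iA _ ha) (iB _ hb)) (iC _ hc))
    (iA _ ?_)) (iA _ ?_)) (iB _ ?_)
  · exact A.neg_mem (A.smul_mem _ hu.1)
  · exact A.neg_mem (A.smul_mem _ hv.1)
  · exact B.neg_mem (B.smul_mem _ hw.1)

end Alg

variable {F : Type*} [Field F] {V : Type*} [AddCommGroup V] [Module F V]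

/-- Common kernel. -/
def fix (S : Submodule F (End F V)) : Submodule F V where
  carrier := {v | ∀ x ∈ S, x v = 0}
  add_mem' := fun {a b} ha hb x hx => by rw [map_add, ha x hx, hb x hx, add_zero]
  zero_mem' := fun x _ => map_zero x
  smul_mem' := fun c v hv x hx => by rw [map_smul, hv x hx, smul_zero]

/-- Right annihilator. -/
def ann (S : Submodule F (End F V)) : Submodule F (End F V) where
  carrier := {y | ∀ x ∈ S, x * y = 0}
  add_mem' := fun {a b} ha hb x hx => by rw [mul_add, ha x hx, hb x hx, add_zero]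
  zero_mem' := fun x _ => mul_zero x
  smul_mem' := fun c v hv x hx => by rw [mul_smul_comm, hv x hx, smul_zero]

theorem finrank_ann [FiniteDimensional F V] (S : Submodule F (End F V)) :
    finrank F (ann S) = finrank F V * finrank F (fix S) := by
  rw [← Module.finrank_linearMap F F V (fix S)]
  refine LinearEquiv.finrank_eq
    { toFun := fun y => LinearMap.codRestrict (fix S) y.1 fun v x hx =>
        LinearMap.congr_fun (y.2 x hx) v
      invFun := fun z => ⟨(fix S).subtype ∘ₗ z, fun x hx => LinearMap.ext fun v => (z v).2 x hx⟩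
      map_add' := fun _ _ => rfl
      map_smul' := fun _ _ => rfl
      left_inv := fun _ => rfl
      right_inv := fun _ => rfl }

theorem finrank_fix_le_lim [FiniteDimensional F V] {β : End F V} (hβ : β * β = 0)
    (S : Submodule F (End F V)) : finrank F (fix S) ≤ finrank F (fix (lim β S)) := by
  have h1 := finrank_le_lim hβ (ann S)
  have h2 : lim β (ann S) ≤ ann (lim β S) := fun y hy x hx =>
    lim_mul_lim hβ (S := S) (T := ann S) (fun a ha b hb => hb a ha) x hx y hy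
  have h3 := h1.trans (Submodule.finrank_mono h2)
  rw [finrank_ann, finrank_ann] at h3
  rcases Nat.eq_zero_or_pos (finrank F V) with h0 | h0
  · exact (Submodule.finrank_le _).trans (h0.le.trans (Nat.zero_le _))
  · exact Nat.le_of_mul_le_mul_left h3 h0

/-- The filtration of `End V` given by a flag. -/
def fil (Vf : ℕ → Submodule F V) (k : ℕ) : Submodule F (End F V) where
  carrier := {x | ∀ j, ∀ v ∈ Vf j, x v ∈ Vf (j + k)}
  add_mem' := fun {a b} ha hb j v hv => (Vf _).add_mem (ha j v hv) (hb j v hv)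
  zero_mem' := fun j v _ => (Vf _).zero_mem
  smul_mem' := fun c x hx j v hv => (Vf _).smul_mem c (hx j v hv)

theorem fil_mul {Vf : ℕ → Submodule F V} {k l : ℕ} {x y : End F V} (hx : x ∈ fil Vf k)
    (hy : y ∈ fil Vf l) : x * y ∈ fil Vf (l + k) := fun j v hv => by
  rw [← add_assoc]; exact hx _ _ (hy j v hv)

theorem fil_succ_le {Vf : ℕ → Submodule F V} (ha : ∀ i, Vf (i + 1) ≤ Vf i) (k : ℕ) :
    fil Vf (k + 1) ≤ fil Vf k := fun _ hx j v hv => ha _ (hx j v hv)

/-- The height of a space of endomorphisms. -/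
noncomputable def ht (Vf : ℕ → Submodule F V) (N : ℕ) (S : Submodule F (End F V)) : ℕ :=
  ∑ i ∈ Finset.range (N + 1), finrank F ↥(S ⊓ fil Vf i)

theorem ht_lim [FiniteDimensional F V] {Vf : ℕ → Submodule F V} {N : ℕ} (h0 : Vf 0 = ⊤)
    (hN : Vf N = ⊥) (ha : ∀ i, Vf (i + 1) ≤ Vf i) {β : End F V} (hβ : β * β = 0)
    (hβ1 : β ∈ fil Vf 1) {S : Submodule F (End F V)} (hS : S ≤ fil Vf 0)
    (hle : ht Vf N (lim β S) ≤ ht Vf N S) :
    ∀ x ∈ S, β * x - x * β ∈ S ∧ β * x * β ∈ S := by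
  have d1 : ∀ i, ∀ x ∈ fil Vf i, β * x - x * β ∈ fil Vf (i + 1) := fun i x hx =>
    Submodule.sub_mem _ (fil_mul hβ1 hx) (add_comm 1 i ▸ fil_mul hx hβ1)
  have d2 : ∀ i, ∀ x ∈ fil Vf i, β * x * β ∈ fil Vf (i + 1) := fun i x hx =>
    fil_succ_le ha _ (add_comm 1 (i + 1) ▸ fil_mul (fil_mul hβ1 hx) hβ1)
  have hl : ∀ i, lim β (S ⊓ fil Vf i) ≤ lim β S ⊓ fil Vf i := fun i =>
    le_inf (lim_mono inf_le_left) (lim_le inf_le_right
      (fun x hx => fil_succ_le ha _ (d1 i x hx.2)) fun x hx => fil_succ_le ha _ (d2 i x hx.2))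
  have hge : ∀ i, finrank F ↥(S ⊓ fil Vf i) ≤ finrank F ↥(lim β S ⊓ fil Vf i) := fun i =>
    (finrank_le_lim hβ _).trans (Submodule.finrank_mono (hl i))
  have heq : ∀ i ≤ N, finrank F ↥(lim β S ⊓ fil Vf i) ≤ finrank F ↥(S ⊓ fil Vf i) := by
    intro i hi
    by_contra hlt
    exact absurd (Finset.sum_lt_sum (fun j _ => hge j)
      ⟨i, Finset.mem_range.2 (by omega), not_le.1 hlt⟩) (not_lt.2 hle)
  have main : ∀ k ≤ N, ∀ x ∈ S ⊓ fil Vf (N - k), β * x - x * β ∈ S ∧ β * x * β ∈ S := by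
    intro k
    induction k with
    | zero =>
      intro _ x hx
      have : x = 0 := LinearMap.ext fun v => by
        have := hx.2 0 v (h0 ▸ Submodule.mem_top)
        rwa [zero_add, Nat.sub_zero, hN] at this
      subst this
      simp
    | succ k ih =>
      intro hk x hx
      obtain ⟨i, hi⟩ : ∃ i, N - (k + 1) = i := ⟨_, rfl⟩
      have hi' : N - k = i + 1 := by omega
      rw [hi] at hx
      have ih' := ih (by omega)
      rw [hi'] at ih'
      set T := S ⊓ fil Vf (i + 1) with hT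
      have hC : ∀ y ∈ T, C y ∈ cm β S := fun y hy => cm_mono inf_le_left (C_mem_cm hβ (S := T)
        (fun z hz => ⟨(ih' z hz).1, fil_succ_le ha _ (d1 _ z hz.2)⟩)
        (fun z hz => ⟨(ih' z hz).2, fil_succ_le ha _ (d2 _ z hz.2)⟩) hy)
      have hTle : T ≤ lim β S ⊓ fil Vf (i + 1) := fun y hy =>
        ⟨⟨0, C y, hC y hy, by simp, by simp⟩, hy.2⟩
      have hTeq : T = lim β S ⊓ fil Vf (i + 1) :=
        Submodule.eq_of_le_of_finrank_le hTle (heq _ (by omega))
      have hcx : cj F β (C x) ∈ cm β S := ⟨C x, C_mem_coeffIn hx.1, rfl⟩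
      have hform : cj F β (C x) = C x + C (β * x - x * β) * X ^ 1 + C (-(β * x * β)) * X ^ 2 :=
        cj_C β x
      have h2 : -(β * x * β) ∈ T := by
        rw [hTeq]
        refine ⟨⟨2, _, hcx, ?_, ?_⟩, Submodule.neg_mem _ (d2 i x hx.2)⟩
        · rw [hform]; compute_degree
        · rw [hform]; simp only [coeff_add, coeff_C_mul_X_pow, coeff_C]; simp
      have h1 : β * x - x * β ∈ T := by
        rw [hTeq]
        refine ⟨⟨1, _, Submodule.sub_mem _ hcx (cm_mul_X_pow (hC _ h2) 2), ?_, ?_⟩, d1 i x hx.2⟩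
        · rw [hform, add_sub_cancel_right]; compute_degree
        · rw [hform, add_sub_cancel_right]; simp only [coeff_add, coeff_C_mul_X_pow, coeff_C]; simp
      exact ⟨h1.1, by simpa using S.neg_mem h2.1⟩
  intro x hx
  exact main N le_rfl x ⟨hx, by rw [Nat.sub_self]; exact hS hx⟩

variable {G : Type*} [Group G] (ρ : G →* End F V)

/-- `S` is the logarithm of a quadratic subgroup of `G`. -/
def QS (S : Submodule F (End F V)) : Prop :=
  (∀ x ∈ S, ∀ y ∈ S, x * y = 0) ∧ ∀ x ∈ S, ∃ g, ρ g = 1 + x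

theorem rho_inv {g : G} {x : End F V} (hx : x * x = 0) (h : ρ g = 1 + x) : ρ g⁻¹ = 1 - x := by
  have h1 : ρ g⁻¹ * ((1 + x) * (1 - x)) = 1 - x := by
    rw [← mul_assoc, ← h, ← map_mul, inv_mul_cancel, map_one, one_mul]
  have : (1 + x) * (1 - x) = 1 - x * x := by noncomm_ring
  rwa [this, hx, sub_zero, mul_one] at h1

/-- The subgroup `1 + S`. -/
def grpOf (S : Submodule F (End F V)) (hS : ∀ x ∈ S, ∀ y ∈ S, x * y = 0) : Subgroup G where
  carrier := {g | ρ g - 1 ∈ S}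
  one_mem' := by simp
  mul_mem' := fun {a b} ha hb => by
    have : ρ (a * b) - 1 = (ρ a - 1) * (ρ b - 1) + (ρ a - 1) + (ρ b - 1) := by
      rw [map_mul]; noncomm_ring
    change _ ∈ S
    rw [this, hS _ ha _ hb, zero_add]
    exact S.add_mem ha hb
  inv_mem' := fun {a} ha => by
    change _ ∈ S
    rw [rho_inv ρ (hS _ ha _ ha) (x := ρ a - 1) (by abel)]
    simpa using S.neg_mem ha

/-- Conjugation by a group element. -/
def cg (g : G) : End F V →ₗ[F] End F V :=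
  (LinearMap.mulRight F (ρ g⁻¹)) ∘ₗ (LinearMap.mulLeft F (ρ g))

theorem cg_apply (g : G) (x : End F V) : cg ρ g x = ρ g * x * ρ g⁻¹ := rfl

theorem cg_cg (g h : G) (x : End F V) : cg ρ g (cg ρ h x) = cg ρ (g * h) x := by
  simp only [cg_apply, mul_inv_rev, map_mul, mul_assoc]

theorem cg_one (x : End F V) : cg ρ 1 x = x := by simp [cg_apply]

theorem cg_mul (g : G) (x y : End F V) : cg ρ g (x * y) = cg ρ g x * cg ρ g y := by
  simp only [cg_apply, mul_assoc]
  rw [← mul_assoc (ρ g⁻¹) (ρ g), ← map_mul, inv_mul_cancel, map_one, one_mul]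

theorem cg_rho (g a : G) : cg ρ g (ρ a) = ρ (g * a * g⁻¹) := by simp [cg_apply]

theorem cg_one' (g : G) : cg ρ g 1 = 1 := by
  rw [cg_apply, mul_one, ← map_mul, mul_inv_cancel, map_one]

variable {ρ}

theorem QS.map {S : Submodule F (End F V)} (h : QS ρ S) (g : G) : QS ρ (S.map (cg ρ g)) := by
  constructor
  · rintro _ ⟨x, hx, rfl⟩ _ ⟨y, hy, rfl⟩
    rw [← cg_mul, h.1 x hx y hy, map_zero]
  · rintro _ ⟨x, hx, rfl⟩
    obtain ⟨a, ha⟩ := h.2 x hx
    exact ⟨g * a * g⁻¹, by rw [← cg_rho, ha, map_add, cg_one']⟩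

theorem replace {h : F} (hh : h + h = 1) {S : Submodule F (End F V)} (hS : QS ρ S) {b : G}
    {β : End F V} (hβ : β * β = 0) (hb : ρ b = 1 + β)
    (hn : ∀ g ∈ Subgroup.zpowers b, ∀ a : G, ρ a - 1 ∈ S → ∀ x ∈ S, cg ρ (g * a * g⁻¹) x ∈ S) :
    QS ρ (lim β S) := by
  have hq := lim_mul_lim hβ hS.1
  refine ⟨hq, fun s hs => ?_⟩
  have hbi := rho_inv ρ hβ hb
  -- brackets
  have hbr : ∀ g ∈ Subgroup.zpowers b, ∀ g' ∈ Subgroup.zpowers b, ∀ x ∈ S.map (cg ρ g),
      ∀ y ∈ S.map (cg ρ g'), y * x - x * y ∈ S.map (cg ρ g) := by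
    have k : ∀ g ∈ Subgroup.zpowers b, ∀ g' ∈ Subgroup.zpowers b, ∀ x ∈ S.map (cg ρ g),
        ∀ y ∈ S.map (cg ρ g'), (1 + y) * x * (1 - y) ∈ S.map (cg ρ g) := by
      rintro g hg g' hg' _ ⟨x, hx, rfl⟩ _ ⟨y, hy, rfl⟩
      obtain ⟨a, ha⟩ := hS.2 y hy
      have e1 : ρ (g' * a * g'⁻¹) = 1 + cg ρ g' y := by rw [← cg_rho, ha, map_add, cg_one']
      have e2 := rho_inv ρ (by rw [← cg_mul, hS.1 y hy y hy, map_zero]) e1
      refine ⟨_, hn (g⁻¹ * g') (mul_mem (inv_mem hg) hg') a (by rw [ha]; simpa using hy) x hx, ?_⟩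
      rw [← e1, ← e2, ← cg_apply, cg_cg, cg_cg]
      congr 2
      group
    intro g hg g' hg' x hx y hy
    exact br_mem hh (k g hg g' hg' x hx y hy) (k g hg g' hg' x hx (-y) (Submodule.neg_mem _ hy))
  have hbr' : ∀ g ∈ Subgroup.zpowers b, ∀ g' ∈ Subgroup.zpowers b, ∀ x ∈ S.map (cg ρ g),
      ∀ y ∈ S.map (cg ρ g'), x * y - y * x ∈ S.map (cg ρ g) ⊓ S.map (cg ρ g') :=
    fun g hg g' hg' x hx y hy =>
      ⟨by simpa using Submodule.neg_mem _ (hbr g hg g' hg' x hx y hy), hbr g' hg' g hg y hy x hx⟩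
  have hin : ∀ g, ∀ x ∈ S.map (cg ρ g), 1 + x ∈ MonoidHom.mrange ρ := fun g x hx =>
    (hS.map g).2 x hx
  have m1 : (1 : G) ∈ Subgroup.zpowers b := one_mem _
  have m2 : b ∈ Subgroup.zpowers b := Subgroup.mem_zpowers b
  have m3 : b⁻¹ ∈ Subgroup.zpowers b := inv_mem m2
  refine one_add_mem hh (MonoidHom.mrange ρ) (hS.map 1).1 (hS.map b).1 (hS.map b⁻¹).1 (hin 1)
    (hin b) (hin b⁻¹) (hbr' _ m1 _ m2) (hbr' _ m1 _ m3) (hbr' _ m2 _ m3) ?_ (hq s hs s hs)
  set W := S.map (cg ρ 1) ⊔ S.map (cg ρ b) ⊔ S.map (cg ρ b⁻¹) with hW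
  have w0 : ∀ x ∈ S, x ∈ W := fun x hx =>
    Submodule.mem_sup_left (Submodule.mem_sup_left ⟨x, hx, cg_one ρ x⟩)
  have w1 : ∀ x ∈ S, (1 + β) * x * (1 - β) ∈ W := fun x hx =>
    Submodule.mem_sup_left (Submodule.mem_sup_right ⟨x, hx, by rw [cg_apply, hb, hbi]⟩)
  have w2 : ∀ x ∈ S, (1 + -β) * x * (1 - -β) ∈ W := fun x hx =>
    Submodule.mem_sup_right ⟨x, hx, by
      rw [cg_apply, inv_inv, hb, hbi, sub_neg_eq_add, sub_eq_add_neg]⟩
  have w3 : ∀ x ∈ S, β * x - x * β ∈ W := fun x hx => br_mem hh (w1 x hx) (w2 x hx)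
  refine lim_le w0 w3 (fun x hx => ?_) hs
  have := W.sub_mem (W.add_mem (w0 x hx) (w3 x hx)) (w1 x hx)
  convert this using 1
  noncomm_ring

theorem exists_normalized [Finite G] [Finite V] [FiniteDimensional F V] {p : ℕ} [Fact p.Prime]
    (hG : IsPGroup p G) {h : F} (hh : h + h = 1) {Vf : ℕ → Submodule F V} {N : ℕ}
    (h0 : Vf 0 = ⊤) (hN : Vf N = ⊥) (ha : ∀ i, Vf (i + 1) ≤ Vf i)
    (hst : ∀ g, ρ g - 1 ∈ fil Vf 1) {S0 : Submodule F (End F V)} (hS0 : QS ρ S0) :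
    ∃ S, QS ρ S ∧ finrank F S0 ≤ finrank F S ∧ finrank F (fix S0) ≤ finrank F (fix S) ∧
      ∀ b : G, (ρ b - 1) * (ρ b - 1) = 0 → ∀ x ∈ S, cg ρ b x ∈ S := by
  have : Finite (End F V) := DFunLike.finite _
  obtain ⟨S, ⟨hS, hd, hf⟩, hmax⟩ := Set.exists_max_image {S : Submodule F (End F V) | QS ρ S ∧
    finrank F S0 ≤ finrank F S ∧ finrank F (fix S0) ≤ finrank F (fix S)} (ht Vf N)
    (Set.toFinite _) ⟨S0, hS0, le_rfl, le_rfl⟩
  refine ⟨S, hS, hd, hf, ?_⟩
  have hS1 : S ≤ fil Vf 0 := fun x hx => by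
    obtain ⟨g, hg⟩ := hS.2 x hx
    have := hst g
    rw [hg, add_sub_cancel_left] at this
    exact fil_succ_le ha 0 this
  set A := grpOf ρ S hS.1 with hA
  have key : ∀ H : Subgroup G, A ≤ H → ∀ b ∈ H, (ρ b - 1) * (ρ b - 1) = 0 →
      ∀ x ∈ S, cg ρ b x ∈ S := by
    intro H
    induction H using WellFoundedLT.induction with
    | ind H ih =>
      intro hAH b hb hβ x hx
      have e1 : ρ b = 1 + (ρ b - 1) := by abel
      have e2 := rho_inv ρ hβ e1
      rcases hAH.eq_or_lt with rfl | hlt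
      · have hb' : ρ b - 1 ∈ S := hb
        rw [cg_apply, e2, e1]
        generalize ρ b - 1 = y at hb'
        have : (1 + y) * x * (1 - (1 + y - 1)) = x + y * x - x * y - y * x * y := by noncomm_ring
        rw [this, hS.1 _ hb' _ hx, hS.1 _ hx _ hb']
        simpa using hx
      · obtain ⟨M, ⟨hAM, hMH⟩, hM⟩ := Set.exists_max_image {M : Subgroup G | A ≤ M ∧ M < H}
          (fun M => Nat.card M) (Set.toFinite _) ⟨A, le_rfl, hlt⟩
        have hnorm : H ≤ Subgroup.normalizer (M : Set G) := by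
          have h1 := Grp.lt_inf_normalizer_of_isNilpotent (hG.to_subgroup H).isNilpotent hMH
          by_contra hc
          have h2 : H ⊓ Subgroup.normalizer (M : Set G) < H :=
            lt_of_le_of_ne inf_le_left fun e => hc (e ▸ inf_le_right)
          exact absurd (hM _ ⟨hAM.trans h1.le, h2⟩) (not_le.2 (Set.Finite.card_lt_card
            (Set.toFinite _) (SetLike.coe_ssubset_coe.2 h1)))
        have hq := replace hh hS hβ e1 fun g hg a haS y hy => by
          refine ih M hMH hAM _ ((Subgroup.mem_normalizer_iff.1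
            (hnorm ((Subgroup.zpowers_le.2 hb) hg)) a).1 (hAM haS)) ?_ y hy
          rw [← cg_rho, ← cg_one' ρ g, ← map_sub, ← cg_mul, hS.1 _ haS _ haS, map_zero]
        have := ht_lim h0 hN ha hβ (hst b) hS1 (hmax _ ⟨hq, hd.trans (finrank_le_lim hβ S),
          hf.trans (finrank_fix_le_lim hβ S)⟩) x hx
        rw [cg_apply, e2, e1]
        generalize ρ b - 1 = y at this
        have e : (1 + y) * x * (1 - (1 + y - 1)) = x + (y * x - x * y) - y * x * y := by
          noncomm_ring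
        rw [e]
        exact S.sub_mem (S.add_mem hx this.1) this.2
  exact fun b => key ⊤ le_top b trivial

end Cfsg.Agent.PLocal.Lynd
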