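import Mathlib

/-!
# Quadratic strongly closed subgroups with a small fixed space

If a `p`-subgroup `T` of a faithful linear group is quadratic with `C_M(t) = W ⊇ [M,T]` for all
`t ∈ T#`, `|W| ≤ |T|` and conjugates of elements of `T` in `N(T)` lie in `T`, then distinct conjugates
of `W` meet trivially.
-/

set_option autoImplicit false

namespace Cfsg.Agent.PLocal.QuadTI

open Subgroup

variable {G M : Type*} [Group G] [AddCommGroup M] [DistribMulAction G M]

/-- the hypothesis -/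
structure Hyp (p : ℕ) (T : Subgroup G) (W : AddSubgroup M) : Prop where
  pM : ∀ m : M, p • m = 0
  ne : T ≠ ⊥
  fix : ∀ t ∈ T, t ≠ 1 → ∀ m : M, t • m = m ↔ m ∈ W
  comm : ∀ t ∈ T, ∀ m : M, t • m - m ∈ W
  card : Nat.card W ≤ Nat.card T
  sc : ∀ g : G, ∀ t ∈ T, g * t * g⁻¹ ∈ normalizer (T : Set G) → g * t * g⁻¹ ∈ T

variable {p : ℕ} {T : Subgroup G} {W : AddSubgroup M}

theorem Hyp.fix' (h : Hyp p T W) {t : G} (ht : t ∈ T) {m : M} (hm : m ∈ W) : t • m = m := by
  by_cases e : t = 1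
  · simp [e]
  · exact (h.fix t ht e m).2 hm

theorem commute_of_quad [FaithfulSMul G M] {a b : G} (ha : ∀ m ∈ W, a • m = m)
    (ha' : ∀ m, a • m - m ∈ W) (hb : ∀ m ∈ W, b • m = m) (hb' : ∀ m, b • m - m ∈ W) :
    a * b = b * a := by
  refine FaithfulSMul.eq_of_smul_eq_smul (α := M) fun m => ?_
  have h1 := ha _ (hb' m)
  have h2 := hb _ (ha' m)
  rw [smul_sub] at h1 h2
  rw [mul_smul, mul_smul, sub_eq_iff_eq_add.1 h1, sub_eq_iff_eq_add.1 h2]
  abel

theorem Hyp.mem_normalizer_of_stab [Finite G] [FaithfulSMul G M] (h : Hyp p T W) {g : G}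
    (hg : ∀ m, g • m ∈ W ↔ m ∈ W) : g ∈ normalizer (T : Set G) := by
  refine mem_normalizer_fintype fun t ht => h.sc g t ht ?_
  have h1 : ∀ m ∈ W, (g * t * g⁻¹) • m = m := fun m hm => by
    rw [mul_smul, mul_smul, h.fix' ht ((hg _).1 (by simpa using hm)), smul_inv_smul]
  have h2 : ∀ m, (g * t * g⁻¹) • m - m ∈ W := fun m => by
    have := (hg _).2 (h.comm t ht (g⁻¹ • m))
    rwa [smul_sub, smul_inv_smul, ← mul_smul, ← mul_smul] at this
  refine mem_normalizer_fintype fun s hs => ?_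
  rw [commute_of_quad h1 h2 (fun m hm => h.fix' hs hm) (h.comm s hs), mul_inv_cancel_right]
  exact hs

theorem Hyp.mem_normalizer_of_conj [Finite G] [FaithfulSMul G M] (h : Hyp p T W) {g t : G}
    (ht : t ∈ T) (h1 : t ≠ 1) (hg : g * t * g⁻¹ ∈ normalizer (T : Set G)) :
    g ∈ normalizer (T : Set G) := by
  refine h.mem_normalizer_of_stab fun m => ?_
  rw [← h.fix t ht h1 m, ← h.fix _ (h.sc g t ht hg) (by simpa using h1) (g • m), mul_smul,
    mul_smul, inv_smul_smul, smul_left_cancel_iff]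

/-- vectors fixed by the `p'`-elements of `K` -/
def Z (p : ℕ) (K : Subgroup G) (M : Type*) [AddCommGroup M] [DistribMulAction G M] :
    AddSubgroup M where
  carrier := {m | ∀ k ∈ K, (orderOf k).Coprime p → k • m = m}
  zero_mem' := fun k _ _ => smul_zero k
  add_mem' := fun {a b} ha hb k hk hc => by rw [smul_add, ha k hk hc, hb k hk hc]
  neg_mem' := fun {a} ha k hk hc => by rw [smul_neg, ha k hk hc]

theorem smul_mem_Z {K : Subgroup G} {x : G} (hx : x ∈ K) {m : M} (hm : m ∈ Z p K M) :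
    x • m ∈ Z p K M := fun k hk hc => by
  have h1 := hm (x⁻¹ * k * x) (mul_mem (mul_mem (inv_mem hx) hk) hx) (by
    have : orderOf (x⁻¹ * k * x) = orderOf k := by
      have := (MulAut.conj x⁻¹).orderOf_eq k
      simpa using this
    rwa [this])
  rw [mul_smul, mul_smul, inv_smul_eq_iff] at h1
  exact h1

theorem mem_Z_of_sub (hp : ∀ m : M, p • m = 0) {K : Subgroup G} {y : M}
    (hy : ∀ k ∈ K, k • y - y ∈ Z p K M) : y ∈ Z p K M := fun k hk hc => by
  have h1 : k • (k • y - y) = k • y - y := hy k hk k hk hc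
  have h2 : ∀ n : ℕ, k ^ n • y = y + n • (k • y - y) := by
    intro n
    induction n with
    | zero => simp
    | succ n ih =>
      rw [pow_succ', mul_smul, ih, smul_add, smul_comm k n, h1, succ_nsmul]
      abel
  have h3 := h2 (orderOf k)
  rw [pow_orderOf_eq_one, one_smul, left_eq_add] at h3
  have h4 : addOrderOf (k • y - y) ∣ 1 :=
    hc ▸ Nat.dvd_gcd (addOrderOf_dvd_of_nsmul_eq_zero h3) (addOrderOf_dvd_of_nsmul_eq_zero (hp _))
  exact sub_eq_zero.1 (AddMonoid.addOrderOf_eq_one_iff.1 (Nat.dvd_one.1 h4))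

/-- elements of `K` fixing `y` modulo `Z` -/
def KZ (p : ℕ) (K : Subgroup G) (y : M) : Subgroup G where
  carrier := {k | k ∈ K ∧ k • y - y ∈ Z p K M}
  one_mem' := ⟨one_mem _, by simp⟩
  mul_mem' := fun {a b} ha hb => ⟨mul_mem ha.1 hb.1, by
    have := add_mem (smul_mem_Z ha.1 hb.2) ha.2
    rwa [smul_sub, sub_add_sub_cancel, ← mul_smul] at this⟩
  inv_mem' := fun {a} ha => ⟨inv_mem ha.1, by
    have := neg_mem (smul_mem_Z (inv_mem ha.1) ha.2)
    rwa [smul_sub, inv_smul_smul, neg_sub] at this⟩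

theorem isPGroup_of_coprime [Finite G] [hp : Fact p.Prime] {K : Subgroup G}
    (h : ∀ k ∈ K, (orderOf k).Coprime p → k = 1) : IsPGroup p K := fun k => by
  obtain ⟨a, m, h1, h2⟩ := Nat.exists_eq_pow_mul_and_not_dvd (orderOf_pos (k : G)).ne' p
    hp.out.ne_one
  refine ⟨a, Subtype.ext (h _ (pow_mem k.2 _) ?_)⟩
  have h3 : orderOf ((k : G) ^ p ^ a) ∣ m :=
    orderOf_dvd_of_pow_eq_one (by rw [← pow_mul, ← h2, pow_orderOf_eq_one])
  exact Nat.Coprime.coprime_dvd_left h3 ((hp.out.coprime_iff_not_dvd.2 h1).symm)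

/-- conjugates of `W` are equal or meet trivially -/
theorem Hyp.main [Finite G] [Finite M] [FaithfulSMul G M] [Fact p.Prime] (h : Hyp p T W) {g : G}
    {u : M} (hu : u ∈ W) (hu0 : u ≠ 0) (hg : g • u ∈ W) : g ∈ normalizer (T : Set G) := by
  by_contra hgN
  obtain ⟨⟨a, haT⟩, ha1⟩ := ne_bot_iff_exists_ne_one.1 h.ne
  have ha1 : a ≠ 1 := fun e => ha1 (Subtype.ext e)
  set v := g • u with hv
  have hv0 : v ≠ 0 := fun e => hu0 (by simpa using congrArg (g⁻¹ • ·) (hv.symm.trans e))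
  obtain ⟨K, ⟨hK1, hK2, hK3⟩, hmin⟩ := wellFounded_lt.has_min
    {K : Subgroup G | K ≤ MulAction.stabilizer G v ∧ T ≤ K ∧ ¬ K ≤ normalizer (T : Set G)}
    ⟨MulAction.stabilizer G v, le_rfl, fun t ht => h.fix' ht hg, fun e =>
      hgN (h.mem_normalizer_of_conj haT ha1 (e (by
        rw [MulAction.mem_stabilizer_iff, hv, mul_smul, mul_smul, inv_smul_smul,
          h.fix' haT hu])))⟩
  obtain ⟨x, hxK, hxN⟩ := SetLike.not_le_iff_exists.1 hK3
  have gen : ∀ b ∈ T, b ≠ 1 → ∀ K1 : Subgroup G, b ∈ K1 → (∀ t ∈ T, x * t * x⁻¹ ∈ K1) →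
      K ≤ K1 := by
    intro b hb hb1 K1 h1 h2
    have hle : (K1 ⊓ K).comap (MulAut.conj x).toMonoidHom ≤ K := fun y hy => by
      have : x * y * x⁻¹ ∈ K := hy.2
      simpa [mul_assoc] using mul_mem (mul_mem (inv_mem hxK) this) hxK
    have heq : (K1 ⊓ K).comap (MulAut.conj x).toMonoidHom = K := by
      refine hle.eq_of_not_lt (hmin _ ⟨hle.trans hK1, fun t ht =>
        ⟨h2 t ht, K.mul_mem (K.mul_mem hxK (hK2 ht)) (K.inv_mem hxK)⟩, fun e => hxN ?_⟩)
      have h3 : x⁻¹ * b * x⁻¹⁻¹ ∈ normalizer (T : Set G) := e (by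
        have : (MulAut.conj x).toMonoidHom (x⁻¹ * b * x⁻¹⁻¹) = b := by simp [mul_assoc]
        rw [mem_comap, this]
        exact ⟨h1, hK2 hb⟩)
      exact inv_mem_iff.1 (h.mem_normalizer_of_conj hb hb1 h3)
    intro k hk
    have h4 : x⁻¹ * k * x ∈ (K1 ⊓ K).comap (MulAut.conj x).toMonoidHom :=
      heq.ge (mul_mem (mul_mem (inv_mem hxK) hk) hxK)
    have : (MulAut.conj x).toMonoidHom (x⁻¹ * k * x) = k := by simp [mul_assoc]
    rw [mem_comap, this] at h4
    exact h4.1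
  have hvZ : v ∈ Z p K M := fun k hk _ => hK1 hk
  have hxW : ∀ w ∈ W, x • w ∈ Z p K M := by
    intro w hw
    by_contra hy
    have key : ∀ b ∈ T, b • x • w - x • w ∈ Z p K M → b = 1 := by
      intro b hb hbZ
      by_contra hb1
      refine hy (mem_Z_of_sub h.pM fun k hk => (gen b hb hb1 (KZ p K (x • w)) ⟨hK2 hb, hbZ⟩
        (fun t ht => ⟨mul_mem (mul_mem hxK (hK2 ht)) (inv_mem hxK), ?_⟩) hk).2)
      rw [mul_smul, mul_smul, inv_smul_smul, h.fix' ht hw, sub_self]
      exact zero_mem _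
    let j : T → W := fun t => ⟨(t : G) • x • w - x • w, h.comm t t.2 _⟩
    have hj : Function.Injective j := fun s t e => by
      have e1 : (s : G) • x • w = (t : G) • x • w := sub_left_injective (congrArg Subtype.val e)
      have := key ((t : G)⁻¹ * s) (mul_mem (inv_mem t.2) s.2) (by
        rw [mul_smul, e1, inv_smul_smul, sub_self]
        exact zero_mem _)
      exact Subtype.ext (inv_mul_eq_one.1 this).symm
    obtain ⟨t, ht⟩ := (hj.bijective_of_nat_card_le h.card).2 ⟨v, hg⟩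
    have e1 : (t : G) • x • w - x • w = v := congrArg Subtype.val ht
    have e2 := key t t.2 (e1 ▸ hvZ)
    rw [e2, one_smul, sub_self] at e1
    exact hv0 e1.symm
  have hW : ∀ w ∈ W, w ∈ Z p K M := fun w hw => by
    simpa using smul_mem_Z (inv_mem hxK) (hxW w hw)
  have hall : ∀ y, y ∈ Z p K M := fun y =>
    mem_Z_of_sub h.pM fun k hk => (gen a haT ha1 (KZ p K y) ⟨hK2 haT, hW _ (h.comm a haT y)⟩
      (fun t ht => ⟨mul_mem (mul_mem hxK (hK2 ht)) (inv_mem hxK), by
        have := hxW _ (h.comm t ht (x⁻¹ • y))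
        rwa [smul_sub, smul_inv_smul, ← mul_smul, ← mul_smul] at this⟩) hk).2
  have hP : IsPGroup p K := isPGroup_of_coprime fun k hk hc =>
    FaithfulSMul.eq_of_smul_eq_smul (α := M) fun m => by rw [hall m k hk hc, one_smul]
  have := hP.isNilpotent
  have hlt := Group.normalizerCondition_of_isNilpotent ((normalizer (T : Set G)).subgroupOf K)
    (lt_top_iff_ne_top.2 fun e => hK3 (subgroupOf_eq_top.1 e))
  obtain ⟨y, hy1, hy2⟩ := SetLike.exists_of_lt hlt
  exact hy2 (h.mem_normalizer_of_conj haT ha1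
    ((mem_normalizer_iff.1 hy1 ⟨a, hK2 haT⟩).1 (le_normalizer haT)))

end Cfsg.Agent.PLocal.QuadTI
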