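import Mathlib
import Cfsg.Agent.PLocal.QuadTI
import Cfsg.Agent.PLocal.AmbSyl

/-!
# A natural `SL₂(q)` whose normalizer contains a Sylow `p`-subgroup is normal unless `q = 4`
-/

set_option autoImplicit false

namespace Cfsg.Agent.PLocal.NatSyl

open Subgroup Matrix Cfsg.Agent.PLocal.Amb Cfsg.Agent.PLocal.QuadTI
open scoped MatrixGroups

variable {G F : Type*} [Group G] [Field F]

theorem ringHom_eq_of_invol [Finite F] (p : ℕ) [Fact p.Prime] [CharP F p] {σ τ : F →+* F}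
    (hσ : ∀ x, σ (σ x) = x) (hτ : ∀ x, τ (τ x) = x) (hσ1 : ¬ ∀ x, σ x = x) (hτ1 : ¬ ∀ x, τ x = x)
    (x : F) : σ x = τ x := by
  classical
  let : Algebra (ZMod p) F := ZMod.algebra F p
  have mk : ∀ σ : F →+* F, ∃ a : F ≃ₐ[ZMod p] F, ∀ x, a x = σ x := fun σ =>
    ⟨AlgEquiv.ofBijective { σ with
        commutes' := fun r => RingHom.congr_fun (RingHom.ext_zmod (σ.comp (algebraMap _ _)) _) r }
      (Finite.injective_iff_bijective.1 σ.injective), fun _ => rfl⟩
  obtain ⟨a, ha⟩ := mk σ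
  obtain ⟨b, hb⟩ := mk τ
  have : Fintype (F ≃ₐ[ZMod p] F) := Fintype.ofFinite _
  by_contra hne
  have h1 := IsCyclic.card_pow_eq_one_le (α := F ≃ₐ[ZMod p] F) (n := 2) two_pos
  refine h1.not_gt (Finset.two_lt_card_iff.2 ⟨1, a, b, by simp, ?_, ?_, fun e => hσ1 fun y => ?_,
    fun e => hτ1 fun y => ?_, fun e => hne ?_⟩)
  · simp only [Finset.mem_filter, Finset.mem_univ, true_and]
    ext y
    rw [pow_two, AlgEquiv.mul_apply, ha, ha, hσ, AlgEquiv.one_apply]
  · simp only [Finset.mem_filter, Finset.mem_univ, true_and]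
    ext y
    rw [pow_two, AlgEquiv.mul_apply, hb, hb, hτ, AlgEquiv.one_apply]
  · rw [← ha, ← e, AlgEquiv.one_apply]
  · rw [← hb, ← e, AlgEquiv.one_apply]
  · rw [← ha, ← hb, e]

/-- upper unitriangular map -/
def up (c : F) (m : Fin 2 → F) : Fin 2 → F := ![m 0 + c * m 1, m 1]

@[simp] theorem up_zero' (c : F) (m : Fin 2 → F) : up c m 0 = m 0 + c * m 1 := rfl
@[simp] theorem up_one' (c : F) (m : Fin 2 → F) : up c m 1 = m 1 := rfl

theorem ext2 {a b : Fin 2 → F} (h0 : a 0 = b 0) (h1 : a 1 = b 1) : a = b := by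
  ext i
  fin_cases i
  exacts [h0, h1]

theorem up_up (c d : F) (m : Fin 2 → F) : up c (up d m) = up (c + d) m :=
  ext2 (by simp only [up_zero', up_one']; ring) rfl

theorem up_zero (m : Fin 2 → F) : up 0 m = m := ext2 (by simp) rfl

theorem mv0 (A : Matrix (Fin 2) (Fin 2) F) (m : Fin 2 → F) :
    (A *ᵥ m) 0 = A 0 0 * m 0 + A 0 1 * m 1 := by
  simp [mulVec, dotProduct, Fin.sum_univ_two]

theorem mv1 (A : Matrix (Fin 2) (Fin 2) F) (m : Fin 2 → F) :
    (A *ᵥ m) 1 = A 1 0 * m 0 + A 1 1 * m 1 := by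
  simp [mulVec, dotProduct, Fin.sum_univ_two]

variable [DistribMulAction G (Fin 2 → F)]

variable (G F) in
/-- the elements acting as upper unitriangular matrices -/
def TT : Subgroup G where
  carrier := {g | ∃ c : F, ∀ m, g • m = up c m}
  one_mem' := ⟨0, fun m => by rw [one_smul, up_zero]⟩
  mul_mem' := by
    rintro a b ⟨c, hc⟩ ⟨d, hd⟩
    exact ⟨c + d, fun m => by rw [mul_smul, hd, hc, up_up]⟩
  inv_mem' := by
    rintro a ⟨c, hc⟩
    exact ⟨-c, fun m => by rw [inv_smul_eq_iff, hc, up_up, add_neg_cancel, up_zero]⟩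

variable (F) in
/-- the first coordinate axis -/
def WW : AddSubgroup (Fin 2 → F) where
  carrier := {m | m 1 = 0}
  zero_mem' := rfl
  add_mem' := fun {a b} (ha : a 1 = 0) (hb : b 1 = 0) => by
    change a 1 + b 1 = 0
    rw [ha, hb, add_zero]
  neg_mem' := fun {a} (ha : a 1 = 0) => by
    change -a 1 = 0
    rw [ha, neg_zero]

theorem mem_WW {m : Fin 2 → F} : m ∈ WW F ↔ m 1 = 0 := Iff.rfl

variable (F) in
/-- `L` acts as `SL₂(F)` -/
structure Nat2 (L : Subgroup G) : Prop where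
  act : ∀ l ∈ L, ∃ A : SL(2, F), ∀ m, l • m = A.1 *ᵥ m
  surj : ∀ A : SL(2, F), ∃ l ∈ L, ∀ m, l • m = A.1 *ᵥ m

variable {L : Subgroup G}

theorem Nat2.mat (h : Nat2 F L) (a b c d : F) (hd : a * d - b * c = 1) :
    ∃ l ∈ L, ∀ m : Fin 2 → F, l • m = ![a * m 0 + b * m 1, c * m 0 + d * m 1] := by
  obtain ⟨l, hl, H⟩ := h.surj ⟨!![a, b; c, d], by rw [det_fin_two_of, hd]⟩
  exact ⟨l, hl, fun m => (H m).trans (ext2 (by rw [mv0]; rfl) (by rw [mv1]; rfl))⟩

theorem Nat2.act' (h : Nat2 F L) {l : G} (hl : l ∈ L) : ∃ a b c d : F, a * d - b * c = 1 ∧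
    ∀ m : Fin 2 → F, l • m = ![a * m 0 + b * m 1, c * m 0 + d * m 1] := by
  obtain ⟨A, H⟩ := h.act l hl
  exact ⟨A.1 0 0, A.1 0 1, A.1 1 0, A.1 1 1, by rw [← det_fin_two, A.2],
    fun m => (H m).trans (ext2 (by rw [mv0]; rfl) (by rw [mv1]; rfl))⟩

theorem Nat2.exists_up (h : Nat2 F L) (c : F) : ∃ l ∈ L, ∀ m : Fin 2 → F, l • m = up c m := by
  obtain ⟨l, hl, H⟩ := h.mat 1 c 0 1 (by ring)
  exact ⟨l, hl, fun m => (H m).trans (ext2 (by simp) (by simp))⟩

theorem Nat2.mem_T_of_fix (h : Nat2 F L) {l : G} (hl : l ∈ L) {c : F} (hc : c ≠ 0)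
    (hf : l • (![c, 0] : Fin 2 → F) = ![c, 0]) : l ∈ TT G F := by
  obtain ⟨a, b, c', d, hd, H⟩ := h.act' hl
  rw [H] at hf
  have h0 := congrFun hf 0
  have h1 := congrFun hf 1
  simp only [cons_val_zero, cons_val_one, mul_zero, add_zero] at h0 h1
  have ha : a = 1 := mul_right_cancel₀ hc (by rw [h0, one_mul])
  have hc' : c' = 0 := (mul_eq_zero.1 h1).resolve_right hc
  rw [ha, hc', mul_zero, sub_zero, one_mul] at hd
  exact ⟨b, fun m => (H m).trans (ext2 (by simp [ha]) (by simp [hc', hd]))⟩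

theorem Nat2.trans (h : Nat2 F L) {v : Fin 2 → F} (hv : v ≠ 0) :
    ∃ l ∈ L, l • (![1, 0] : Fin 2 → F) = v := by
  by_cases h0 : v 0 = 0
  · have h1 : v 1 ≠ 0 := fun e => hv (ext2 h0 e)
    obtain ⟨l, hl, H⟩ := h.mat (v 0) (-(v 1)⁻¹) (v 1) 0 (by field_simp; ring)
    exact ⟨l, hl, (H _).trans (ext2 (by simp) (by simp))⟩
  · obtain ⟨l, hl, H⟩ := h.mat (v 0) 0 (v 1) (v 0)⁻¹ (by field_simp; ring)
    exact ⟨l, hl, (H _).trans (ext2 (by simp) (by simp))⟩

variable [FaithfulSMul G (Fin 2 → F)]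

theorem eq_of_smul {a b : G} (h : ∀ m : Fin 2 → F, a • m = b • m) : a = b :=
  FaithfulSMul.eq_of_smul_eq_smul h

theorem Nat2.T_le (h : Nat2 F L) : TT G F ≤ L := by
  rintro t ⟨c, hc⟩
  obtain ⟨l, hl, H⟩ := h.exists_up c
  rwa [eq_of_smul (F := F) fun m => (hc m).trans (H m).symm]

theorem Nat2.gen (h : Nat2 F L) {K : Subgroup G}
    (hK : ∀ l ∈ L, ∀ t ∈ TT G F, l * t * l⁻¹ ∈ K) : L ≤ K := by
  have key : ∀ A : SL(2, F), ∃ k ∈ K, ∀ m, k • m = A.1 *ᵥ m := by
    refine SL2.transvection_induction _ (fun i j hij c => ?_) ?_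
    · obtain ⟨w, hw, H⟩ := h.mat 0 (-1) 1 0 (by ring)
      have Hw : ∀ m : Fin 2 → F, w⁻¹ • m = ![m 1, -m 0] := fun m => by
        rw [inv_smul_eq_iff, H]
        exact ext2 (by simp) (by simp)
      fin_cases i <;> fin_cases j
      · exact absurd rfl hij
      · obtain ⟨t, -, ht⟩ := h.exists_up c
        refine ⟨t, by simpa using hK 1 (one_mem _) t ⟨c, ht⟩, fun m => (ht m).trans ?_⟩
        refine ext2 ?_ ?_
        · rw [mv0]; simp [SpecialLinearGroup.transvection_coe]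
        · rw [mv1]; simp [SpecialLinearGroup.transvection_coe]
      · obtain ⟨t, -, ht⟩ := h.exists_up (-c)
        refine ⟨_, hK w hw t ⟨-c, ht⟩, fun m => ?_⟩
        rw [mul_smul, mul_smul, Hw, ht, H]
        refine ext2 ?_ ?_
        · rw [mv0]; simp [SpecialLinearGroup.transvection_coe]
        · rw [mv1]; simp [SpecialLinearGroup.transvection_coe, add_comm]
      · exact absurd rfl hij
    · rintro A B ⟨a, ha, HA⟩ ⟨b, hb, HB⟩
      exact ⟨a * b, mul_mem ha hb, fun m => by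
        rw [mul_smul, HB, HA, mulVec_mulVec]
        rfl⟩
  intro l hl
  obtain ⟨A, HA⟩ := h.act l hl
  obtain ⟨k, hk, H⟩ := key A
  rwa [eq_of_smul (F := F) fun m => (HA m).trans (H m).symm]

theorem T_fix {t : G} (ht : t ∈ TT G F) (h1 : t ≠ 1) (m : Fin 2 → F) : t • m = m ↔ m ∈ WW F := by
  obtain ⟨c, hc⟩ := ht
  have hc0 : c ≠ 0 := fun e => h1 (eq_of_smul (F := F) fun m => by rw [hc, e, up_zero, one_smul])
  rw [hc, mem_WW]
  refine ⟨fun e => ?_, fun e => ext2 (by simp [e]) rfl⟩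
  simpa [hc0] using congrFun e 0

omit [FaithfulSMul G (Fin 2 → F)] in
theorem T_fix' {t : G} (ht : t ∈ TT G F) {m : Fin 2 → F} (hm : m ∈ WW F) : t • m = m := by
  obtain ⟨c, hc⟩ := ht
  rw [hc]
  exact ext2 (by simp [mem_WW.1 hm]) rfl

omit [FaithfulSMul G (Fin 2 → F)] in
theorem T_comm {t : G} (ht : t ∈ TT G F) (m : Fin 2 → F) : t • m - m ∈ WW F := by
  obtain ⟨c, hc⟩ := ht
  simp [hc, mem_WW]

theorem T_commute {s t : G} (hs : s ∈ TT G F) (ht : t ∈ TT G F) : s * t = t * s :=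
  commute_of_quad (W := WW F) (fun _ => T_fix' hs) (T_comm hs) (fun _ => T_fix' ht) (T_comm ht)

theorem T_pow (p : ℕ) [CharP F p] {t : G} (ht : t ∈ TT G F) : t ^ p = 1 := by
  obtain ⟨c, hc⟩ := ht
  have : ∀ n : ℕ, ∀ m, t ^ n • m = up (n * c) m := by
    intro n
    induction n with
    | zero => simp [up_zero]
    | succ n ih =>
      intro m
      rw [pow_succ, mul_smul, hc, ih, up_up]
      congr 1
      push_cast
      ring
  exact eq_of_smul (F := F) fun m => by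
    rw [this, CharP.cast_eq_zero, zero_mul, up_zero, one_smul]

theorem T_pgroup (p : ℕ) [CharP F p] : IsPGroup p (TT G F) :=
  isPGroup_iff.2 fun t ht => ⟨1, by rw [pow_one, T_pow p ht]⟩

omit [FaithfulSMul G (Fin 2 → F)] in
theorem Nat2.exists_ne (h : Nat2 F L) : ∃ t ∈ TT G F, t ≠ 1 := by
  obtain ⟨t, -, ht⟩ := h.exists_up 1
  refine ⟨t, ⟨1, ht⟩, fun e => ?_⟩
  have := congrFun (ht ![0, 1]) 0
  simp [e] at this

omit [FaithfulSMul G (Fin 2 → F)] in
theorem Nat2.card_le [Finite G] (h : Nat2 F L) : Nat.card F ≤ Nat.card (TT G F) := by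
  choose l _ hl using h.exists_up
  refine Nat.card_le_card_of_injective (fun c => (⟨l c, c, hl c⟩ : TT G F)) fun c d e => ?_
  have e1 : l c = l d := congrArg Subtype.val e
  have := congrFun ((hl c ![0, 1]).symm.trans (e1 ▸ hl d ![0, 1])) 0
  simpa using this

omit [DistribMulAction G (Fin 2 → F)] [FaithfulSMul G (Fin 2 → F)] in
theorem card_WW [Finite F] : Nat.card (WW F) ≤ Nat.card F :=
  Nat.card_le_card_of_injective (fun w => w.1 0) fun a b e =>
    Subtype.ext (ext2 e ((mem_WW.1 a.2).trans (mem_WW.1 b.2).symm))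

theorem stab_of_conj {g t : G} (ht : t ∈ TT G F) (h1 : t ≠ 1) (hg : g * t * g⁻¹ ∈ TT G F)
    (m : Fin 2 → F) : g • m ∈ WW F ↔ m ∈ WW F := by
  rw [← T_fix ht h1 m, ← T_fix hg (by simpa using h1) (g • m), mul_smul,
    mul_smul, inv_smul_smul, smul_left_cancel_iff]

theorem Nat2.normal_of_hyp [Finite G] [Finite F] {p : ℕ} [Fact p.Prime] (h : Nat2 F L)
    (H : Hyp p (TT G F) (WW F)) : L.Normal := by
  have he : (![1, 0] : Fin 2 → F) ≠ 0 := fun e => by simpa using congrFun e 0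
  have key : ∀ g : G, ∀ t ∈ TT G F, g * t * g⁻¹ ∈ L := by
    intro g t ht
    obtain ⟨l, hl, e⟩ := h.trans (v := g • ![1, 0]) fun e =>
      he (by simpa using congrArg (g⁻¹ • ·) e)
    have h1 := H.main (g := l⁻¹ * g) (u := ![1, 0]) rfl he (by
      rw [mul_smul, ← e, inv_smul_smul]
      rfl)
    have h2 := mul_mem (mul_mem hl (h.T_le (conj_mem_of_mem_normalizer h1 ht))) (inv_mem hl)
    simpa [mul_assoc] using h2
  refine ⟨fun n hn g => h.gen (K := L.comap (MulAut.conj g).toMonoidHom) (fun l _ t ht => ?_) hn⟩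
  simpa [mul_assoc] using key (g * l) t ht

section Syl
variable [Finite G] [Finite F] {p : ℕ} [hp : Fact p.Prime] [CharP F p] {S : Subgroup G}

theorem Nat2.exists_fixed (h : Nat2 F L) (hS : IsPGroup p S) (hT : TT G F ≤ S) :
    ∃ c : F, c ≠ 0 ∧ ∀ s ∈ S, s • (![c, 0] : Fin 2 → F) = ![c, 0] := by
  have : Fintype F := Fintype.ofFinite F
  obtain ⟨n, -, hn⟩ := FiniteField.card F p
  obtain ⟨b, hb, hb0⟩ := hS.exists_fixed_point_of_prime_dvd_card_of_fixed_point (Fin 2 → F)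
    (by
      rw [Nat.card_fun, Nat.card_eq_fintype_card, hn, Nat.card_eq_fintype_card, Fintype.card_fin]
      exact (dvd_pow_self p n.ne_zero).trans (dvd_pow_self _ two_ne_zero))
    (a := 0) (fun s => smul_zero _)
  obtain ⟨t, ht, ht1⟩ := h.exists_ne
  have h1 : b 1 = 0 := (T_fix ht ht1 b).1 (hb ⟨t, hT ht⟩)
  have h2 : b = ![b 0, 0] := ext2 rfl h1
  refine ⟨b 0, fun e => hb0 (ext2 e.symm h1.symm), fun s hs => ?_⟩
  rw [← h2]
  exact hb ⟨s, hs⟩

omit [Finite F] in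
theorem Nat2.mem_normalizer (h : Nat2 F L) {s : G} (hs : s ∈ normalizer (L : Set G)) {c : F}
    (hc : c ≠ 0) (hf : s • (![c, 0] : Fin 2 → F) = ![c, 0]) :
    s ∈ normalizer (TT G F : Set G) :=
  mem_normalizer_fintype fun t ht =>
    h.mem_T_of_fix (conj_mem_of_mem_normalizer hs (h.T_le ht)) hc (by
      rw [mul_smul, mul_smul, inv_smul_eq_iff.2 hf.symm, T_fix' ht rfl, hf])

omit [Finite F] in
theorem Nat2.mem_T_of_fixW (h : Nat2 F L) {s : G} (hs : s ∈ normalizer (L : Set G))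
    (hsp : ∃ k, s ^ p ^ k = 1) (hf : ∀ m ∈ WW F, s • m = m) : s ∈ TT G F := by
  have hN := h.mem_normalizer hs one_ne_zero (hf _ rfl)
  obtain ⟨t, -, ht⟩ := h.exists_up 1
  obtain ⟨c, hc⟩ := conj_mem_of_mem_normalizer hN (show t ∈ TT G F from ⟨1, ht⟩)
  have h1 : ∀ v : Fin 2 → F, c * (s • v) 1 = v 1 := by
    intro v
    have e1 := hf _ (T_comm (show t ∈ TT G F from ⟨1, ht⟩) v)
    have e2 := hc (s • v)
    rw [mul_smul, mul_smul, inv_smul_smul] at e2
    rw [smul_sub, e2, ht] at e1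
    simpa using congrFun e1 0
  have h2 : ∀ n : ℕ, ∀ v : Fin 2 → F, c ^ n * (s ^ n • v) 1 = v 1 := by
    intro n
    induction n with
    | zero => simp
    | succ n ih => intro v; rw [pow_succ, pow_succ' s, mul_smul, mul_assoc, h1, ih]
  obtain ⟨k, hk⟩ := hsp
  have h3 : c = 1 := by
    have := h2 (p ^ k) ![0, 1]
    rw [hk, one_smul] at this
    have e : (c - 1) ^ p ^ k = 0 := by
      rw [sub_pow_char_pow, one_pow]
      simpa [sub_eq_zero] using this
    exact sub_eq_zero.1 (pow_eq_zero_iff (pow_pos hp.out.pos k).ne' |>.1 e)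
  simp only [h3, one_mul] at h1
  obtain ⟨u, hu, hu'⟩ := h.exists_up (-(s • (![0, 1] : Fin 2 → F)) 0)
  have huT : u ∈ TT G F := ⟨_, hu'⟩
  have hs1 : ∀ m ∈ WW F, (u * s) • m = m := fun m hm => by
    rw [mul_smul, hf m hm, T_fix' huT hm]
  have hs2 : (u * s) • (![0, 1] : Fin 2 → F) = ![0, 1] := by
    rw [mul_smul, hu']
    exact ext2 (by simp [h1]) (by simp [h1])
  have hs3 : ∀ v : Fin 2 → F, ((u * s) • v) 1 = v 1 := fun v => by
    rw [mul_smul, hu', up_one', h1]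
  have hs4 : ∀ d : F, (u * s) • (![1, d] : Fin 2 → F) = ![1, d] := by
    intro d
    obtain ⟨l, hl, H⟩ := h.mat 1 0 d 1 (by ring)
    obtain ⟨a, b, c', d', hd, H'⟩ := h.act'
      (conj_mem_of_mem_normalizer (mul_mem (le_normalizer hu) hs) hl)
    have e1 := H' ![0, 1]
    have e2 := H' ![1, 0]
    rw [mul_smul, mul_smul, inv_smul_eq_iff.2 hs2.symm, H] at e1
    rw [mul_smul, mul_smul, inv_smul_eq_iff.2 (hs1 ![1, 0] rfl).symm, H] at e2
    simp only [cons_val_zero, cons_val_one, mul_zero, mul_one, add_zero, zero_add] at e1 e2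
    rw [hs2] at e1
    have hb : 0 = b := congrFun e1 0
    have hd' : 1 = d' := congrFun e1 1
    rw [← hb, ← hd', mul_one, zero_mul, sub_zero] at hd
    refine ext2 ?_ (hs3 _)
    rw [e2, hd]
    rfl
  have hs5 : u * s = 1 := eq_of_smul (F := F) fun m => by
    have e : m = ![m 0 - 1, 0] + ![1, m 1] := ext2 (by simp) (by simp)
    rw [one_smul, e, smul_add, hs1 _ rfl, hs4]
  rw [eq_inv_of_mul_eq_one_right hs5]
  exact inv_mem huT

omit [Finite F] in
theorem Nat2.exists_ringHom (h : Nat2 F L) {s : G} (hs : s ∈ normalizer (L : Set G)) {c : F}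
    (hc : c ≠ 0) (hf : s • (![c, 0] : Fin 2 → F) = ![c, 0]) :
    ∃ α : F →+* F, ∀ x, s • (![c * x, 0] : Fin 2 → F) = ![c * α x, 0] := by
  obtain ⟨t, ht, ht1⟩ := h.exists_ne
  have hW := stab_of_conj ht ht1 (conj_mem_of_mem_normalizer (h.mem_normalizer hs hc hf) ht)
  let a : F → F := fun x => c⁻¹ * (s • (![c * x, 0] : Fin 2 → F)) 0
  have ha : ∀ x, s • (![c * x, 0] : Fin 2 → F) = ![c * a x, 0] := fun x =>
    ext2 (by simp [a, hc]) ((hW _).2 rfl)
  have inj : ∀ x y : F, (![c * x, 0] : Fin 2 → F) = ![c * y, 0] → x = y := fun x y e =>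
    mul_left_cancel₀ hc (congrFun e 0)
  have h1 : a 1 = 1 := inj _ _ (by rw [← ha, mul_one, hf])
  have h0 : a 0 = 0 := inj _ _ (by
    have e : (![c * 0, 0] : Fin 2 → F) = 0 := ext2 (by simp) rfl
    rw [← ha, e, smul_zero])
  have hadd : ∀ x y, a (x + y) = a x + a y := fun x y => inj _ _ (by
    have e : ∀ x y : F, (![c * (x + y), 0] : Fin 2 → F) = ![c * x, 0] + ![c * y, 0] :=
      fun x y => ext2 (by simp [mul_add]) (by simp)
    rw [← ha, e, e, smul_add, ha, ha])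
  have hmul : ∀ x y, a (x * y) = a x * a y := by
    intro x y
    by_cases hx : x = 0
    · rw [hx, zero_mul, h0, zero_mul]
    obtain ⟨l, hl, H⟩ := h.mat x 0 0 x⁻¹ (by field_simp; ring)
    obtain ⟨a', b, c', d', -, H'⟩ := h.act' (conj_mem_of_mem_normalizer hs hl)
    have key : ∀ y, a (x * y) = a' * a y := fun y => by
      have e := H' (s • ![c * y, 0])
      rw [mul_smul, mul_smul, inv_smul_smul, H] at e
      have e1 : (![x * (![c * y, 0] : Fin 2 → F) 0 + 0 * (![c * y, 0] : Fin 2 → F) 1,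
          0 * (![c * y, 0] : Fin 2 → F) 0 + x⁻¹ * (![c * y, 0] : Fin 2 → F) 1] : Fin 2 → F) =
          ![c * (x * y), 0] := ext2 (by simp; ring) (by simp)
      rw [e1, ha, ha] at e
      have e2 := congrFun e 0
      simp only [cons_val_zero, cons_val_one, mul_zero, add_zero] at e2
      exact mul_left_cancel₀ hc (e2.trans (by ring))
    rw [key y, show a x = a' by rw [← mul_one x, key, h1, mul_one]]
  exact ⟨{ toFun := a, map_one' := h1, map_mul' := hmul, map_zero' := h0, map_add' := hadd }, ha⟩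

omit [Finite G] [Finite F] [FaithfulSMul G (Fin 2 → F)] hp [CharP F p] in
theorem fixW_of {s : G} {c : F} (hc : c ≠ 0) {α : F → F}
    (hα : ∀ x, s • (![c * x, 0] : Fin 2 → F) = ![c * α x, 0]) (h : ∀ x, α x = x) :
    ∀ m ∈ WW F, s • m = m := fun m hm => by
  have e : m = ![c * (c⁻¹ * m 0), 0] := ext2 (by simp [hc]) hm
  rw [e, hα, h]

omit [Finite F] in
theorem exists_two [CharP F 2] {f : G} (hf : f ∈ normalizer (TT G F : Set G)) (hf2 : f * f = 1)
    (h5 : 5 ≤ Nat.card (TT G F)) : ∃ a ∈ TT G F, ∃ b ∈ TT G F, a ≠ 1 ∧ b ≠ 1 ∧ a ≠ b ∧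
      f * a = a * f ∧ f * b = b * f := by
  have sq : ∀ t ∈ TT G F, t * t = 1 := fun t ht => by rw [← pow_two, T_pow 2 ht]
  have hfi : f⁻¹ = f := inv_eq_of_mul_eq_one_right hf2
  let γ : TT G F →* TT G F :=
    { toFun := fun t => ⟨t * (f * t * f⁻¹), mul_mem t.2 (conj_mem_of_mem_normalizer hf t.2)⟩
      map_one' := Subtype.ext (by simp)
      map_mul' := fun s t => Subtype.ext (by
        have e := T_commute t.2 (conj_mem_of_mem_normalizer hf s.2)
        change (s : G) * t * (f * (s * t) * f⁻¹) = s * (f * s * f⁻¹) * (t * (f * t * f⁻¹))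
        calc (s : G) * t * (f * (s * t) * f⁻¹) = s * (t * (f * s * f⁻¹)) * (f * t * f⁻¹) := by
              group
          _ = _ := by rw [e]; group) }
  have hγ : ∀ t : TT G F, (γ t : G) = t * (f * t * f⁻¹) := fun _ => rfl
  have hk : ∀ t ∈ γ.ker, f * (t : G) = t * f := fun t ht => by
    have e : (t : G) * (f * t * f⁻¹) = 1 := congrArg Subtype.val (show γ t = 1 from ht)
    have e2 : f * t * f⁻¹ = t := mul_left_cancel (e.trans (sq t t.2).symm)
    rw [← e2, inv_mul_cancel_right, e2]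
  have hr : γ.range ≤ γ.ker := by
    rintro _ ⟨t, rfl⟩
    refine Subtype.ext ?_
    have e : f * (t * (f * t * f⁻¹)) * f⁻¹ = (t : G) * (f * t * f⁻¹) := by
      rw [T_commute t.2 (conj_mem_of_mem_normalizer hf t.2)]
      calc f * (f * t * f⁻¹ * t) * f⁻¹ = (f * f) * t * (f⁻¹ * t * f⁻¹) := by group
        _ = t * (f * t * f⁻¹) := by rw [hf2, one_mul, hfi]
        _ = _ := T_commute t.2 (conj_mem_of_mem_normalizer hf t.2)
    change (γ (γ t) : G) = 1
    rw [hγ, hγ, e]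
    exact sq _ (γ t).2
  have hc : 2 < Nat.card γ.ker := by
    have e1 := γ.ker.card_mul_index
    rw [index_ker] at e1
    have e2 := card_le_of_le hr
    by_contra e
    nlinarith
  have := Fintype.ofFinite γ.ker
  rw [Nat.card_eq_fintype_card, Fintype.two_lt_card_iff] at hc
  obtain ⟨a, b, c, hab, hac, hbc⟩ := hc
  have fin : ∀ a b : γ.ker, a ≠ 1 → b ≠ 1 → a ≠ b → ∃ a ∈ TT G F, ∃ b ∈ TT G F, a ≠ 1 ∧ b ≠ 1 ∧
      a ≠ b ∧ f * a = a * f ∧ f * b = b * f := fun a b ha hb hab =>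
    ⟨a.1, a.1.2, b.1, b.1.2, fun e => ha (Subtype.ext (Subtype.ext e)),
      fun e => hb (Subtype.ext (Subtype.ext e)), fun e => hab (Subtype.ext (Subtype.ext e)),
      hk _ a.2, hk _ b.2⟩
  by_cases ha : a = 1
  · exact fin b c (ha ▸ hab.symm) (ha ▸ hac.symm) hbc
  by_cases hb : b = 1
  · exact fin a c ha (hb ▸ hbc.symm) hac
  exact fin a b ha hb hab

omit [FaithfulSMul G (Fin 2 → F)] [DistribMulAction G (Fin 2 → F)] in
theorem four_le {α : F →+* F} (h : ¬ ∀ x, α x = x) : 4 ≤ Nat.card F := by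
  classical
  obtain ⟨x, hx⟩ := not_forall.1 h
  have := Fintype.ofFinite F
  have h0 : x ≠ 0 := fun e => hx (by rw [e, map_zero])
  have h1 : x ≠ 1 := fun e => hx (by rw [e, map_one])
  have h2 : α x ≠ 0 := (map_ne_zero α).2 h0
  have h3 : α x ≠ 1 := fun e => h1 (α.injective (by rw [e, map_one]))
  have : ({0, 1, x, α x} : Finset F).card = 4 := by
    rw [Finset.card_insert_of_notMem (by simp [h0.symm, h2.symm]),
      Finset.card_insert_of_notMem (by simp [h1.symm, h3.symm]), Finset.card_pair (Ne.symm hx)]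
  rw [← this, Nat.card_eq_fintype_card]
  exact Finset.card_le_univ _

theorem Nat2.sc (h : Nat2 F L) (hS : IsSyl p S ⊤) (hT : TT G F ≤ S)
    (hL : S ≤ normalizer (L : Set G)) (h4 : Nat.card F ≠ 4) {g t : G} (ht : t ∈ TT G F)
    (hg : g * t * g⁻¹ ∈ S) : g * t * g⁻¹ ∈ TT G F := by
  obtain ⟨c, hc, hfix⟩ := h.exists_fixed hS.pgrp hT
  have K1 : ∀ s ∈ S, (∀ m ∈ WW F, s • m = m) → s ∈ TT G F := fun s hs hf =>
    h.mem_T_of_fixW (hL hs) (isPGroup_iff.1 hS.pgrp s hs) hf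
  have inj : ∀ x y : F, (![c * x, 0] : Fin 2 → F) = ![c * y, 0] → x = y := fun x y e =>
    mul_left_cancel₀ hc (congrFun e 0)
  by_contra hfT
  have ht1 : t ≠ 1 := fun e => hfT (by simpa [e] using one_mem (TT G F))
  obtain ⟨α, hα⟩ := h.exists_ringHom (hL hg) hc (hfix _ hg)
  have hα1 : ¬ ∀ x, α x = x := fun e => hfT (K1 _ hg (fixW_of hc hα e))
  have hq : ∀ x, α (α x - x) = α x - x := fun x => inj _ _ (by
    have e : (![c * (α x - x), 0] : Fin 2 → F) = (g * t * g⁻¹) • ![c * x, 0] - ![c * x, 0] := by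
      rw [hα]
      exact ext2 (by simp [mul_sub]) (by simp)
    have e1 := T_fix' ht (T_comm ht (g⁻¹ • ![c * x, 0]))
    rw [← hα, e, mul_smul, mul_smul, smul_sub, mul_smul, mul_smul, inv_smul_smul, e1, smul_sub,
      smul_inv_smul])
  have h2 : (2 : F) = 0 := by
    obtain ⟨x, hx⟩ := not_forall.1 hα1
    have e1 := hq x
    have e2 := hq (x * x)
    rw [map_sub] at e1
    rw [map_sub, map_mul, map_mul, sub_eq_iff_eq_add.1 e1] at e2
    have e3 : 2 * (α x - x) ^ 2 = 0 := by linear_combination e2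
    exact (mul_eq_zero.1 e3).resolve_right (pow_ne_zero _ (sub_ne_zero.2 hx))
  obtain rfl : p = 2 := (Nat.prime_dvd_prime_iff_eq hp.out Nat.prime_two).1
    ((CharP.cast_eq_zero_iff F p 2).1 (by exact_mod_cast h2))
  have hSN : S ≤ normalizer (TT G F : Set G) := fun s hs => h.mem_normalizer (hL hs) hc (hfix s hs)
  obtain ⟨⟨z, hzT, hzC⟩, hz0⟩ := ne_bot_iff_exists_ne_one.1 (inf_centralizer_ne_bot hS.pgrp
    (T_pgroup 2) hSN (ne_bot_iff_exists_ne_one.2 ⟨⟨t, ht⟩, fun e => ht1 (congrArg Subtype.val e)⟩))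
  have hz1 : z ≠ 1 := fun e => hz0 (Subtype.ext e)
  replace hzT : z ∈ TT G F := hzT
  obtain ⟨l, hl⟩ : ∃ l : G, l * z * l⁻¹ = t := by
    obtain ⟨d, hd⟩ := id hzT
    obtain ⟨e, he⟩ := id ht
    have hd0 : d ≠ 0 := fun e => hz1 (eq_of_smul (F := F) fun m => by
      rw [hd, e, up_zero, one_smul])
    have he0 : e ≠ 0 := fun e' => ht1 (eq_of_smul (F := F) fun m => by
      rw [he, e', up_zero, one_smul])
    have := Fintype.ofFinite F
    obtain ⟨r, hr⟩ := FiniteField.isSquare_of_char_two (ringChar.eq F 2) (e / d)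
    have hr0 : r ≠ 0 := fun e' => div_ne_zero he0 hd0 (by rw [hr, e', mul_zero])
    obtain ⟨l, -, H⟩ := h.mat r 0 0 r⁻¹ (by field_simp; ring)
    refine ⟨l, mul_inv_eq_iff_eq_mul.2 (eq_of_smul (F := F) fun m => ?_)⟩
    rw [mul_smul, mul_smul, hd, H, he, H]
    refine ext2 ?_ (by simp)
    have : e = r * r * d := by rw [← hr]; field_simp
    simp only [this, cons_val_zero, up_zero', up_one', cons_val_one]
    field_simp
    ring
  set f := g * t * g⁻¹ with hf
  have hf' : f = (g * l) * z * (g * l)⁻¹ := by rw [hf, ← hl]; group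
  have sq : ∀ t ∈ TT G F, t * t = 1 := fun t ht => by rw [← pow_two, T_pow 2 ht]
  have hf2 : f * f = 1 := by
    rw [hf]
    calc g * t * g⁻¹ * (g * t * g⁻¹) = g * (t * t) * g⁻¹ := by group
      _ = 1 := by rw [sq t ht]; group
  obtain ⟨a, ha, b, hb, ha1, hb1, hab, hfa, hfb⟩ := exists_two (hSN hg) hf2
    (le_trans (by have := four_le hα1; omega) h.card_le)
  have hC : IsSyl 2 cj(g * l, S) (centralizer {f}) := by
    refine (hS.cj_of_mem (mem_top (g * l))).mono ?_ le_top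
    rw [hf', centralizer_singleton_conj]
    exact cj_mono _ fun s hs => mem_centralizer_singleton_iff.2 (hzC s hs)
  obtain ⟨n, hn, hE⟩ := hC.exists_cj_le
    ((T_pgroup (G := G) (F := F) 2).to_inf_left (K := centralizer {f})) inf_le_right
  rw [cj_le_iff_forall] at hE
  set y := (g * l)⁻¹ * n with hy
  have hyS : ∀ e ∈ TT G F, f * e = e * f → y * e * y⁻¹ ∈ S := fun e he hfe => by
    have := mem_cj.1 (hE e ⟨he, mem_centralizer_singleton_iff.2 hfe.symm⟩)
    rwa [show (g * l)⁻¹ * (n * e * n⁻¹) * (g * l) = y * e * y⁻¹ by rw [hy]; group] at this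
  have hyf : f = y⁻¹ * z * y := by
    have e1 : n * f = f * n := mem_centralizer_singleton_iff.1 hn
    calc f = n⁻¹ * (f * n) := by rw [← e1]; group
      _ = _ := by rw [hy]; nth_rewrite 1 [hf']; group
  have key : ∀ e ∈ TT G F, e ≠ 1 → f * e = e * f → ¬ ∀ m ∈ WW F, (y * e * y⁻¹) • m = m := by
    intro e he he1 hfe hm
    have hW := stab_of_conj he he1 (K1 _ (hyS e he hfe) hm)
    refine hfT (K1 _ hg fun m hm => ?_)
    rw [hyf, mul_smul, mul_smul, T_fix' hzT ((hW m).2 hm), inv_smul_smul]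
  have key2 : ∀ e ∈ TT G F, e ≠ 1 → f * e = e * f → ∃ β : F →+* F, (∀ x, β (β x) = x) ∧
      (¬ ∀ x, β x = x) ∧ ∀ x, (y * e * y⁻¹) • (![c * x, 0] : Fin 2 → F) = ![c * β x, 0] := by
    intro e he he1 hfe
    obtain ⟨β, hβ⟩ := h.exists_ringHom (hL (hyS e he hfe)) hc (hfix _ (hyS e he hfe))
    refine ⟨β, fun x => inj _ _ ?_, fun e' => key e he he1 hfe (fixW_of hc hβ e'), hβ⟩
    rw [← hβ, ← hβ, ← mul_smul,
      show y * e * y⁻¹ * (y * e * y⁻¹) = y * (e * e) * y⁻¹ by group, sq e he]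
    simp
  obtain ⟨β, hβ1, hβ2, hβ⟩ := key2 a ha ha1 hfa
  obtain ⟨γ, hγ1, hγ2, hγ⟩ := key2 b hb hb1 hfb
  refine key (a * b) (mul_mem ha hb) (fun e => hab (mul_right_cancel (e.trans (sq b hb).symm)))
    (by rw [← mul_assoc, hfa, mul_assoc, hfb, mul_assoc])
    (fixW_of hc (α := fun x => x) (fun x => ?_) fun _ => rfl)
  rw [show y * (a * b) * y⁻¹ = y * a * y⁻¹ * (y * b * y⁻¹) by group, mul_smul, hγ, hβ,
    ringHom_eq_of_invol 2 hβ1 hγ1 hβ2 hγ2, hγ1]

/-- the main theorem for `q ≠ 4` -/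
theorem Nat2.normal (h : Nat2 F L) (hS : IsSyl p S ⊤) (hT : TT G F ≤ S)
    (hL : S ≤ normalizer (L : Set G)) (h4 : Nat.card F ≠ 4) : L.Normal := by
  obtain ⟨c, hc, hfix⟩ := h.exists_fixed hS.pgrp hT
  have hSN : S ≤ normalizer (TT G F : Set G) := fun s hs => h.mem_normalizer (hL hs) hc (hfix s hs)
  obtain ⟨t, ht, ht1⟩ := h.exists_ne
  refine h.normal_of_hyp (p := p) ⟨fun m => ?_, ne_bot_iff_exists_ne_one.2
    ⟨⟨t, ht⟩, fun e => ht1 (congrArg Subtype.val e)⟩, fun _ => T_fix, fun _ => T_comm,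
    card_WW.trans h.card_le, fun g t ht hg => ?_⟩
  · ext i
    simp
  · obtain ⟨n, hn, hE⟩ := (hS.mono hSN le_top).exists_cj_le
      (isPGroup_zpowers (x := g * t * g⁻¹) ⟨1, by rw [pow_one, conj_pow, T_pow p ht]; group⟩)
      (zpowers_le.2 hg)
    have h1 := cj_le_iff_forall.1 hE _ (mem_zpowers _)
    rw [show n * (g * t * g⁻¹) * n⁻¹ = (n * g) * t * (n * g)⁻¹ by group] at h1
    have h2 := inv_conj_mem_of_mem_normalizer hn (h.sc hS hT hL h4 ht h1)
    rwa [show n⁻¹ * (n * g * t * (n * g)⁻¹) * n = g * t * g⁻¹ by group] at h2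

end Syl

end Cfsg.Agent.PLocal.NatSyl
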