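import Mathlib
import Cfsg.Prelude.Def_LocalEven
import Cfsg.Agent.PLocal.PStable
import Cfsg.Agent.PLocal.AmbSyl
import Cfsg.Agent.Grp.Cores
import Cfsg.Agent.Transfer.PCompl
import Cfsg.Agent.Solv.CoprimeSylow

/-! `p`-stability in the normalizer form (`IsNormalizerPStable`) from transvection-freeness; groups with a
maximal Sylow `p`-subgroup which are `p`-nilpotent modulo `O_p` have abelian Sylow `q`-subgroups. -/

set_option autoImplicit false
open Cfsg

namespace Cfsg.Agent.PLocal.NormPStable

open Subgroup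
open scoped commutatorElement
open Cfsg.Agent.PLocal.Amb

variable {G : Type*} [Group G] [Finite G] {p : ℕ} [hp : Fact p.Prime]

theorem of_transvFree (h : TransvFree p G) : IsNormalizerPStable p G := fun P hP g hg hq =>
  h.map_le_pCore_normalizer (zpowers g) P hP hq
    ⟨⟨g, hg⟩, mem_zpowers g, rfl⟩

/-- It suffices that normalizers of nontrivial `p`-subgroups be transvection-free. -/
theorem of_transvFree_normalizer (h : ∀ P : Subgroup G, IsPGroup p P → P ≠ ⊥ → TransvFree p ↥𝐍[P]) :
    IsNormalizerPStable p G := by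
  intro P hP g hg hq
  rcases eq_or_ne P ⊥ with rfl | hne
  · have : (QuotientGroup.mk (s := (𝐂[(⊥ : Subgroup G)]).subgroupOf 𝐍[(⊥ : Subgroup G)])
        (⟨g, hg⟩ : ↥𝐍[(⊥ : Subgroup G)])) = 1 := by
      rw [QuotientGroup.eq_one_iff, mem_subgroupOf]
      intro x hx
      rw [SetLike.mem_coe, mem_bot] at hx
      simp [hx]
    rw [this]
    exact one_mem _
  have : (P.subgroupOf 𝐍[P]).Normal := normal_subgroupOf' le_rfl
  refine (h P hP hne).mem_pCore_of_isPGroup (P.subgroupOf 𝐍[P]) (isPGroup_subgroupOf hP _) _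
    (centralizer_subgroupOf le_normalizer).le ⟨g, hg⟩ ?_
  apply map_injective (𝐍[P]).subtype_injective
  rw [map_commutator, map_commutator, map_subgroupOf_of_le le_normalizer, MonoidHom.map_zpowers,
    Subgroup.map_bot]
  exact hq

theorem sylow_comm_of_coatom (h : HasNormalPComplement p G) {T : Subgroup G} (hT : IsPGroup p T)
    (hc : IsCoatom T) {q : ℕ} [hq : Fact q.Prime] (hqp : q ≠ p) (Q : Sylow q G) :
    IsMulCommutative Q := by
  set K := pResidual p G with hK
  have hKc : (Nat.card K).Coprime p := Transfer.hasNormalPComplement_iff_coprime.1 h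
  have hTK : (Nat.card T).Coprime (Nat.card K) := by
    obtain ⟨n, hn⟩ := hT.exists_card_eq
    rw [hn]
    exact (Nat.Coprime.pow_right n hKc).symm
  have := hT.isNilpotent
  obtain ⟨P, hP⟩ := Solv.exists_invariant_sylow T K le_normalizer_of_normal hTK
    (Or.inl inferInstance) q
  set R : Subgroup G := (P : Subgroup K).map K.subtype with hR
  have hRs : IsSyl q R K := isSyl_map_subtype P
  have hQK : (Q : Subgroup G) ≤ K := fun x hx =>
    Transfer.mem_pResidual_of_coprime (Transfer.coprime_orderOf_of_mem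
      (Grp.coprime_card_of_isPGroup_of_ne hqp Q.isPGroup') hx)
  have hRc : ⁅R, R⁆ = ⊥ := by
    have h1 : T ≤ 𝐍[⁅R, R⁆] := le_normalizer_commutator hP hP
    have h2 : ⁅R, R⁆ ≤ R := Solv.commutator_le_of_le_normalizer le_normalizer
    have h3 : T ⊓ K = ⊥ := Grp.inf_eq_bot_of_isPGroup_of_coprime hT hKc
    rcases (le_sup_left : T ≤ T ⊔ ⁅R, R⁆).eq_or_lt with h4 | h4
    · exact le_bot_iff.1 (h3 ▸ le_inf (h4 ▸ le_sup_right) (h2.trans hRs.le))
    · have h5 : R ≤ ⁅R, R⁆ := fun x hx =>
        Solv.mem_of_mem_sup_of_coprime hTK (h2.trans hRs.le) h1 (hRs.le hx)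
          (hc.2 _ h4 ▸ mem_top x)
      by_contra hne
      have hnt : R ≠ ⊥ := fun h0 => hne (by rw [h0, commutator_bot_left])
      have := hRs.pgrp.isNilpotent
      have := (R.nontrivial_iff_ne_bot).2 hnt
      have h6 := Group.IsSolvable.commutator_lt_top_of_nontrivial R
      apply h6.ne
      apply map_injective R.subtype_injective
      rw [_root_.commutator_def, map_commutator, ← MonoidHom.range_eq_map, subtype_range]
      exact le_antisymm h2 h5
  obtain ⟨g, -, hg⟩ := hRs.exists_le_cj Q.isPGroup' hQK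
  rw [← le_centralizer_iff_isMulCommutative, ← commutator_eq_bot_iff_le_centralizer, eq_bot_iff]
  refine (commutator_mono hg hg).trans ?_
  rw [commutator_cj, hRc, cj_bot]

theorem sylow_comm_of_ker {H : Type*} [Group H] [Finite H] (f : G →* H) (hf : IsPGroup p f.ker)
    {q : ℕ} [hq : Fact q.Prime] (hqp : q ≠ p) (R : Sylow q H) (hR : IsMulCommutative R)
    (Q : Sylow q G) : IsMulCommutative Q := by
  have h1 := isMulCommutative_of_isPGroup_of_sylow R hR (Q.isPGroup'.map f)
  rw [← le_centralizer_iff_isMulCommutative, ← commutator_eq_bot_iff_le_centralizer] at h1 ⊢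
  rw [← map_commutator, Subgroup.map_eq_bot_iff] at h1
  have h2 := Grp.inf_eq_bot_of_isPGroup_of_coprime hf
    (Grp.coprime_card_of_isPGroup_of_ne hqp Q.isPGroup')
  exact le_bot_iff.1 (h2 ▸ le_inf h1 (Solv.commutator_le_of_le_normalizer le_normalizer))

/-- If `G/O_p(G)` is `p`-nilpotent and a Sylow `p`-subgroup is maximal then Sylow `q`-subgroups are abelian. -/
theorem sylow_comm_of_coatom' (h : HasNormalPComplement p (G ⧸ pCore p G)) (T : Sylow p G)
    (hc : IsCoatom (T : Subgroup G)) {q : ℕ} [hq : Fact q.Prime] (hqp : q ≠ p) (Q : Sylow q G) :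
    IsMulCommutative Q := by
  set f := QuotientGroup.mk' (pCore p G)
  have hsurj : Function.Surjective f := QuotientGroup.mk'_surjective _
  have hker : f.ker = pCore p G := QuotientGroup.ker_mk' _
  have hle : f.ker ≤ T := hker.le.trans (Grp.pCore_le_sylow T)
  have hc' : IsCoatom ((T : Subgroup G).map f) := by
    refine ⟨fun h1 => hc.1 ?_, fun K hK => ?_⟩
    · rw [← comap_map_eq_self hle, h1, comap_top]
    · have h2 : (T : Subgroup G) < K.comap f := by
        refine lt_of_le_of_ne (map_le_iff_le_comap.1 hK.le) fun h3 => hK.ne ?_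
        rw [h3, map_comap_eq_self_of_surjective hsurj]
      rw [← map_comap_eq_self_of_surjective hsurj K, hc.2 _ h2, ← MonoidHom.range_eq_map,
        MonoidHom.range_eq_top.2 hsurj]
  obtain ⟨R⟩ : Nonempty (Sylow q (G ⧸ pCore p G)) := inferInstance
  exact sylow_comm_of_ker f ((Grp.pCore_isPGroup p G).to_le hker.le) hqp R
    (sylow_comm_of_coatom h (T.isPGroup'.map f) hc' hqp R) Q

end Cfsg.Agent.PLocal.NormPStable
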