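import Mathlib

/-! A combinatorial lemma on automorphisms of odd order permuting "root subgroups". -/

set_option autoImplicit false

namespace Cfsg.Agent.PLocal.OddAut

open Subgroup
open scoped commutatorElement

local notation:max "𝐂[" Q "]" => Subgroup.centralizer (SetLike.coe (Q : Subgroup _))

variable {P : Type*} [Group P]

theorem cover [Finite P] {H Y B : Subgroup P} (h : Y ≤ B) (k : H.relIndex B ≤ H.relIndex Y)
    {b : P} (hb : b ∈ B) : ∃ y ∈ Y, y⁻¹ * b ∈ H := by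
  have hs := (quotientSubgroupOfEmbeddingOfLE H h).injective.bijective_of_nat_card_le k
  obtain ⟨y, hy⟩ := hs.2 (QuotientGroup.mk ⟨b, hb⟩)
  obtain ⟨y, rfl⟩ := QuotientGroup.mk_surjective y
  rw [quotientSubgroupOfEmbeddingOfLE_apply_mk, QuotientGroup.eq] at hy
  exact ⟨y, y.2, hy⟩

/-- A root datum in `B`. -/
structure RD (B X D : Subgroup P) (q : ℕ) : Prop where
  le : X ≤ B
  sq : ∀ x ∈ X, x * x = 1
  i1 : (𝐂[X]).relIndex B ≤ q
  i2 : q ≤ (𝐂[B]).relIndex X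
  ti : ∀ x ∈ X, ∀ b ∈ B, ⁅b, x⁆ ∈ D → x ∈ 𝐂[B] ∨ b ∈ 𝐂[X]
  sqD : ∀ k ∈ B, k ∈ 𝐂[X] → k * k ∈ D

theorem cent_comap {Q : Type*} [Group Q] {f : Q →* P} (hf : Function.Injective f)
    {X : Subgroup P} (h : X ≤ f.range) : 𝐂[X.comap f] = (𝐂[X]).comap f := by
  ext g
  rw [mem_comap, mem_centralizer_iff, mem_centralizer_iff]
  refine ⟨fun k x hx => ?_, fun k x hx => hf (by rw [map_mul, map_mul]; exact k _ hx)⟩
  obtain ⟨y, rfl⟩ := h hx
  rw [← map_mul, ← map_mul, k y hx]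

namespace RD

variable {B X Y Y' D D' D'' : Subgroup P} {q : ℕ}

theorem comap {Q : Type*} [Group Q] {f : Q →* P} (hf : Function.Injective f) (h : RD B X D q)
    (hB : B ≤ f.range) : RD (B.comap f) (X.comap f) (D.comap f) q := by
  have hX := h.le.trans hB
  refine ⟨comap_mono h.le, fun x hx => hf (by rw [map_mul, map_one]; exact h.sq _ hx), ?_, ?_,
    fun x hx b hb k => ?_, fun k hk k' => ?_⟩
  · rw [cent_comap hf hX, relIndex_comap, map_comap_eq_self hB]; exact h.i1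
  · rw [cent_comap hf hB, relIndex_comap, map_comap_eq_self hX]; exact h.i2
  · rw [cent_comap hf hX, cent_comap hf hB]
    exact h.ti _ hx _ hb (by rw [← map_commutatorElement]; exact k)
  · rw [cent_comap hf hX] at k'
    rw [mem_comap, map_mul]; exact h.sqD _ hk k'

theorem inv_eq (h : RD B X D q) {x : P} (hx : x ∈ X) : x⁻¹ = x :=
  inv_eq_of_mul_eq_one_right (h.sq x hx)

theorem abel (h : RD B X D q) : X ≤ 𝐂[X] := fun x hx y hy => by
  rw [← h.inv_eq (X.mul_mem hy hx), mul_inv_rev, h.inv_eq hx, h.inv_eq hy]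

theorem commD (h : RD B X D q) {a b : P} (ha : a ∈ B) (ha' : a ∈ 𝐂[X]) (hb : b ∈ B)
    (hb' : b ∈ 𝐂[X]) : ⁅a, b⁆ ∈ D := by
  have e : ⁅a, b⁆ = a * a * (a⁻¹ * b * (a⁻¹ * b)) * (b⁻¹ * b⁻¹) := by
    rw [commutatorElement_def]; group
  rw [e]
  exact D.mul_mem (D.mul_mem (h.sqD _ ha ha') (h.sqD _ (B.mul_mem (B.inv_mem ha) hb)
    (mul_mem (inv_mem ha') hb'))) (h.sqD _ (B.inv_mem hb) (inv_mem hb'))

theorem cent_B (h : RD B X D q) (h' : RD B Y D' q) (n : ¬ Y ≤ 𝐂[X]) {y : P} (hy : y ∈ Y)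
    (k : y ∈ 𝐂[X]) : y ∈ 𝐂[B] := by
  rw [le_centralizer_iff] at n
  obtain ⟨x, hx, hx'⟩ := SetLike.not_le_iff_exists.1 n
  refine (h'.ti y hy x (h.le hx) ?_).resolve_right hx'
  rw [commutatorElement_eq_one_iff_mul_comm.2 (k x hx)]; exact D'.one_mem

theorem fac [Finite P] (h : RD B X D q) (h' : RD B Y D' q) (n : ¬ Y ≤ 𝐂[X]) {b : P}
    (hb : b ∈ B) : ∃ y ∈ Y, y⁻¹ * b ∈ 𝐂[X] := by
  refine cover h'.le (h.i1.trans (h'.i2.trans (le_of_eq ?_))) hb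
  rw [← inf_relIndex_right 𝐂[B], ← inf_relIndex_right 𝐂[X]]
  congr 1
  exact le_antisymm (inf_le_inf_right _ (centralizer_le h.le))
    fun y hy => ⟨h.cent_B h' n hy.2 hy.1, hy.2⟩

theorem fac₂ [Finite P] (h : RD B X D q) (h' : RD B Y D' q) (n : ¬ Y ≤ 𝐂[X]) {b : P}
    (hb : b ∈ B) : ∃ y ∈ Y, ∃ x ∈ X, ∃ c ∈ B, c ∈ 𝐂[X] ∧ c ∈ 𝐂[Y] ∧ b = y * x * c := by
  obtain ⟨y, hy, k⟩ := h.fac h' n hb
  have hk := B.mul_mem (B.inv_mem (h'.le hy)) hb
  obtain ⟨x, hx, k'⟩ := h'.fac h (by rwa [le_centralizer_iff]) hk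
  exact ⟨y, hy, x, hx, _, B.mul_mem (B.inv_mem (h.le hx)) hk, mul_mem (inv_mem (h.abel hx)) k, k',
    by group⟩

/-- The partner of a root datum is unique. -/
theorem partner [Finite P] (h : RD B X D q) (h' : RD B Y D' q) (h'' : RD B Y' D'' q)
    (n : ¬ Y ≤ 𝐂[X]) (n' : ¬ Y' ≤ 𝐂[X]) : B ⊓ 𝐂[Y] ≤ 𝐂[Y'] := by
  intro g hg y' hy'
  by_cases k0 : y' ∈ 𝐂[B]
  · exact (k0 g hg.1).symm
  have k1 : y' ∉ 𝐂[X] := fun k => k0 (h.cent_B h'' n' hy' k)
  obtain ⟨y, hy, x, hx, c, hc, c1, c2, e⟩ := h.fac₂ h' n (h''.le hy')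
  have k2 : y ∉ 𝐂[X] := fun k => k1 (e ▸ mul_mem (mul_mem k (h.abel hx)) c1)
  have k3 : x ∈ 𝐂[B] := by
    refine (h.ti x hx y (h'.le hy) ?_).resolve_right k2
    have e1 := h''.sq _ hy'
    have e2 : ⁅y, x⁆ = (c * c)⁻¹ := by
      rw [commutatorElement_def, h.inv_eq hx, h'.inv_eq hy, eq_inv_iff_mul_eq_one, ← e1, e]
      have a1 : c * y = y * c := (c2 y hy).symm
      have a2 : c * x = x * c := (c1 x hx).symm
      calc y * x * y * x * (c * c) = y * x * (y * (x * c)) * c := by group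
        _ = y * x * c * (y * x * c) := by rw [← a2, ← mul_assoc y c, ← a1]; group
    rw [e2]; exact D.inv_mem (h.sqD c hc c1)
  have d0 : x * c ∈ B := B.mul_mem (h.le hx) hc
  have d1 : x * c ∈ 𝐂[X] := mul_mem (h.abel hx) c1
  have d2 : x * c ∈ 𝐂[Y] := mul_mem (centralizer_le h'.le k3) c2
  rw [mul_assoc] at e
  generalize x * c = d at e d0 d1 d2
  have k4 : d ∈ 𝐂[B] := by
    intro b hb
    obtain ⟨y₁, hy₁, x₁, hx₁, t, ht, t1, t2, rfl⟩ := h.fac₂ h' n hb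
    suffices hs : t * d = d * t by
      rw [mul_assoc, hs, ← mul_assoc, mul_assoc y₁, d1 x₁ hx₁, ← mul_assoc, d2 y₁ hy₁]; group
    obtain ⟨x₀, hx₀, k⟩ := h''.fac h (by rwa [le_centralizer_iff]) ht
    have a1 : y' * (x₀⁻¹ * t) = x₀⁻¹ * t * y' := k y' hy'
    have a2 : y * t = t * y := t2 y hy
    have a3 : y * d = d * y := d2 y hy
    have a4 : x₀ * d = d * x₀ := d1 x₀ hx₀
    have e1 : ⁅y', t⁆ = ⁅d, t⁆ := by
      rw [e, commutatorElement_def, commutatorElement_def, a3, mul_assoc d y t, a2]; group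
    have e2 : ⁅y', t⁆ = ⁅y, x₀⁆ := by
      have : t = x₀ * (x₀⁻¹ * t) := by group
      generalize x₀⁻¹ * t = s at a1 this
      have a5 : s * y'⁻¹ = y'⁻¹ * s := by
        rw [eq_inv_mul_iff_mul_eq, ← mul_assoc, a1, mul_inv_cancel_right]
      rw [this, commutatorElement_def, commutatorElement_def, ← mul_assoc, mul_assoc _ s, a5, e,
        mul_assoc y d, ← a4]
      group
    have k5 := (h.ti x₀ hx₀ y (h'.le hy) (by
      rw [← e2, e1]; exact h.commD d0 d1 ht t1)).resolve_right k2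
    have k6 : ⁅y, x₀⁆ = 1 := commutatorElement_eq_one_iff_mul_comm.2 (k5 y (h'.le hy))
    rw [← e2, e1, commutatorElement_eq_one_iff_mul_comm] at k6
    exact k6.symm
  rw [e, mul_assoc, ← k4 g hg.1, ← mul_assoc, hg.2 y hy, mul_assoc]

end RD

/-- The preimage of a subgroup under an automorphism. -/
abbrev pb (φ : MulAut P) (X : Subgroup P) : Subgroup P := X.comap φ.toMonoidHom

theorem pb_mul (φ ψ : MulAut P) (X : Subgroup P) : pb (φ * ψ) X = pb ψ (pb φ X) := rfl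

theorem pb_cent (φ : MulAut P) (X : Subgroup P) : 𝐂[pb φ X] = pb φ 𝐂[X] :=
  cent_comap φ.injective fun x _ => φ.surjective x

instance normal_inn : (MulAut.conj : P →* MulAut P).range.Normal := ⟨by
  rintro _ ⟨s, rfl⟩ a
  exact ⟨a s, by ext x; simp⟩⟩

theorem main [Finite P] {B X D : Subgroup P} {q : ℕ} [hB : B.Characteristic] (h : RD B X D q)
    (hc : ∀ s : P, pb (MulAut.conj s) X ≤ 𝐂[X]) {A : Subgroup (MulAut P)}
    (hA : Odd (Nat.card A)) {φ : MulAut P} (hφ : φ ∈ A ⊔ (MulAut.conj : P →* MulAut P).range) :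
    pb φ X ≤ 𝐂[X] := by
  by_contra n
  have hr : ∀ ψ : MulAut P, RD B (pb ψ X) (pb ψ D) q := fun ψ => by
    have := h.comap (f := ψ.toMonoidHom) ψ.injective fun x _ => ψ.surjective x
    rwa [hB.fixed ψ] at this
  have hBψ : ∀ ψ : MulAut P, pb ψ B = B := fun ψ => hB.fixed ψ
  have n' : ¬ pb φ⁻¹ X ≤ 𝐂[X] := fun k => n (by
    rw [le_centralizer_iff]
    have : pb φ (pb φ⁻¹ X) ≤ pb φ 𝐂[X] := comap_mono k
    rwa [← pb_mul, inv_mul_cancel, ← pb_cent] at this)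
  have hK : ∀ ψ : MulAut P, B ⊓ 𝐂[pb ψ X] = pb ψ (B ⊓ 𝐂[X]) := fun ψ => by
    rw [pb_cent, pb, pb, comap_inf]; congr 1; exact (hBψ ψ).symm
  have e1 : pb φ (B ⊓ 𝐂[X]) = pb φ⁻¹ (B ⊓ 𝐂[X]) := by
    rw [← hK, ← hK]
    exact le_antisymm (le_inf inf_le_left (h.partner (hr _) (hr _) n n'))
      (le_inf inf_le_left (h.partner (hr _) (hr _) n' n))
  have e2 : ∀ m : ℕ, pb (φ ^ (2 * m + 1)) (B ⊓ 𝐂[X]) = pb φ (B ⊓ 𝐂[X]) := fun m => by
    induction m with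
    | zero => rw [mul_zero, zero_add, pow_one]
    | succ m ih =>
      have : φ ^ (2 * (m + 1) + 1) = φ * (φ * φ ^ (2 * m + 1)) := by
        rw [← pow_succ', ← pow_succ']; congr 1
      rw [this, pb_mul, e1, ← pb_mul, inv_mul_cancel_left, ih, e1]
  obtain ⟨m, hm⟩ := hA
  obtain ⟨a, ha, i, hi, rfl⟩ := mem_sup_of_normal_right.1 hφ
  have e3 : (a * i) ^ (2 * m + 1) ∈ (MulAut.conj : P →* MulAut P).range := by
    rw [← QuotientGroup.eq_one_iff, QuotientGroup.mk_pow, QuotientGroup.mk_mul,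
      (QuotientGroup.eq_one_iff i).2 hi, mul_one, ← QuotientGroup.mk_pow, ← hm]
    have : a ^ Nat.card A = 1 := congrArg Subtype.val (pow_card_eq_one' (x := (⟨a, ha⟩ : A)))
    rw [this]; rfl
  obtain ⟨s, hs⟩ := e3
  have e4 := e2 m
  rw [← hs, ← hK, ← hK] at e4
  refine n (le_centralizer_iff.1 (le_trans ?_ (e4.le.trans inf_le_right)))
  exact le_inf h.le (le_centralizer_iff.1 (hc s))

/-- The invariant closure of a root datum centralizes it. -/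
theorem exists_inv [Finite P] {B X D : Subgroup P} {q : ℕ} [hB : B.Characteristic]
    (h : RD B X D q) (hc : ∀ s : P, pb (MulAut.conj s) X ≤ 𝐂[X]) {A : Subgroup (MulAut P)}
    (hA : Odd (Nat.card A)) : ∃ U : Subgroup P, X ≤ U ∧ U ≤ B ⊓ 𝐂[X] ∧ U.Normal ∧
      ∀ a ∈ A, ∀ x ∈ U, a x ∈ U := by
  set Γ := A ⊔ (MulAut.conj : P →* MulAut P).range
  have key : ∀ a ∈ Γ, ∀ x ∈ ⨆ φ : Γ, pb φ X, a x ∈ ⨆ φ : Γ, pb φ X := fun a ha => by
    have : (⨆ φ : Γ, pb φ X) ≤ pb a (⨆ φ : Γ, pb φ X) := iSup_le fun φ x hx =>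
      mem_iSup_of_mem (⟨φ * a⁻¹, Γ.mul_mem φ.2 (Γ.inv_mem ha)⟩ : Γ) (by simpa [pb] using hx)
    exact this
  refine ⟨⨆ φ : Γ, pb φ X, le_iSup_of_le 1 le_rfl, iSup_le fun φ => le_inf ?_
    (main h hc hA φ.2), ⟨fun x hx s => key _ (mem_sup_right ⟨s, rfl⟩) x hx⟩,
    fun a ha => key a (mem_sup_left ha)⟩
  exact (comap_mono h.le).trans (hB.fixed _).le

end Cfsg.Agent.PLocal.OddAut
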