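import Mathlib
import Cfsg.Agent.PLocal.PGV2
import Cfsg.Agent.PLocal.ElemAb

/-! The `P(G,V)`-theorem, part 3: the main argument on a minimal submodule. -/

set_option autoImplicit false

namespace Cfsg.Agent.PLocal.PGV

open Subgroup Cfsg.Agent.Grp Cfsg.Agent.PLocal.CP
open scoped commutatorElement Cfsg.Agent.PLocal.Amb

variable {G : Type*} [Group G] {p : ℕ}

/-- A minimal `⟨K, A⟩`-submodule `W` of `V` not centralized by `K`. -/
structure Setup (p : ℕ) (V A K W : Subgroup G) : Prop where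
  hV : IsElementaryAbelian p V
  fam : Fam p A K
  hAV : A ≤ 𝐍[V]
  best : IsBestOffenderOn p V A
  hWV : W ≤ V
  hKW : K ≤ 𝐍[W]
  hAW : A ≤ 𝐍[W]
  nc : ¬ K ≤ 𝐂[W]
  min : ∀ U < W, K ≤ 𝐍[U] → A ≤ 𝐍[U] → K ≤ 𝐂[U]

namespace Setup

variable {V A K W : Subgroup G} (h : Setup p V A K W)
include h

theorem hW : IsElementaryAbelian p W := elemAb_mono h.hV h.hWV

theorem comm {x y : G} (hx : x ∈ W) (hy : y ∈ W) : x * y = y * x := elemAb_comm h.hW hx hy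

theorem cj_le {c : G} (hc : c ∈ A) : cj(c, K) ≤ 𝐍[W] :=
  Amb.cj_le_of_mem h.hKW (h.hAW hc)

theorem nc' : ¬ K ≤ 𝐂[(⁅W, K⁆ : Subgroup G)] := fun h1 =>
  h.nc (le_centralizer_of_perfect h.fam.perfect h1)

theorem eq_of_commutator_le {U : Subgroup G} (hU : U ≤ W) (hK : K ≤ 𝐍[U]) (hA : A ≤ 𝐍[U])
    (h1 : ⁅W, K⁆ ≤ U) : U = W := by
  by_contra hne
  exact h.nc' ((h.min U (lt_of_le_of_ne hU hne) hK hA).trans (Amb.centralizer_anti h1))

theorem mem_centralizer_K {g : G} (hg : g ∈ A) (h1 : g ∈ 𝐂[W]) : g ∈ 𝐂[K] := by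
  by_contra hc
  exact h.nc (le_centralizer_of_mem h.fam.qs h.hKW h1 (h.fam.dich g hg) hc)

theorem A_le_centralizer {c : G} (hc : c ∈ A) : A ≤ 𝐂[zpowers c] := fun a ha => by
  rw [Amb.centralizer_zpowers, mem_centralizer_singleton_iff]
  exact (h.fam.comm ha hc).eq

theorem A_le_normalizer {c : G} (hc : c ∈ A) : A ≤ 𝐍[(W ⊓ 𝐂[zpowers c] : Subgroup G)] :=
  CP.le_normalizer_inf h.hAW (((h.A_le_centralizer hc).trans
    (Amb.centralizer_le_normalizer' _)).trans (Amb.normalizer_le_normalizer_centralizer _))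

omit h in
theorem commutator_le_W {X : Subgroup G} (hX : X ≤ 𝐍[W]) : ⁅W, X⁆ ≤ W :=
  commutator_le.2 fun _ hw _ hx => commutatorElement_mem_of_mem_normalizer (hX hx) hw

variable [Finite G] [hp : Fact p.Prime]

theorem mem_centralizer_W {c : G} (hc : c ∈ A) (h1 : c ∈ 𝐂[K]) : c ∈ 𝐂[W] := by
  have hKc : K ≤ 𝐂[zpowers c] := le_centralizer_iff.1 (zpowers_le.2 h1)
  have hne : W ≠ ⊥ := fun h2 => h.nc (by rw [h2, centralizer_bot']; exact le_top)
  have h2 : K ≤ 𝐂[(⁅W, zpowers c⁆ : Subgroup G)] :=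
    h.min _ (commutator_lt_of_isPGroup (elemAb_isPGroup h.hW)
      ((elemAb_isPGroup h.fam.ea).to_le (zpowers_le.2 hc)) ((zpowers_le.2 hc).trans h.hAW) hne)
      (CP.le_normalizer_commutator h.hKW (hKc.trans (Amb.centralizer_le_normalizer' _)))
      (CP.le_normalizer_commutator h.hAW
        ((h.A_le_centralizer hc).trans (Amb.centralizer_le_normalizer' _)))
  have h3 := h.eq_of_commutator_le (U := W ⊓ 𝐂[zpowers c]) inf_le_left
    (CP.le_normalizer_inf h.hKW ((hKc.trans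
      (Amb.centralizer_le_normalizer' _)).trans (Amb.normalizer_le_normalizer_centralizer _)))
    (h.A_le_normalizer hc)
    (le_inf (commutator_le_W h.hKW) (le_centralizer_iff.1 (swap hKc h2)))
  exact le_centralizer_iff.1 (h3.ge.trans inf_le_right) (mem_zpowers c)

theorem not_le_centralizer {a : G} (ha : a ∈ A) (hn : a ∉ 𝐍[K]) :
    ¬ A ⊓ 𝐂[(⁅W, A⁆ : Subgroup G)] ≤ 𝐂[W] := by
  intro h1
  have h2 := (timmesfeld h.hV h.hAV h.best h.hWV).2.1
  have h3 : W ≤ ⁅W, A⁆ ⊔ (W ⊓ 𝐂[A]) := by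
    have h4 : W ≤ (⁅W, A⁆ ⊔ (V ⊓ 𝐂[A])) ⊓ W := by
      rw [← h2]; exact le_inf (le_inf h.hWV (le_centralizer_iff.1 h1)) le_rfl
    rw [Amb.sup_inf_of_le_normalizer (commutator_le_W h.hAW)
      (le_normalizer_of_comm (fun _ hx _ hy => elemAb_comm h.hV hx hy)
        ((commutator_le_W h.hAW).trans h.hWV) inf_le_left)] at h4
    exact h4.trans (sup_le_sup_left (le_inf inf_le_right (inf_le_left.trans inf_le_right)) _)
  have h4 := commutator_eq_bot_of_le_commutator_sup (elemAb_isPGroup h.hW) h.hAW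
    (fun b hb => ⟨1, by rw [pow_one, h.fam.ea.2 b hb]; exact one_mem _⟩) h3
  rw [commutator_eq_bot_iff_le_centralizer, le_centralizer_iff] at h4
  exact hn (Amb.centralizer_le_normalizer' K (h.mem_centralizer_K ha (h4 ha)))

omit [Finite G] in
theorem diag_le_normalizer {a : G} (ha : a ∈ A) (hn : a ∉ 𝐍[K]) :
    (h.fam.diag ha hn).range ≤ 𝐍[W] := by
  rintro _ ⟨k, rfl⟩
  exact nrm_mem fun i _ => h.cj_le (pow_mem ha i) (Amb.conj_mem_cj _ k.2)

omit [Finite G] in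
theorem diag_le_centralizer {a : G} (ha : a ∈ A) (hn : a ∉ 𝐍[K]) :
    (h.fam.diag ha hn).range ≤ 𝐂[zpowers a] := by
  rintro _ ⟨k, rfl⟩
  exact mem_centralizer_iff.2 fun c hc => (h.fam.commute_nrm' ha hn k.2 hc).eq

/-- The diagonal subgroup centralizes `[W, a]`. -/
theorem star {a : G} (ha : a ∈ A) (hn : a ∉ 𝐍[K]) :
    (h.fam.diag ha hn).range ≤ 𝐂[(⁅W, zpowers a⁆ : Subgroup G)] := by
  have hD : (h.fam.diag ha hn).range ≤ 𝐍[(⁅W, zpowers a⁆ : Subgroup G)] :=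
    CP.le_normalizer_commutator (h.diag_le_normalizer ha hn)
      ((h.diag_le_centralizer ha hn).trans (Amb.centralizer_le_normalizer' _))
  set B := A ⊓ 𝐂[(⁅W, A⁆ : Subgroup G)] with hB
  by_cases hc : ∃ b ∈ B, ∀ c ∈ zpowers a, c⁻¹ * b ∉ 𝐂[K]
  · obtain ⟨b, hb, hbc⟩ := hc
    exact h.fam.diag_le ha hn (CP.le_normalizer_centralizer hD) hb.1
      (Amb.centralizer_anti (commutator_mono le_rfl (zpowers_le.2 ha)) hb.2) hbc
  push Not at hc
  have hc' : ∀ b ∈ B, ∃ c ∈ zpowers a, c⁻¹ * b ∈ 𝐂[W] := fun b hb => by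
    obtain ⟨c, h1, h2⟩ := hc b hb
    exact ⟨c, h1, h.mem_centralizer_W (mul_mem (inv_mem (zpowers_le.2 ha h1)) hb.1) h2⟩
  obtain ⟨b, hb, hbW⟩ := SetLike.not_le_iff_exists.1 (h.not_le_centralizer ha hn)
  obtain ⟨c, hca, hcb⟩ := hc' b hb
  have ha1 : a ≠ 1 := fun h1 => hn (h1 ▸ one_mem _)
  have hcard : Nat.card (zpowers a) = p := by
    rw [Nat.card_zpowers, orderOf_eq_of_pow_eq_one (h.fam.ea.2 a ha) ha1]
  have hc1 : c ≠ 1 := fun h1 => hbW (by simpa [h1] using hcb)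
  have hz : zpowers c = zpowers a :=
    (eq_bot_or_eq_of_le_of_card_prime hcard (zpowers_le.2 hca)).resolve_left
      (by rwa [zpowers_eq_bot])
  -- `|B| ≤ p |C_B(W)|`
  have h1 : Nat.card B ≤ p * Nat.card ↥(B ⊓ 𝐂[W]) := by
    have h2 : B ≤ zpowers b ⊔ (B ⊓ 𝐂[W]) := fun x hx => by
      obtain ⟨d, hd, hdx⟩ := hc' x hx
      rw [← hz] at hd
      obtain ⟨j, rfl⟩ := hd
      have h3 : (b ^ j)⁻¹ * x ∈ B ⊓ 𝐂[W] := by
        refine mem_inf.2 ⟨mul_mem (inv_mem (zpow_mem hb j)) hx, ?_⟩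
        have h4 : (b ^ j)⁻¹ * x = ((c⁻¹ * b) ^ j)⁻¹ * ((c ^ j)⁻¹ * x) := by
          rw [(h.fam.comm (inv_mem (zpowers_le.2 ha hca)) hb.1).mul_zpow]
          group
        rw [h4]
        exact mul_mem (inv_mem (zpow_mem hcb j)) hdx
      have h4 : x = b ^ j * ((b ^ j)⁻¹ * x) := by group
      rw [h4]
      exact mul_mem (mem_sup_left (zpow_mem_zpowers b j)) (mem_sup_right h3)
    have h3 : Nat.card (zpowers b) = p := by
      rw [Nat.card_zpowers, orderOf_eq_of_pow_eq_one (h.fam.ea.2 b hb.1)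
        fun h1 => hbW (h1 ▸ one_mem _)]
    refine (card_le_of_le h2).trans (Nat.le_of_dvd (Nat.mul_pos hp.out.pos Nat.card_pos) ?_)
    rw [← h3]
    exact card_sup_dvd_of_le_normalizer (le_normalizer_of_comm
      (fun _ hx _ hy => elemAb_comm h.fam.ea hx hy) (zpowers_le.2 hb.1)
      (inf_le_left.trans inf_le_left))
  have h2 := offender_bound h.hWV (timmesfeld h.hV h.hAV h.best h.hWV).1
  rw [← hB] at h2
  have h3 : W ⊓ 𝐂[B] ≤ W ⊓ 𝐂[zpowers a] := by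
    refine fun w hw => mem_inf.2 ⟨hw.1, ?_⟩
    rw [← hz, Amb.centralizer_zpowers, mem_centralizer_singleton_iff]
    have h4 : Commute w b := (mem_centralizer_iff.1 hw.2 b hb).symm
    have h5 : Commute w (c⁻¹ * b) := mem_centralizer_iff.1 hcb w hw.1
    have h6 := h4.mul_right h5.inv_right
    rw [show b * (c⁻¹ * b)⁻¹ = c by group] at h6
    exact h6.eq
  have h4 := card_commutator_zpowers_mul_card_centralizer (fun _ hx _ hy => h.comm hx hy) (h.hAW ha)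
  have h5 : Nat.card ↥(⁅W, zpowers a⁆) ≤ p := by
    have h6 : Nat.card W ≤ p * Nat.card ↥(W ⊓ 𝐂[zpowers a]) := by
      refine Nat.le_of_mul_le_mul_right (h2.trans ?_) Nat.card_pos
      calc _ ≤ (p * Nat.card ↥(B ⊓ 𝐂[W])) * Nat.card ↥(W ⊓ 𝐂[zpowers a]) :=
            Nat.mul_le_mul h1 (card_le_of_le h3)
        _ = _ := by ring
    rw [← h4] at h6
    exact Nat.le_of_mul_le_mul_right h6 Nat.card_pos
  refine le_centralizer_of_isCyclic (h.fam.diag_perfect ha hn) hD ?_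
  obtain ⟨m, hm⟩ := IsPGroup.iff_card.1 ((elemAb_isPGroup h.hW).to_le
    (commutator_le_W ((zpowers_le.2 ha).trans h.hAW)))
  refine isCyclic_of_card_dvd_prime (p := p) ?_
  rw [hm] at h5 ⊢
  have h6 : m ≤ 1 := (Nat.pow_le_pow_iff_right hp.out.one_lt).1 (by rwa [pow_one])
  exact (pow_dvd_pow p h6).trans (by rw [pow_one])

theorem star' {a : G} (ha : a ∈ A) (hn : a ∉ 𝐍[K]) :
    zpowers a ≤ 𝐂[(⁅W, (h.fam.diag ha hn).range⁆ : Subgroup G)] :=
  swap (h.diag_le_centralizer ha hn) (h.star ha hn)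

theorem not_forall_cj_le {a : G} (ha : a ∈ A) (hn : a ∉ 𝐍[K])
    (h1 : ∀ i, 0 < i → i < p → cj(a ^ i, K) ≤ 𝐂[(⁅W, K⁆ : Subgroup G)]) : False := by
  obtain ⟨n, hn'⟩ : ∃ n, p = n + 1 := ⟨p - 1, (Nat.succ_pred_eq_of_pos hp.out.pos).symm⟩
  have h2 : K ≤ 𝐂[(⁅W, cj(a, K)⁆ : Subgroup G)] :=
    swap (h.fam.cj_le ha hn) (by simpa using h1 1 one_pos hp.out.one_lt)
  refine h.nc' (le_centralizer_of_perfect h.fam.perfect (le_centralizer_iff.1 ?_))
  rw [commutator_le]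
  intro v hv k hk
  have hvW := commutator_le_W h.hKW hv
  have h3 : nrm a n (a * k * a⁻¹) ∈ 𝐂[(⁅W, K⁆ : Subgroup G)] := nrm_mem fun i hi => by
    rw [show a ^ i * (a * k * a⁻¹) * (a ^ i)⁻¹ = a ^ (i + 1) * k * (a ^ (i + 1))⁻¹ by group]
    exact h1 (i + 1) (by omega) (by omega) (Amb.conj_mem_cj _ hk)
  have h4 : ⁅v, k⁆ = ⁅v, nrm a p k⁆ := by
    rw [hn', nrm_succ', nrm_conj (Commute.refl a),
      commutator_mul_right_of_commute (mem_centralizer_iff.1 h3 v hv)]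
  have h5 : ⁅v, k⁆ ∈ ⁅W, (h.fam.diag ha hn).range⁆ :=
    h4 ▸ commutator_mem_commutator hvW ⟨⟨k, hk⟩, rfl⟩
  have h6 := mem_centralizer_iff.1 (h.star' ha hn (mem_zpowers a)) _ h5
  have h7 : a * ⁅v, k⁆ * a⁻¹ ∈ (⁅W, cj(a, K)⁆ : Subgroup G) := by
    rw [← Amb.cj_of_mem_normalizer (h.hAW ha), Amb.commutator_cj]
    exact Amb.conj_mem_cj a (commutator_mem_commutator hvW hk)
  rw [← h6, mul_inv_cancel_right] at h7
  exact le_centralizer_iff.1 h2 h7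

omit [Finite G] hp in
theorem exists_not_mem : ∃ k ∈ K, k ∉ 𝐂[K] :=
  SetLike.not_le_iff_exists.1 (qsS_not_le_centralizer h.fam.qs)

theorem le_centralizer_cj {a c : G} (ha : a ∈ A) (hn : a ∉ 𝐍[K]) (hc : c ∈ A)
    (h1 : ∀ i : ℕ, c⁻¹ * a ^ i ∉ 𝐍[K]) : K ≤ 𝐂[(⁅W, cj(c, K)⁆ : Subgroup G)] := by
  have hcn : c ∉ 𝐍[K] := fun h2 => h1 0 (by simpa using h2)
  have h2 : (h.fam.diag ha hn).range ≤ 𝐂[cj(c, K)] := by
    rintro _ ⟨k, rfl⟩
    exact nrm_mem fun i _ => h.fam.cj_le_cj (pow_mem ha i) hc (h1 i) (Amb.conj_mem_cj _ k.2)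
  have h3 := le_centralizer_iff.1 h2
  have h4 : cj(c, K) ≤ 𝐂[(⁅W, (h.fam.diag ha hn).range⁆ : Subgroup G)] :=
    le_centralizer_of_mem (h.fam.conj hc).qs
      (CP.le_normalizer_commutator (h.cj_le hc) (h3.trans (Amb.centralizer_le_normalizer' _)))
      (h.star' ha hn (mem_zpowers a)) ((h.fam.conj hc).dich a ha)
      fun h5 => hn (Amb.centralizer_le_normalizer' K ((h.fam.mem_centralizer_cj ha hc).1 h5))
  obtain ⟨k, hk, hkc⟩ := h.exists_not_mem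
  obtain ⟨e, he, hke⟩ := h.fam.exists_nrm_eq ha hn hk
  refine le_centralizer_of_mem h.fam.qs (CP.le_normalizer_commutator h.hKW
    ((h.fam.le_centralizer_cj hc hcn).trans (Amb.centralizer_le_normalizer' _)))
    (swap h3 h4 ⟨⟨k, hk⟩, rfl⟩) (Or.inl ?_) ?_
  · rw [Fam.diag_apply, hke]; exact mul_mem_normalizer hk he
  · rw [Fam.diag_apply, hke]; exact mul_not_mem_centralizer hkc he

theorem cj_le_centralizer {a c : G} (ha : a ∈ A) (hn : a ∉ 𝐍[K]) (hc : c ∈ zpowers a)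
    (h1 : c ∉ 𝐍[K]) (h2 : c * c ∉ 𝐍[K]) : cj(c, K) ≤ 𝐂[(⁅W, K⁆ : Subgroup G)] := by
  have hcA := zpowers_le.2 ha hc
  obtain ⟨k, hk, hkc⟩ := h.exists_not_mem
  set δ := nrm a p k with hδ
  have hδD : zpowers δ ≤ (h.fam.diag ha hn).range := zpowers_le.2 ⟨⟨k, hk⟩, rfl⟩
  have hx : c * k * c⁻¹ ∈ cj(c, K) := Amb.conj_mem_cj c hk
  have hx' : c * c * k⁻¹ * (c * c)⁻¹ ∈ cj(c * c, K) := Amb.conj_mem_cj _ (inv_mem hk)
  set x := c * k * c⁻¹ with hxd
  have hxδ : x ∈ 𝐂[zpowers δ] := by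
    obtain ⟨e, he, hke⟩ := h.fam.exists_nrm_eq' ha hn hk hc
    rw [← hxd, ← hδ] at hke
    rw [Amb.centralizer_zpowers, mem_centralizer_singleton_iff, hke, mul_assoc x e x,
      mem_centralizer_iff.1 he x hx]
  have hcδ : c ∈ 𝐂[zpowers δ] := by
    rw [Amb.centralizer_zpowers, mem_centralizer_singleton_iff]
    exact (h.fam.commute_nrm' ha hn hk hc).eq
  have hy : ⁅x, c⁆ = x * (c * c * k⁻¹ * (c * c)⁻¹) := by
    simp only [commutatorElement_def, hxd]; group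
  have h3 : ⁅x, c⁆ ∈ 𝐂[(⁅W, zpowers δ⁆ : Subgroup G)] :=
    commutator_mem_of_mem (Amb.normalizer_le_normalizer_centralizer _
      (CP.le_normalizer_commutator (inf_le_left : 𝐍[W] ⊓ 𝐂[zpowers δ] ≤ _)
        (inf_le_right.trans (Amb.centralizer_le_normalizer' _)) ⟨h.cj_le hcA hx, hxδ⟩))
      (Amb.centralizer_anti (commutator_mono le_rfl hδD) (h.star' ha hn hc))
  have h4 : ⁅x, c⁆ ∈ 𝐂[zpowers δ] := mul_mem (mul_mem (mul_mem hxδ hcδ) (inv_mem hxδ)) (inv_mem hcδ)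
  have h5 := swap (zpowers_le.2 h4) (zpowers_le.2 h3) (mem_zpowers δ)
  have h6 : K ≤ 𝐂[zpowers ⁅x, c⁆] := by
    rw [le_centralizer_iff, zpowers_le, hy]
    exact mul_mem (h.fam.cj_le hcA h1 hx) (h.fam.cj_le (mul_mem hcA hcA) h2 hx')
  obtain ⟨e, he, hke⟩ := h.fam.exists_nrm_eq ha hn hk
  have h7 : K ≤ 𝐂[(⁅W, zpowers ⁅x, c⁆⁆ : Subgroup G)] := by
    refine le_centralizer_of_mem h.fam.qs (CP.le_normalizer_commutator h.hKW
      (h6.trans (Amb.centralizer_le_normalizer' _))) h5 (Or.inl ?_) ?_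
    · rw [hδ, hke]; exact mul_mem_normalizer hk he
    · rw [hδ, hke]; exact mul_not_mem_centralizer hkc he
  have h8 : c * c * k⁻¹ * (c * c)⁻¹ ∈ 𝐂[cj(c, K)] :=
    h.fam.cj_le_cj (mul_mem hcA hcA) hcA (by rwa [inv_mul_cancel_left]) hx'
  refine le_centralizer_of_mem (h.fam.conj hcA).qs (CP.le_normalizer_commutator (h.cj_le hcA)
    (h.fam.cj_le_normalizer hcA)) (swap h6 h7 (mem_zpowers _)) (Or.inl ?_) ?_
  · rw [hy]; exact mul_mem_normalizer hx h8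
  · rw [hy]
    refine mul_not_mem_centralizer ?_ h8
    rwa [Amb.centralizer_cj, hxd, Amb.conj_mem_cj_iff]

theorem eq_two {a : G} (ha : a ∈ A) (hn : a ∉ 𝐍[K]) : p = 2 := by
  by_contra hne
  refine h.not_forall_cj_le ha hn fun i hi hip => h.cj_le_centralizer ha hn (npow_mem_zpowers a i)
    (h.fam.pow_not_mem ha hn (Nat.not_dvd_of_pos_of_lt hi hip)) ?_
  rw [← pow_add, ← two_mul]
  refine h.fam.pow_not_mem ha hn fun hd => ?_
  rcases (Nat.Prime.dvd_mul hp.out).1 hd with h1 | h1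
  · exact hne ((Nat.prime_dvd_prime_iff_eq hp.out Nat.prime_two).1 h1)
  · exact Nat.not_dvd_of_pos_of_lt hi hip h1

end Setup

namespace Setup

variable [Finite G] {V A K W : Subgroup G} (h : Setup 2 V A K W)
include h

theorem not_cj_le {a : G} (ha : a ∈ A) (hn : a ∉ 𝐍[K]) :
    ¬ cj(a, K) ≤ 𝐂[(⁅W, K⁆ : Subgroup G)] := fun h1 =>
  h.not_forall_cj_le ha hn fun i hi hi2 => by
    rwa [show i = 1 by omega, pow_one]

theorem inv_mul_mem {a c : G} (ha : a ∈ A) (hn : a ∉ 𝐍[K]) (hc : c ∈ A) (hcn : c ∉ 𝐍[K]) :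
    c⁻¹ * a ∈ 𝐍[K] := by
  by_contra h1
  refine h.not_cj_le hc hcn (swap (h.fam.le_centralizer_cj hc hcn)
    (h.le_centralizer_cj ha hn hc fun i => ?_))
  rw [pow_eq_pow_mod i (h.fam.ea.2 a ha)]
  rcases Nat.mod_two_eq_zero_or_one i with h2 | h2 <;> rw [h2]
  · simpa using hcn
  · rwa [pow_one]

theorem sup_eq {a b : G} (ha : a ∈ A) (hn : a ∉ 𝐍[K]) (hb : b ∈ A) (hbn : b ∉ 𝐍[K])
    (hab : a⁻¹ * b ∉ 𝐂[K]) : (W ⊓ 𝐂[zpowers a]) ⊔ (W ⊓ 𝐂[zpowers b]) = W := by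
  set U := (W ⊓ 𝐂[zpowers a]) ⊔ (W ⊓ 𝐂[zpowers b]) with hU
  have hUW : U ≤ W := sup_le inf_le_left inf_le_left
  have h1 : ∀ {c : G} (hc : c ∈ A) (hcn : c ∉ 𝐍[K]), W ⊓ 𝐂[zpowers c] ≤ U →
      ∀ k ∈ K, k * (c * k * c⁻¹) ∈ secCent W U := fun {c} hc hcn hcU k hk => by
    have h2 : ⁅W, (h.fam.diag hc hcn).range⁆ ≤ U :=
      (le_inf (commutator_le_W (h.diag_le_normalizer hc hcn))
        (le_centralizer_iff.1 (h.star' hc hcn))).trans hcU
    have h3 : (h.fam.diag hc hcn).range ≤ secCent W U := by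
      refine le_secCent_iff'.2 ⟨?_, h2⟩
      rw [le_normalizer_iff]
      intro x hx u hu
      rw [show x * u * x⁻¹ = (⁅u, x⁆)⁻¹ * u by simp only [commutatorElement_def]; group]
      exact mul_mem (inv_mem (h2 (commutator_mem_commutator (hUW hu) hx))) hu
    rw [← nrm_two]
    exact h3 ⟨⟨k, hk⟩, rfl⟩
  have h2 := h1 ha hn le_sup_left
  have h3 := h1 hb hbn le_sup_right
  have hn' := h.inv_mul_mem ha hn hb hbn
  have h4 : K ≤ secCent W U := by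
    refine (le_or_of_diag h.fam.qs fun k hk =>
      ⟨_, h.fam.cj_le ha hn (Amb.conj_mem_cj a hk), h2 k hk⟩).resolve_right fun h5 => hab ?_
    have h6 : b⁻¹ * a ∈ 𝐂[K] := by
      refine mem_centralizer_of_perfect h.fam.perfect hn' fun k hk => h5 (mem_inf.2 ⟨?_,
        commutatorElement_mem_of_mem_normalizer hn' hk⟩)
      have h7 := mul_mem (h2 k hk) (inv_mem (h3 _ (CP.conj_mem_of_mem_normalizer hn' hk)))
      convert h7 using 1
      simp only [commutatorElement_def]; group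
    simpa using inv_mem h6
  exact h.eq_of_commutator_le hUW (le_secCent_iff'.1 h4).1
    (CP.le_normalizer_sup (h.A_le_normalizer ha) (h.A_le_normalizer hb)) (le_secCent_iff'.1 h4).2

theorem two_lt_card {a : G} (ha : a ∈ A) (hn : a ∉ 𝐍[K]) : 2 < Nat.card ↥(⁅W, zpowers a⁆) := by
  by_contra hc
  set U := (⁅W, zpowers a⁆ : Subgroup G) with hU
  have hUW : U ≤ W := commutator_le_W ((zpowers_le.2 ha).trans h.hAW)
  have haU : a ∈ 𝐍[U] := CP.le_normalizer_commutator h.hAW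
    ((h.A_le_centralizer ha).trans (Amb.centralizer_le_normalizer' _)) ha
  have h1 : ∀ k ∈ K, k * (a * k * a⁻¹) ∈ 𝐂[U] := fun k hk => by
    rw [← nrm_two]; exact h.star ha hn ⟨⟨k, hk⟩, rfl⟩
  have hnc : ¬ K ≤ 𝐂[U] := fun h2 => by
    have h3 : K ≤ secCent W U := le_of_mem h.fam.qs
      (le_normalizer_secCent h.hKW (h2.trans (Amb.centralizer_le_normalizer' _)))
      (zpowers_le.1 (le_secCent_iff'.2 ⟨zpowers_le.2 haU, le_rfl⟩)) (h.fam.dich a ha)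
      fun h4 => hn (Amb.centralizer_le_normalizer' K h4)
    exact h.nc' (h2.trans (Amb.centralizer_anti (le_secCent_iff'.1 h3).2))
  have h2 := (le_or_of_diag h.fam.qs fun k hk =>
    ⟨_, h.fam.cj_le ha hn (Amb.conj_mem_cj a hk), h1 k hk⟩).resolve_left hnc
  have hU2 : Nat.card U = 2 := by
    have h3 : Nat.card U ≠ 1 := fun h3 => hnc (by
      rw [card_eq_one.1 h3, centralizer_bot']; exact le_top)
    have h4 : 0 < Nat.card U := Nat.card_pos
    omega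
  obtain ⟨w, hw1, hw2, hw⟩ := exists_eq_zpowers_of_card_prime hU2
  have hmem : ∀ x ∈ U, x = 1 ∨ x = w := fun x hx => by
    rw [hw] at hx
    obtain ⟨i, rfl⟩ := mem_powers_iff_mem_zpowers.2 hx
    simp only
    rw [pow_eq_pow_mod i hw2]
    rcases Nat.mod_two_eq_zero_or_one i with h3 | h3 <;> simp [h3]
  have hwU : w ∈ U := hw.ge (mem_zpowers w)
  have haw : a * w * a⁻¹ = w := (hmem _ (CP.conj_mem_of_mem_normalizer haU hwU)).resolve_left
    (by simpa using hw1)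
  obtain ⟨k, hk, hk6⟩ := exists_pow_six_not_mem h.fam.qs
  refine hk6 (h2 (mem_inf.2 ⟨?_, pow_mem hk 6⟩))
  rw [hw, Amb.centralizer_zpowers, mem_centralizer_singleton_iff]
  have hu : ∀ i : ℕ, k ^ i * w * (k ^ i)⁻¹ ∈ W := fun i =>
    CP.conj_mem_of_mem_normalizer (h.hKW (pow_mem hk i)) (hUW hwU)
  have h3 : a * (k * w * k⁻¹) * a⁻¹ = k⁻¹ * w * k := by
    have h4 := mem_centralizer_iff.1 (h1 k hk) w hwU
    calc _ = k⁻¹ * (k * (a * k * a⁻¹) * (a * w * a⁻¹)) * (k * (a * k * a⁻¹))⁻¹ * k := by group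
      _ = _ := by rw [haw, ← h4]; group
  have h4 : ⁅k * w * k⁻¹, a⁆ = k * w * k⁻¹ * (k⁻¹ * w * k)⁻¹ := by
    rw [← h3]; simp only [commutatorElement_def]; group
  have h5 : ⁅k * w * k⁻¹, a⁆ ∈ U :=
    commutator_mem_commutator (by simpa using hu 1) (mem_zpowers a)
  rw [h4] at h5
  rcases hmem _ h5 with h6 | h6
  · have h7 : Commute (k * k) w := by
      rw [mul_inv_eq_one] at h6
      calc k * k * w = k * (k * w * k⁻¹) * k := by group
        _ = _ := by rw [h6]; group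
    have h8 := (h7.pow_left 3).eq
    rwa [← pow_two, ← pow_mul] at h8
  · have h7 : Commute (k * k * k) w := by
      rw [mul_inv_eq_iff_eq_mul] at h6
      have h8 : k * (k * w * k⁻¹) * k⁻¹ = k * w * k⁻¹ * w := by
        conv_lhs => rw [h6]
        group
      have h9 : k * k * k * w * (k * k * k)⁻¹ = k * (k * w * k⁻¹) * k⁻¹ * (k * w * k⁻¹) := by
        calc _ = k * (k * (k * w * k⁻¹) * k⁻¹) * k⁻¹ := by group
          _ = _ := by
            conv_lhs => rw [h8]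
            group
      have h10 : k * w * k⁻¹ ∈ W := by simpa using hu 1
      rw [h8, mul_assoc (k * w * k⁻¹) w, h.comm (hUW hwU) h10, ← mul_assoc, ← pow_two (k * w * k⁻¹),
        h.hW.2 _ h10, one_mul] at h9
      exact mul_inv_eq_iff_eq_mul.1 h9
    have h8 := (h7.pow_left 2).eq
    rwa [← pow_three', ← pow_mul] at h8

theorem four_le {a : G} (ha : a ∈ A) (hn : a ∉ 𝐍[K]) : 4 ≤ (W ⊓ 𝐂[zpowers a]).relIndex W := by
  have h1 := card_commutator_zpowers_mul_card_centralizer (fun _ hx _ hy => h.comm hx hy) (h.hAW ha)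
  have h2 := card_mul_relIndex (inf_le_left : W ⊓ 𝐂[zpowers a] ≤ W)
  rw [← h1, mul_comm] at h2
  rw [Nat.eq_of_mul_eq_mul_right Nat.card_pos h2]
  have h3 := h.two_lt_card ha hn
  obtain ⟨m, hm⟩ := IsPGroup.iff_card.1 ((elemAb_isPGroup h.hW).to_le
    (commutator_le_W ((zpowers_le.2 ha).trans h.hAW)))
  rw [hm] at h3 ⊢
  have h4 : 1 < m := (Nat.pow_lt_pow_iff_right one_lt_two).1 (by rwa [pow_one])
  exact Nat.pow_le_pow_right two_pos (show 2 ≤ m from h4)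

theorem false_two {a : G} (ha : a ∈ A) (hn : a ∉ 𝐍[K]) : False := by
  classical
  set A₀ := A ⊓ 𝐍[K] with hA₀
  set A₁ := A ⊓ 𝐂[W] with hA₁
  have h10 : A₁ ≤ A₀ := fun x hx =>
    mem_inf.2 ⟨hx.1, Amb.centralizer_le_normalizer' K (h.mem_centralizer_K hx.1 hx.2)⟩
  have h1 : A₀.relIndex A = 2 := by
    refine relIndex_eq_two_iff_exists_notMem_and'.2 ⟨a⁻¹, inv_mem ha, fun h1 => hn ?_,
      fun b hb => ?_⟩
    · exact inv_mem_iff.1 (mem_inf.1 h1).2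
    · by_cases hbn : b ∈ 𝐍[K]
      · exact Or.inr (mem_inf.2 ⟨hb, hbn⟩)
      · exact Or.inl (mem_inf.2 ⟨mul_mem (inv_mem ha) hb, h.inv_mul_mem hb hbn ha hn⟩)
  let _ : CommGroup W := { (inferInstance : Group W) with
    mul_comm := fun x y => Subtype.ext (h.comm x.2 y.2) }
  let _ := Fintype.ofFinite (A₀ ⧸ A₁.subgroupOf A₀)
  have hA : ∀ q : A₀ ⧸ A₁.subgroupOf A₀, a * (q.out : G) ∈ A := fun q => mul_mem ha q.out.2.1
  have hN : ∀ q : A₀ ⧸ A₁.subgroupOf A₀, a * (q.out : G) ∉ 𝐍[K] := fun q h2 =>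
    hn ((mul_mem_cancel_right (mem_inf.1 q.out.2).2).1 h2)
  have h2 := count_comaximal (W := W) (ι := A₀ ⧸ A₁.subgroupOf A₀)
    (fun q => (W ⊓ 𝐂[zpowers (a * (q.out : G))]).subgroupOf W) ((W ⊓ 𝐂[A]).subgroupOf W)
    (fun q => subgroupOf_mono W (inf_le_inf_left W (Amb.centralizer_anti (zpowers_le.2 (hA q)))))
    (fun q r hqr => by
      rw [← subgroupOf_sup inf_le_left inf_le_left, h.sup_eq (hA q) (hN q) (hA r) (hN r),
        subgroupOf_self]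
      intro h2
      refine hqr ?_
      rw [← q.out_eq, ← r.out_eq]
      refine QuotientGroup.eq.2 (mem_subgroupOf.2 ?_)
      have h3 : (a * (q.out : G))⁻¹ * (a * (r.out : G)) = ((q.out⁻¹ * r.out : A₀) : G) := by
        simp only [coe_mul, InvMemClass.coe_inv]; group
      rw [h3] at h2
      exact mem_inf.2 ⟨(q.out⁻¹ * r.out).2.1, h.mem_centralizer_W (q.out⁻¹ * r.out).2.1 h2⟩)
    fun q => h.four_le (hA q) (hN q)
  rw [← Nat.card_eq_fintype_card] at h2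
  change 3 * A₁.relIndex A₀ ≤ (W ⊓ 𝐂[A]).relIndex W at h2
  have h3 := offender_bound h.hWV h.best
  rw [← hA₁, ← card_mul_relIndex (inf_le_left : W ⊓ 𝐂[A] ≤ W),
    ← card_mul_relIndex (inf_le_left : A₁ ≤ A), ← relIndex_mul_relIndex A₁ A₀ A h10 inf_le_left,
    h1] at h3
  have h4 : 0 < A₁.relIndex A₀ := Nat.pos_of_ne_zero index_ne_zero_of_finite
  have h5 : 0 < Nat.card ↥(W ⊓ 𝐂[A]) * Nat.card A₁ := Nat.mul_pos Nat.card_pos Nat.card_pos
  have h6 : (W ⊓ 𝐂[A]).relIndex W ≤ A₁.relIndex A₀ * 2 := by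
    refine Nat.le_of_mul_le_mul_left ?_ h5
    calc _ = Nat.card ↥(W ⊓ 𝐂[A]) * (W ⊓ 𝐂[A]).relIndex W * Nat.card A₁ := by ring
      _ ≤ _ := h3
      _ = _ := by ring
  omega

end Setup

/-- The `P(G,V)`-theorem, ambient form. -/
theorem Fam.le_normalizer_of_best [Finite G] [hp : Fact p.Prime] {V A K : Subgroup G}
    (h : Fam p A K) (hV : IsElementaryAbelian p V) (hAV : A ≤ 𝐍[V]) (hKV : K ≤ 𝐍[V])
    (best : IsBestOffenderOn p V A) (nc : ¬ K ≤ 𝐂[V]) : A ≤ 𝐍[K] := by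
  intro a ha
  by_contra hn
  obtain ⟨W, hW⟩ := exists_minimal_of_wellFoundedLT
    (fun W : Subgroup G => W ≤ V ∧ K ≤ 𝐍[W] ∧ A ≤ 𝐍[W] ∧ ¬ K ≤ 𝐂[W]) ⟨V, le_rfl, hKV, hAV, nc⟩
  have hS : Setup p V A K W := ⟨hV, h, hAV, best, hW.1.1, hW.1.2.1, hW.1.2.2.1, hW.1.2.2.2,
    fun U hU hK hA => by
      by_contra hc
      exact hU.not_ge (hW.2 ⟨hU.le.trans hW.1.1, hK, hA, hc⟩ hU.le)⟩
  obtain rfl := hS.eq_two ha hn
  exact hS.false_two ha hn

end Cfsg.Agent.PLocal.PGV
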