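import Mathlib
import Cfsg.Agent.PLocal.PGV3
import Cfsg.Agent.PLocal.FFModel
import Cfsg.Agent.PLocal.Component

/-! The `P(G,V)`-theorem for representations, and the passage from a representation to the
holomorph of the module. -/

set_option autoImplicit false

namespace Cfsg.Agent.PLocal.PGV

open Subgroup Cfsg.Agent.Grp Cfsg.Agent.PLocal.CP
open scoped commutatorElement Cfsg.Agent.PLocal.Amb

section
variable {R G V : Type*} [CommRing R] [Group G] [AddCommGroup V] [Module R V]
  (ρ : Representation R G V)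

/-- The automorphisms of `Multiplicative V` given by a representation. -/
def repAut : G →* MulAut (Multiplicative V) where
  toFun g :=
    { toFun := fun v => Multiplicative.ofAdd (ρ g v.toAdd)
      invFun := fun v => Multiplicative.ofAdd (ρ g⁻¹ v.toAdd)
      left_inv := fun v => by simp
      right_inv := fun v => by simp
      map_mul' := fun v w => by simp }
  map_one' := by ext; simp
  map_mul' g h := by ext; simp

theorem repAut_apply (g : G) (v : Multiplicative V) :
    repAut ρ g v = Multiplicative.ofAdd (ρ g v.toAdd) := rfl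

/-- The image of the group in the holomorph of the module. -/
def repHol : G →* Hol (Multiplicative V) := SemidirectProduct.inr.comp (repAut ρ)

theorem repHol_commute_iff {g : G} {v : Multiplicative V} :
    repHol ρ g * SemidirectProduct.inl v = SemidirectProduct.inl v * repHol ρ g ↔
      ρ g v.toAdd = v.toAdd := by
  rw [repHol, MonoidHom.comp_apply, hol_commute_iff, repAut_apply]
  exact Multiplicative.toAdd.apply_eq_iff_eq.symm

theorem repHol_mem_centralizer_iff {g : G} :
    repHol ρ g ∈ 𝐂[holV (Multiplicative V)] ↔ ρ g = 1 := by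
  rw [mem_centralizer_iff]
  constructor
  · intro h
    ext v
    exact (repHol_commute_iff ρ).1 (h _ ⟨Multiplicative.ofAdd v, rfl⟩).symm
  · rintro h _ ⟨v, rfl⟩
    exact ((repHol_commute_iff ρ).2 (by rw [h]; rfl)).symm

theorem repHol_injective (hρ : Function.Injective ρ) : Function.Injective (repHol ρ) := by
  rw [injective_iff_map_eq_one] at hρ ⊢
  exact fun g hg => hρ g ((repHol_mem_centralizer_iff ρ).1 (hg ▸ one_mem _))

theorem card_holV_inf_centralizer (B : Subgroup G) :
    Nat.card ↥(holV (Multiplicative V) ⊓ 𝐂[B.map (repHol ρ)]) =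
      Nat.card {v : V // ∀ b ∈ B, ρ b v = v} := by
  symm
  refine Nat.card_congr (Equiv.ofBijective (fun v => ⟨SemidirectProduct.inl (Multiplicative.ofAdd v.1),
    mem_inf.2 ⟨⟨_, rfl⟩, ?_⟩⟩) ⟨fun v w h => ?_, ?_⟩)
  · rintro _ ⟨b, hb, rfl⟩
    exact (repHol_commute_iff ρ).2 (v.2 b hb)
  · exact Subtype.ext (Multiplicative.ofAdd.injective
      (SemidirectProduct.inl_injective (congrArg Subtype.val h)))
  · rintro ⟨_, ⟨v, rfl⟩, hv⟩
    exact ⟨⟨v.toAdd, fun b hb => (repHol_commute_iff ρ).1 (hv _ (mem_map_of_mem _ hb))⟩, rfl⟩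

end

theorem isEA_holV_mult {p : ℕ} (V : Type*) [AddCommGroup V] [Module (ZMod p) V] :
    IsElementaryAbelian p (holV (Multiplicative V)) := by
  refine ⟨⟨⟨?_⟩⟩, ?_⟩
  · rintro ⟨_, v, rfl⟩ ⟨_, w, rfl⟩
    exact Subtype.ext (by simp only [coe_mul, ← map_mul, mul_comm])
  · rintro _ ⟨v, rfl⟩
    rw [← map_pow, ← map_one (SemidirectProduct.inl)]
    congr 1
    refine Multiplicative.toAdd.injective ?_
    rw [toAdd_pow, ← Nat.cast_smul_eq_nsmul (ZMod p)]
    simp

theorem isBestOffenderOn_repHol {p : ℕ} {G V : Type*} [Group G] [AddCommGroup V]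
    [Module (ZMod p) V] (ρ : Representation (ZMod p) G V) (hρ : Function.Injective ρ)
    {A : Subgroup G} (hA : IsElementaryAbelian p A)
    (hP : ∀ B : Subgroup G, B ≤ A → Nat.card B * Nat.card {v : V // ∀ b ∈ B, ρ b v = v} ≤
      Nat.card A * Nat.card {v : V // ∀ a ∈ A, ρ a v = v}) :
    IsBestOffenderOn p (holV (Multiplicative V)) (A.map (repHol ρ)) := by
  have hf := repHol_injective ρ hρ
  have hA' := isEA_map hA (repHol ρ)
  refine ⟨fun B hB => ?_, ?_, fun a ha => by rw [hA'.2 a ha]; exact one_mem _⟩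
  · obtain ⟨B, rfl⟩ : ∃ B' : Subgroup G, B = B'.map (repHol ρ) :=
      ⟨B.comap (repHol ρ), (map_comap_eq_self (hB.trans (map_le_range _ _))).symm⟩
    rw [card_holV_inf_centralizer, card_holV_inf_centralizer, Subgroup.card_map_of_injective hf,
      Subgroup.card_map_of_injective hf]
    exact hP B ((map_le_map_iff_of_injective hf).1 hB)
  · rw [commutator_eq_bot_iff_le_centralizer.2 (elemAb_le_centralizer hA')]
    exact bot_le

/-- The `P(G,V)`-theorem. -/
theorem le_normalizer_comp {p : ℕ} [Fact p.Prime] {G V : Type*} [Group G] [Finite G]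
    [AddCommGroup V] [Finite V] [Module (ZMod p) V] (ρ : Representation (ZMod p) G V)
    (hρ : Function.Injective ρ) {A : Subgroup G} (hA : IsElementaryAbelian p A)
    (hP : ∀ B : Subgroup G, B ≤ A → Nat.card B * Nat.card {v : V // ∀ b ∈ B, ρ b v = v} ≤
      Nat.card A * Nat.card {v : V // ∀ a ∈ A, ρ a v = v})
    {K : Subgroup G} (hK : IsComponent K) : A ≤ 𝐍[K] := by
  have hf := repHol_injective ρ hρ
  have hfam : Fam p (A.map (repHol ρ)) (K.map (repHol ρ)) := by
    refine ⟨(qsS_map_iff_of_injective _ hf).2 hK.2, isEA_map hA _, ?_⟩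
    rintro _ ⟨a, ha, rfl⟩
    rw [← Amb.map_cj, ← commutator_eq_bot_iff_le_centralizer, ← map_commutator, ← Amb.cj_eq_iff,
      ← Amb.map_cj]
    by_cases h : cj(a, K) = K
    · exact Or.inl (by rw [h])
    · exact Or.inr (by rw [comp_commute_of_ne (comp_conj hK a) hK h, Subgroup.map_bot])
  have h1 := hfam.le_normalizer_of_best (isEA_holV_mult V) (by rw [normalizer_eq_top]; exact le_top)
    (by rw [normalizer_eq_top]; exact le_top) (isBestOffenderOn_repHol ρ hρ hA hP) fun h =>
      comp_ne_bot hK (eq_bot_iff.2 fun k hk => mem_bot.2 (hρ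
        (((repHol_mem_centralizer_iff ρ).1 (h (mem_map_of_mem _ hk))).trans (map_one ρ).symm)))
  intro a ha
  have h2 := Amb.cj_eq_iff.2 (h1 (mem_map_of_mem _ ha))
  rw [← Amb.map_cj] at h2
  exact Amb.cj_eq_iff.1 (map_injective hf h2)

end Cfsg.Agent.PLocal.PGV
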