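import Cfsg.Agent.PLocal.SL2NatSyl
import Cfsg.Agent.PLocal.NCl
import Cfsg.Agent.Grp.CardProduct

/-!
Recognition of the natural module among the irreducible `SL₂(F)`-modules: quadratic action of a Sylow subgroup, or large
fixed space.
-/

set_option autoImplicit false

namespace Cfsg.Agent.PLocal.SL2Nat

open Subgroup Cfsg Cfsg.Agent.PLocal.Amb Matrix
open scoped MatrixGroups commutatorElement

section Module

variable {F : Type*} [Field F] {M : Type*} [AddCommGroup M] (ρ : Representation ℤ SL(2, F) M)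

theorem uu_apply_eq_add_nn (hdisj : ∀ m, (∀ a, ρ (uu a) m = m) → (∀ a, ρ (ll a) m = m) → m = 0)
    {v : M} (hv : ∀ a, ρ (ll a) v = v) (hq : ∀ a b, ρ (uu b) (ρ (uu a) v - v) = ρ (uu a) v - v)
    (a : F) (ha : a ≠ 0) : ρ (uu a) v - v = ρ (nn a ha) v ∧ ρ (nn a ha) (ρ (nn a ha) v) = -v := by
  set w := ρ (uu a) v - v with hw
  have hn1 : ∀ b, ρ (uu b) (ρ (nn a ha) v) = ρ (nn a ha) v := fun b => by
    rw [← rep_mul_apply', uu_mul_nn, rep_mul_apply', hv]
  have hn2 : ∀ b, ρ (ll b) (ρ (nn a ha) w) = ρ (nn a ha) w := fun b => by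
    rw [← rep_mul_apply', ll_mul_nn, rep_mul_apply', hw, hq]
  have e1 : ρ (nn a ha) v = ρ (uu a) v + ρ (nn a ha) w := by
    rw [← uu_ll_uu a ha, rep_mul_apply', rep_mul_apply', rep_mul_apply', rep_mul_apply', hw, hq, map_sub, hv,
      map_sub]
    abel
  have e2 : ρ (nn a ha) v - w = v + ρ (nn a ha) w := by
    rw [e1, hw]
    abel
  have e3 : ρ (nn a ha) v - w = 0 := by
    refine hdisj _ (fun b => ?_) (fun b => ?_)
    · rw [map_sub, hn1, hw, hq]
    · rw [e2, map_add, hv, hn2]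
  have e4 : w = ρ (nn a ha) v := (sub_eq_zero.1 e3).symm
  refine ⟨e4, ?_⟩
  rw [← e4, eq_neg_iff_add_eq_zero, add_comm, ← e2, e3]

theorem exists_equivariant (hdisj : ∀ m, (∀ a, ρ (uu a) m = m) → (∀ a, ρ (ll a) m = m) → m = 0)
    {v : M} (hv : ∀ a, ρ (ll a) v = v) (hq : ∀ a b, ρ (uu b) (ρ (uu a) v - v) = ρ (uu a) v - v) :
    ∃ f : (Fin 2 → F) →+ M, f ![0, 1] = v ∧ ∀ g y, f (g • y) = ρ g (f y) := by
  have H := uu_apply_eq_add_nn ρ hdisj hv hq
  let N : F →+ M := AddMonoidHom.mk' (fun a => ρ (uu a) v - v) fun a b => by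
    have h1 : ρ (uu b) v = (ρ (uu b) v - v) + v := by abel
    rw [uu_add, rep_mul_apply', h1, map_add, hq]
    abel
  have hN : ∀ a, N a = ρ (uu a) v - v := fun a => rfl
  have hNu : ∀ a b, ρ (uu b) (N a) = N a := fun a b => hq a b
  let n : SL(2, F) := nn 1 one_ne_zero
  have hnn : ∀ a, ρ n (ρ n (N a)) = -N a := fun a => by
    have h1 : n * n * uu a = uu a * (n * n) := by
      simp only [n]
      rw [nn_mul_nn, hh_mul_uu]
      simp
    have h2 : ρ n (ρ n v) = -v := (H 1 one_ne_zero).2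
    rw [hN, map_sub, map_sub, h2, ← rep_mul_apply', ← rep_mul_apply', h1, rep_mul_apply', rep_mul_apply', h2,
      map_neg]
    abel
  have hun : ∀ a y, ρ (uu a) (ρ n (N y)) = ρ n (N y) - N (a * y) := fun a y => by
    by_cases hy : y = 0
    · simp [hy]
    by_cases ha : a = 0
    · simp [ha, uu_zero]
    have hs : -((1 : F) * y⁻¹) ≠ 0 := neg_ne_zero.2 (mul_ne_zero one_ne_zero (inv_ne_zero hy))
    have h1 : ρ n (N y) = ρ (hh _ hs) v := by
      rw [hN, (H y hy).1, ← rep_mul_apply', nn_mul_nn]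
    have hay : a * y ^ 2 ≠ 0 := mul_ne_zero ha (pow_ne_zero 2 hy)
    have h2 : uu a * hh _ hs = hh _ hs * uu (a * y ^ 2) := by
      rw [hh_mul_uu]
      congr 2
      field_simp
    have h3 : ρ (uu (a * y ^ 2)) v = v + ρ (nn _ hay) v := by
      rw [← (H _ hay).1]
      abel
    have h4 : -(a * y) ≠ 0 := neg_ne_zero.2 (mul_ne_zero ha hy)
    have h5 : hh _ hs * nn _ hay = nn _ h4 := by
      rw [hh_mul_nn]
      congr 1
      field_simp
    rw [h1, ← rep_mul_apply', h2, rep_mul_apply', h3, map_add, ← rep_mul_apply', h5, ← (H _ h4).1, ← hN,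
      map_neg, sub_eq_add_neg]
  let f : (Fin 2 → F) →+ M := AddMonoidHom.mk' (fun y => N (y 0) - ρ n (N (y 1))) fun y z => by
    simp only [Pi.add_apply, map_add]
    abel
  have hf : ∀ y, f y = N (y 0) - ρ n (N (y 1)) := fun y => rfl
  have hu : ∀ a y, f (uu a • y) = ρ (uu a) (f y) := fun a y => by
    rw [hf, hf, uu_smul_zero, uu_smul_one, map_sub, hNu, hun, map_add]
    abel
  have hn : ∀ y, f (n • y) = ρ n (f y) := fun y => by
    rw [hf, hf, map_sub, hnn]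
    simp only [n, nn_smul_zero, nn_smul_one, one_mul, inv_one, neg_mul, map_neg]
    abel
  have hmul : ∀ g h : SL(2, F), (∀ y, f (g • y) = ρ g (f y)) → (∀ y, f (h • y) = ρ h (f y)) →
      ∀ y, f ((g * h) • y) = ρ (g * h) (f y) := fun g h hg hh' y => by
    rw [mul_smul, hg, hh', rep_mul_apply']
  have hinv : ∀ g : SL(2, F), (∀ y, f (g • y) = ρ g (f y)) → ∀ y, f (g⁻¹ • y) = ρ g⁻¹ (f y) := fun g hg y => by
    rw [eq_comm]
    apply rep_inv_apply'
    rw [← hg, smul_inv_smul]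
  refine ⟨f, ?_, fun g => ?_⟩
  · rw [hf]
    simp only [cons_val_zero, cons_val_one, cons_val_fin_one, map_zero]
    rw [hN, (H 1 one_ne_zero).1, (H 1 one_ne_zero).2]
    simp
  · refine uu_ll_induction (fun g => ∀ y, f (g • y) = ρ g (f y)) hu (fun a => ?_) hmul g
    have h1 : ll a = n * uu (-a) * n⁻¹ := by
      rw [eq_mul_inv_iff_mul_eq, nn_mul_uu]
      simp [n]
    rw [h1]
    exact hmul _ _ (hmul _ _ hn (hu _)) (hinv _ hn)

theorem exists_equiv_of_irred (hdisj : ∀ m, (∀ a, ρ (uu a) m = m) → (∀ a, ρ (ll a) m = m) → m = 0)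
    (hirr : ∀ N : Submodule ℤ M, (∀ g, ∀ m ∈ N, ρ g m ∈ N) → N = ⊥ ∨ N = ⊤)
    {v : M} (hv0 : v ≠ 0) (hv : ∀ a, ρ (ll a) v = v) (hq : ∀ a b, ρ (uu b) (ρ (uu a) v - v) = ρ (uu a) v - v) :
    ∃ ψ : M ≃+ (Fin 2 → F), ∀ g m, ψ (ρ g m) = g • ψ m := by
  obtain ⟨f, h1, h2⟩ := exists_equivariant ρ hdisj hv hq
  have hinj : Function.Injective f := by
    rw [injective_iff_map_eq_zero]
    intro y hy
    by_contra h0
    obtain ⟨g, hg⟩ := exists_smul_eq h0 (z := ![0, 1]) (by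
      intro e
      simpa using congrFun e 1)
    exact hv0 (by rw [← h1, ← hg, h2, hy, map_zero])
  have hsurj : Function.Surjective f := by
    rcases hirr (AddSubgroup.toIntSubmodule f.range) (by
      rintro g _ ⟨y, rfl⟩
      exact ⟨g • y, h2 g y⟩) with h | h
    · have h3 : v ∈ AddSubgroup.toIntSubmodule f.range := ⟨_, h1⟩
      rw [h] at h3
      exact absurd h3 hv0
    · intro m
      have h3 : m ∈ AddSubgroup.toIntSubmodule f.range := h ▸ Submodule.mem_top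
      exact h3
  refine ⟨(AddEquiv.ofBijective f ⟨hinj, hsurj⟩).symm, fun g m => ?_⟩
  obtain ⟨y, rfl⟩ := (AddEquiv.ofBijective f ⟨hinj, hsurj⟩).surjective m
  rw [AddEquiv.symm_apply_apply, AddEquiv.symm_apply_eq]
  exact (h2 g y).symm

end Module

variable {G : Type*} [Group G]

/-- Ambient form: `L ≃ SL₂(F)` acts irreducibly and nontrivially on `V`; `T`, `T'` are the upper and lower unitriangular
groups, and some `1 ≠ v ∈ C_V(T')` has `[v, T, T] = 1`. -/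
theorem natData_of_irred [Finite G] {F : Type*} [Field F] {L V T T' : Subgroup G} (hV : V ≤ 𝐂[V]) (hL : L ≤ 𝐍[V])
    (e : L ≃* SL(2, F)) (hT : ∀ g : L, (g : G) ∈ T ↔ e g ∈ Up F) (hT' : ∀ g : L, (g : G) ∈ T' ↔ e g ∈ Lo F)
    (hTL : T ≤ L) (hTL' : T' ≤ L) (hirr : ∀ U : Subgroup G, U ≤ V → L ≤ 𝐍[U] → U = ⊥ ∨ U = V)
    (hdisj : V ⊓ 𝐂[T] ⊓ 𝐂[T'] = ⊥) {v : G} (hv : v ∈ V) (hv1 : v ≠ 1) (hvT' : v ∈ 𝐂[T'])
    (hq : ∀ t ∈ T, ⁅t, v⁆ ∈ 𝐂[T]) : Nonempty (NatData F L V ⊥) := by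
  have h : SecHyp L V ⊥ := ⟨bot_le, le_of_eq (commutator_eq_bot_iff_le_centralizer.2 hV), hL, le_normalizer_iff_cj.2 fun g _ => (cj_bot g).le⟩
  let ρ : Representation ℤ SL(2, F) (Sec h) := (Sec.rep h).comp e.symm.toMonoidHom
  have hρ : ∀ g, ρ g = Sec.rep h (e.symm g) := fun g => rfl
  have hu : ∀ a, (e.symm (uu a) : G) ∈ T := fun a => (hT _).2 (by simpa using uu_mem a)
  have hl : ∀ a, (e.symm (ll a) : G) ∈ T' := fun a => (hT' _).2 (by simpa using ll_mem a)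
  have hfix : ∀ {x : G}, x ∈ V → ∀ g : L, Sec.rep h g (Sec.pr h x) = Sec.pr h x ↔ (g : G) * x = x * g :=
    fun hx g => by rw [Sec.rep_pr_eq_iff h g hx, mem_bot, commutatorElement_eq_one_iff_mul_comm]
  obtain ⟨ψ, hψ⟩ := exists_equiv_of_irred ρ (v := Sec.pr h v) (fun m h1 h2 => by
      obtain ⟨x, hx, rfl⟩ := Sec.exists_pr_eq h m
      rw [Sec.pr_eq_zero h hx, ← hdisj]
      refine ⟨⟨hx, ?_⟩, ?_⟩
      · change x ∈ 𝐂[T]
        rw [mem_centralizer_iff]
        intro t ht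
        obtain ⟨a, ha⟩ := (hT ⟨t, hTL ht⟩).1 ht
        have h3 := h1 a
        rw [hρ, ha, e.symm_apply_apply, hfix hx] at h3
        exact h3
      · change x ∈ 𝐂[T']
        rw [mem_centralizer_iff]
        intro t ht
        obtain ⟨a, ha⟩ := (hT' ⟨t, hTL' ht⟩).1 ht
        have h3 := h2 a
        rw [hρ, ha, e.symm_apply_apply, hfix hx] at h3
        exact h3)
    (fun N hN => by
      rcases hirr (Sec.grp h N) (Sec.grp_le h N) (Sec.le_normalizer_grp h le_rfl fun g hg m hm => by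
        have h1 := hN (e ⟨g, hg⟩) m hm
        rwa [hρ, e.symm_apply_apply] at h1) with h1 | h1
      · left
        rw [← Sec.sub_grp h N, Sec.sub_eq_bot_iff h (Sec.grp_le h N), h1]
      · right
        rw [eq_top_iff]
        intro m _
        obtain ⟨x, hx, rfl⟩ := Sec.exists_pr_eq h m
        rw [← h1] at hx
        exact hx.2)
    (by rwa [Ne, Sec.pr_eq_zero h hv, mem_bot])
    (fun a => by
      rw [hρ, hfix hv]
      exact mem_centralizer_iff.1 hvT' _ (hl a))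
    (fun a b => by
      rw [hρ, hρ, Sec.rep_pr_sub h _ hv, hfix (Sec.comm_mem h (e.symm (uu a)).2 hv)]
      exact mem_centralizer_iff.1 (hq _ (hu a)) _ (hu b))
  refine ⟨natDataOfSec h e.toMonoidHom e.surjective ψ fun g m => ?_⟩
  have h1 := hψ (e g) m
  rw [hρ, e.symm_apply_apply] at h1
  exact h1

theorem natData_of_quad_or_small [Finite G] {p : ℕ} [Fact p.Prime] {F : Type*} [Field F] [Fintype F] [CharP F p]
    {L V T : Subgroup G} (hV : V ≤ 𝐂[V]) (hVp : IsPGroup p V) (hL : L ≤ 𝐍[V]) (e₀ : L ≃* SL(2, F))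
    (hirr : ∀ U : Subgroup G, U ≤ V → L ≤ 𝐍[U] → U = ⊥ ∨ U = V) (hnt : ⁅V, L⁆ ≠ ⊥) (hT : IsSyl p T L)
    (hyp : ⁅⁅V, T⁆, T⁆ = ⊥ ∨ Nat.card V ≤ Nat.card ↥(V ⊓ 𝐂[T]) ^ 2) : Nonempty (NatData F L V ⊥) := by
  obtain ⟨S, rfl⟩ := hT.exists_sylow_map
  have h1 : IsSyl p ((S : Subgroup L).map e₀.toMonoidHom) ⊤ := by
    have h2 := (isSyl_top S).map e₀.toMonoidHom
    rwa [map_top_of_surjective _ e₀.surjective] at h2
  obtain ⟨s, hs⟩ := exists_cj_eq_Up h1
  let e : L ≃* SL(2, F) := e₀.trans (MulAut.conj s)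
  set T := (S : Subgroup L).map L.subtype with hTdef
  have hTe : ∀ g : L, (g : G) ∈ T ↔ e g ∈ Up F := fun g => by
    rw [hTdef, mem_map_subtype, ← hs]
    change _ ↔ s * e₀ g * s⁻¹ ∈ _
    rw [conj_mem_cj_iff]
    exact (mem_map_iff_mem (f := e₀.toMonoidHom) e₀.injective).symm
  let n : L := e.symm (nn 1 one_ne_zero)
  have hTe' : ∀ g : L, (g : G) ∈ cj((n : G), T) ↔ e g ∈ Lo F := fun g => by
    rw [← cj_nn_Up 1 one_ne_zero, mem_cj, mem_cj]
    have h2 := hTe (n⁻¹ * g * n)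
    simpa [n] using h2
  have hT' := hT.cj_of_mem n.2
  have hLT : L ≤ T ⊔ cj((n : G), T) := by
    intro g hg
    have h2 : ∀ x : SL(2, F), (e.symm x : G) ∈ T ⊔ cj((n : G), T) := fun x => by
      refine uu_ll_induction (fun x => (e.symm x : G) ∈ T ⊔ cj((n : G), T)) (fun a => ?_) (fun a => ?_)
        (fun x y hx hy => ?_) x
      · exact mem_sup_left ((hTe _).2 (by simpa using uu_mem a))
      · exact mem_sup_right ((hTe' _).2 (by simpa using ll_mem a))
      · rw [map_mul]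
        exact mul_mem hx hy
    simpa using h2 (e ⟨g, hg⟩)
  have hdisj : V ⊓ 𝐂[T] ⊓ 𝐂[cj((n : G), T)] = ⊥ := by
    rw [inf_assoc, ← centralizer_sup, eq_bot_iff]
    refine (inf_le_inf_left _ (centralizer_anti hLT)).trans (le_of_eq ?_)
    refine (hirr _ inf_le_left (le_normalizer_inf hL (le_normalizer_centralizer le_normalizer))).resolve_right ?_
    intro h2
    exact hnt (commutator_eq_bot_iff_le_centralizer.2 (h2 ▸ inf_le_right))
  have hV0 : V ≠ ⊥ := by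
    rintro rfl
    exact hnt (commutator_bot_left _)
  have hM₂ := inf_centralizer_ne_bot hT'.pgrp hVp (hT'.le.trans hL) hV0
  rcases hyp with hq | hc
  · obtain ⟨⟨v, hv⟩, hv1⟩ := ne_bot_iff_exists_ne_one.1 hM₂
    refine natData_of_irred hV hL e hTe hTe' hT.le hT'.le hirr hdisj hv.1 (fun h => hv1 (Subtype.ext h)) hv.2
      fun t ht => ?_
    rw [commutator_eq_bot_iff_le_centralizer, commutator_comm] at hq
    exact hq (commutator_mem_commutator ht hv.1)
  · have h2 : ¬ V ≤ V ⊓ 𝐂[T] := fun h => hM₂ (by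
      rw [← hdisj, inf_eq_left.2 (h.trans inf_le_right)])
    obtain ⟨c, hc1, hc2, hc3⟩ := CP.exists_notMem_commutator_mem hVp hT.pgrp (hT.le.trans hL) h2
    have h3 : Nat.card ↥(V ⊓ 𝐂[cj((n : G), T)]) = Nat.card ↥(V ⊓ 𝐂[T]) := by
      rw [centralizer_cj, ← card_cj (n : G) (V ⊓ 𝐂[T]), cj_inf, cj_of_mem_normalizer (hL n.2)]
    have h4 : (V ⊓ 𝐂[T]) ⊓ (V ⊓ 𝐂[cj((n : G), T)]) = ⊥ := by
      rw [← hdisj, ← inf_assoc, inf_right_comm V, inf_idem]
    have h5 := Grp.coe_eq_mul_of_card_le (L := V) (H := V ⊓ 𝐂[T]) (K := V ⊓ 𝐂[cj((n : G), T)]) inf_le_left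
      inf_le_left (by rwa [h4, card_bot, one_mul, h3, ← sq])
    have h6 : c ∈ (V : Set G) := hc1
    rw [h5] at h6
    obtain ⟨a, ha, v, hv, rfl⟩ := h6
    refine natData_of_irred hV hL e hTe hTe' hT.le hT'.le hirr hdisj hv.1 (fun h => hc2 ?_) hv.2 fun t ht => ?_
    · simpa [h] using ha
    · have h7 := (hc3 t (mem_sup_right ht)).2.2
      have h8 : ⁅a, t⁆ = 1 := commutatorElement_eq_one_iff_mul_comm.2 (mem_centralizer_iff.1 ha.2 t ht).symm
      rw [commutatorElement_mul_left_eq_conj_mul, h8, mul_one] at h7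
      have h9 := (𝐂[T]).mul_mem ((𝐂[T]).mul_mem ((𝐂[T]).inv_mem ha.2) h7) ha.2
      rw [← commutatorElement_inv]
      refine inv_mem ?_
      simpa [mul_assoc] using h9

end Cfsg.Agent.PLocal.SL2Nat
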