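import Cfsg.Agent.PLocal.SL2NatFF

/-!
A minimal parabolic group generated by two conjugates of a minimal offender is `SL₂(q)` acting naturally.
-/

set_option autoImplicit false

namespace Cfsg.Agent.PLocal.SL2Nat

open Subgroup Cfsg Cfsg.Agent.PLocal.Amb Matrix
open scoped MatrixGroups commutatorElement

variable {G : Type*} [Group G]

/-- Counting with the homomorphism `a ↦ [a, v] U₀`. -/
theorem card_mul_le_of_comm [Finite G] {L U U₀ A A₀ Y : Subgroup G} (h : SecHyp L U U₀) (hA : A ≤ L) {v : G}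
    (hv : v ∈ U) (h0 : U₀ ≤ Y) (hY : Y ≤ U) (h1 : ∀ a ∈ A, ⁅a, v⁆ ∈ Y) (h2 : ∀ a ∈ A, ∀ y ∈ Y, ⁅a, y⁆ ∈ U₀)
    (h3 : ∀ a ∈ A, ⁅a, v⁆ ∈ U₀ → a ∈ A₀) : Nat.card A * Nat.card U₀ ≤ Nat.card ↥(A ⊓ A₀) * Nat.card Y := by
  let f : A →* Multiplicative (Sec.sub h Y) := MonoidHom.mk'
    (fun a => Multiplicative.ofAdd ⟨Sec.pr h ⁅(a : G), v⁆, Sec.pr_mem_sub h (h1 a a.2) (hY (h1 a a.2))⟩)
    fun a b => by
      rw [← ofAdd_add]
      congr 1
      apply Subtype.ext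
      change Sec.pr h ⁅(a : G) * b, v⁆ = Sec.pr h ⁅(a : G), v⁆ + Sec.pr h ⁅(b : G), v⁆
      have h4 : ⁅(a : G) * b, v⁆ = ⁅(a : G), ⁅(b : G), v⁆⁆ * ⁅(b : G), v⁆ * ⁅(a : G), v⁆ := by
        simp only [commutatorElement_def]
        group
      have h5 := h2 a a.2 _ (h1 b b.2)
      rw [h4, Sec.pr_mul h (U.mul_mem (h.le h5) (hY (h1 b b.2))) (hY (h1 a a.2)),
        Sec.pr_mul h (h.le h5) (hY (h1 b b.2)), (Sec.pr_eq_zero h (h.le h5)).2 h5, zero_add, add_comm]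
  have hk : f.ker ≤ (A ⊓ A₀).subgroupOf A := fun a ha => ⟨a.2, h3 a a.2
    ((Sec.pr_eq_zero h (Sec.comm_mem h (hA a.2) hv)).1
      (congrArg (fun z => (Multiplicative.toAdd z : Sec.sub h Y).1) ha))⟩
  have h4 := card_le_of_le hk
  rw [Grp.card_subgroupOf_of_le inf_le_left] at h4
  have h5 : Nat.card f.range ≤ Nat.card (Sec.sub h Y) := card_le_card_group f.range
  rw [← Sec.card_sub_mul h h0 hY, ← Grp.card_quotient_mul_card f.ker,
    Nat.card_congr (QuotientGroup.quotientKerEquivRange f).toEquiv, ← mul_assoc, mul_comm (Nat.card f.range)]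
  exact Nat.mul_le_mul_right _ (Nat.mul_le_mul h4 h5)

/-- Elements all of whose conjugates lie in the unique maximal overgroup of a Sylow subgroup are in `O_p`. -/
theorem mem_pCoreOf_of_forall_conj [Finite G] {p : ℕ} [Fact p.Prime] {P T M : Subgroup G} (hT : IsSyl p T P)
    (hMP : ¬ P ≤ M) (hmax : ∀ X, T ≤ X → X ≤ P → X ≠ P → X ≤ M) {a : G} (ha : a ∈ T)
    (h : ∀ g ∈ P, g⁻¹ * a * g ∈ M) : a ∈ pCoreOf p P := by
  let N : Subgroup G :=
    { carrier := {y | y ∈ P ∧ ∀ g ∈ P, g⁻¹ * y * g ∈ M}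
      one_mem' := ⟨P.one_mem, fun g _ => by simp⟩
      mul_mem' := by
        rintro y z ⟨hy, hy'⟩ ⟨hz, hz'⟩
        refine ⟨P.mul_mem hy hz, fun g hg => ?_⟩
        simpa [mul_assoc] using M.mul_mem (hy' g hg) (hz' g hg)
      inv_mem' := by
        rintro y ⟨hy, hy'⟩
        refine ⟨P.inv_mem hy, fun g hg => ?_⟩
        simpa [mul_assoc] using M.inv_mem (hy' g hg) }
  have hNP : N ≤ P := fun y hy => hy.1
  have hNM : N ≤ M := fun y hy => by simpa using hy.2 1 P.one_mem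
  have hn : P ≤ 𝐍[N] := by
    rw [le_normalizer_iff_cj]
    intro g hg
    rw [cj_le_iff_forall]
    rintro y ⟨hy, hy'⟩
    refine ⟨P.mul_mem (P.mul_mem hg hy) (P.inv_mem hg), fun k hk => ?_⟩
    simpa [mul_assoc] using hy' (g⁻¹ * k) (P.mul_mem (P.inv_mem hg) hk)
  have h1 := (hT.inf_of_le hNP hn).frattini_sup hNP hn
  have h2 : P ⊓ 𝐍[(T ⊓ N : Subgroup G)] = P := by
    by_contra h2
    exact hMP (h1 ▸ sup_le hNM (hmax _ (le_inf hT.le (le_normalizer_inf le_normalizer (hT.le.trans hn)))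
      inf_le_left h2))
  exact le_pCoreOf (hT.pgrp.to_le inf_le_left) (inf_le_left.trans hT.le) (inf_eq_left.1 h2) ⟨ha, hT.le ha, h⟩

theorem minimal_offender [Finite G] {p : ℕ} [Fact p.Prime] {V P T M A : Subgroup G}
    (hV : IsElementaryAbelian p V) (hPV : P ≤ 𝐍[V]) (hf : P ⊓ 𝐂[V] = ⊥) (hT : IsSyl p T P) (hTM : T ≤ M)
    (hM : M ≤ P) (hMP : ¬ P ≤ M) (hmax : ∀ X, T ≤ X → X ≤ P → X ≠ P → X ≤ M) (hAT : A ≤ T)
    (hA : IsElementaryAbelian p A) (hc : Nat.card V ≤ Nat.card A * Nat.card ↥(V ⊓ 𝐂[A]))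
    (hlt : ∀ A₀ ≤ A, A₀ ≠ ⊥ → A₀ ≠ A → Nat.card A₀ * Nat.card ↥(V ⊓ 𝐂[A₀]) < Nat.card A * Nat.card ↥(V ⊓ 𝐂[A]))
    (hZ : ¬ V ⊓ 𝐂[T] ≤ 𝐂[P]) (hgen : ∀ x ∈ P, x ∉ M → A ⊔ cj(x, A) = P) :
    pCoreOf p P = ⊥ ∧ A ≠ ⊥ ∧ ∀ x ∈ P, x ∉ M → AmbOff P A M ⊥ V (V ⊓ 𝐂[A]) (V ⊓ 𝐂[P]) x := by
  have hVc : V ≤ 𝐂[V] := fun a ha b hb => (isEA_iff.1 hV).1 b hb a ha
  have hAP : A ≤ P := hAT.trans hT.le
  obtain ⟨x₀, hx₀, hx₀M⟩ := SetLike.not_le_iff_exists.1 hMP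
  have hA0 : A ≠ ⊥ := by
    rintro rfl
    apply hZ
    rw [← hgen x₀ hx₀ hx₀M, cj_bot, sup_idem, centralizer_bot']
    exact le_top
  -- quadratic action
  have hq : ⁅V, A⁆ ≤ 𝐂[A] := by
    have hbest : IsBestOffenderOn p V A := by
      refine ⟨fun B hB => ?_, ?_, fun a ha => by rw [hA.2 a ha]; exact one_mem _⟩
      · by_cases h0 : B = ⊥
        · subst h0
          rwa [card_bot, one_mul, centralizer_bot', inf_top_eq]
        by_cases h1 : B = A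
        · rw [h1]
        exact (hlt B hB h0 h1).le
      · rw [commutator_eq_bot_iff_le_centralizer.2 fun a ha b hb => (isEA_iff.1 hA).1 b hb a ha]
        exact bot_le
    obtain ⟨-, -, h1, h2⟩ := timmesfeld hV (hAP.trans hPV) hbest le_rfl
    have h3 : ⁅V, A⁆ ≠ ⊥ := by
      intro h
      rw [commutator_comm, commutator_eq_bot_iff_le_centralizer] at h
      exact hA0 (le_bot_iff.1 (hf ▸ le_inf hAP h))
    by_contra h4
    refine (hlt _ inf_le_left (fun h => h2 h3 (by rw [h, commutator_bot_right])) fun h => h4 ?_).ne h1.symm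
    exact le_centralizer_iff.1 (inf_eq_left.1 h)
  have hsec : SecHyp P V (V ⊓ 𝐂[P]) := ⟨inf_le_left,
    by rw [commutator_eq_bot_iff_le_centralizer.2 hVc]; exact bot_le, hPV,
    le_normalizer_inf hPV (le_normalizer_centralizer le_normalizer)⟩
  have hdisj : ∀ g ∈ P, ∀ g' ∈ P, g⁻¹ * g' ∉ M → 𝐂[cj(g, A)] ⊓ 𝐂[cj(g', A)] ≤ 𝐂[P] := by
    intro g hg g' hg' h
    have h1 := congrArg (fun X => cj(g, X)) (hgen _ (P.mul_mem (P.inv_mem hg) hg') h)
    rw [cj_sup, ← cj_mul, mul_inv_cancel_left, cj_of_mem hg] at h1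
    rw [← Amb.centralizer_sup, h1]
  have hfree : ∀ g ∈ P, ∀ a ∈ A, g⁻¹ * a * g ∉ M → ∀ v ∈ 𝐂[cj(g, A)], ⁅a, v⁆ ∈ 𝐂[P] → v ∈ 𝐂[P] := by
    intro g hg a ha h v hv hav
    refine hdisj g hg (a⁻¹ * g) (P.mul_mem (P.inv_mem (hAP ha)) hg) (fun H => h ?_) (mem_inf.2 ⟨hv, ?_⟩)
    · simpa [mul_assoc] using M.inv_mem H
    · rw [cj_mul, centralizer_cj, mem_cj, inv_inv]
      have h1 : a * v * a⁻¹ = ⁅a, v⁆ * v := by simp [commutatorElement_def]
      rw [h1]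
      exact mul_mem (centralizer_anti (cj_le_of_mem hAP hg) hav) hv
  obtain ⟨z, hz, hzP⟩ := SetLike.not_le_iff_exists.1 hZ
  have hall : ∀ x ∈ P, x ∉ M → ∀ a ∈ A, x⁻¹ * a * x ∈ M → a ∈ pCoreOf p P := by
    intro x' hx' hx'M a ha hax'
    refine mem_pCoreOf_of_forall_conj hT hMP hmax (hAT ha) fun x hx => ?_
    by_contra hax
    have hxM : x ∉ M := fun h => hax (M.mul_mem (M.mul_mem (M.inv_mem h) (hTM (hAT ha))) h)
    obtain ⟨m, hm, h1⟩ := (hT.mono hTM hM).exists_le_cj (R := zpowers (x'⁻¹ * a * x'))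
      (isPGroup_zpowers ⟨1, by rw [pow_one, ← inv_inv x', inv_inv x'⁻¹, conj_pow, hA.2 a ha]; simp⟩)
      (zpowers_le.2 hax')
    have h2 : a ∈ cj(x' * m, T) := by
      rw [cj_mul, mem_cj]
      exact h1 (mem_zpowers _)
    have hy : x' * m ∈ P := P.mul_mem hx' (hM hm)
    have hyM : x' * m ∉ M := fun h => hx'M (by simpa using M.mul_mem h (M.inv_mem hm))
    generalize x' * m = y at h2 hy hyM
    have hz' : y * z * y⁻¹ ∈ 𝐂[cj(y, T)] := by
      rw [centralizer_cj]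
      exact ⟨z, hz.2, rfl⟩
    have hY : ⁅V, P⁆ ≤ (V ⊓ 𝐂[A]) ⊔ (V ⊓ 𝐂[cj(x, A)]) := by
      have h3 : ⁅V, A⁆ ≤ V ⊓ 𝐂[A] := le_inf (le_normalizer_iff_commutator_le_left.1 (hAP.trans hPV)) hq
      have h4 : ⁅V, cj(x, A)⁆ ≤ V ⊓ 𝐂[cj(x, A)] := by
        have := cj_mono x h3
        rwa [← commutator_cj, cj_inf, cj_of_mem_normalizer (hPV hx), ← centralizer_cj] at this
      have h5 : (V ⊓ 𝐂[A]) ⊔ (V ⊓ 𝐂[cj(x, A)]) ≤ V := sup_le inf_le_left inf_le_left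
      conv_lhs => rw [← hgen x hx hxM]
      exact CommMod.commutator_sup_le'
        (le_normalizer_iff_commutator_le_left.2
          ((commutator_mono h5 le_rfl).trans (h3.trans le_sup_left)))
        (le_normalizer_iff_commutator_le_left.2
          ((commutator_mono h5 le_rfl).trans (h4.trans le_sup_right)))
        (h3.trans le_sup_left) (h4.trans le_sup_right)
    have h3 : y * z * y⁻¹ ∈ (V ⊓ 𝐂[A]) ⊔ (V ⊓ 𝐂[cj(x, A)]) := by
      have h4 : y * z * y⁻¹ = ⁅y, z⁆ * z := by simp [commutatorElement_def]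
      rw [h4]
      refine mul_mem (hY ?_) (mem_sup_left ⟨hz.1, centralizer_anti hAT hz.2⟩)
      rw [commutator_comm]
      exact commutator_mem_commutator hy hz.1
    obtain ⟨u, hu, v, hv, huv⟩ := (mem_sup_of_le_normalizer_right
      (le_normalizer_of_comm (isEA_iff.1 hV).1 inf_le_left inf_le_left)).1 h3
    have h4 : ⁅a, v⁆ = 1 := by
      have h5 := hz' a h2
      rw [huv, ← mul_assoc, hu.2 a ha, mul_assoc, mul_assoc, mul_right_inj] at h5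
      exact commutatorElement_eq_one_iff_mul_comm.2 h5
    have h5 : v ∈ 𝐂[P] := hfree x hx a ha hax v hv.2 (by rw [h4]; exact one_mem _)
    have h6 : y * z * y⁻¹ ∈ 𝐂[P] := by
      refine hdisj 1 P.one_mem y hy (by simpa using hyM) ⟨?_, centralizer_anti (cj_mono y hAT) hz'⟩
      rw [cj_one, huv]
      exact mul_mem hu.2 (centralizer_anti hAP h5)
    apply hzP
    simpa [mul_assoc] using inv_conj_mem_of_mem_normalizer (le_normalizer_centralizer le_normalizer hy) h6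
  set Q := pCoreOf p P with hQ
  set W := V ⊓ 𝐂[Q] with hW
  have hPW : P ≤ 𝐍[W] := le_normalizer_inf hPV (le_normalizer_centralizer (le_normalizer_pCoreOf p P))
  have hCW : V ⊓ 𝐂[P] ≤ W ⊓ 𝐂[A] := le_inf (inf_le_inf_left _ (centralizer_anti (pCoreOf_le p P)))
    (inf_le_right.trans (centralizer_anti hAP))
  have hcount : Nat.card A * Nat.card ↥(V ⊓ 𝐂[P]) ≤ Nat.card ↥(A ⊓ Q) * Nat.card ↥(W ⊓ 𝐂[A]) := by
    have h1 : x₀ * z * x₀⁻¹ ∈ W :=
      conj_mem_of_mem_normalizer (hPW hx₀) ⟨hz.1, centralizer_anti hT.pCoreOf_le hz.2⟩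
    refine card_mul_le_of_comm hsec hAP h1.1 hCW (inf_le_left.trans inf_le_left) (fun a ha => ⟨?_, hq ?_⟩)
      (fun a ha y hy => by rw [comm_eq_one_of_mem_centralizer ha hy.2]; exact one_mem _) fun a ha h => ?_
    · exact comm_mem_of_normalizer (hPW (hAP ha)) h1
    · rw [commutator_comm]
      exact commutator_mem_commutator ha h1.1
    · by_contra h2
      have h3 := hfree x₀ hx₀ a ha (fun H => h2 (hall x₀ hx₀ hx₀M a ha H)) _
        (by rw [centralizer_cj]; exact ⟨z, centralizer_anti hAT hz.2, rfl⟩) h.2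
      apply hzP
      simpa [mul_assoc] using inv_conj_mem_of_mem_normalizer (le_normalizer_centralizer le_normalizer hx₀) h3
  have hAQ : A ⊓ Q = ⊥ := by
    by_contra h0
    have h1 : A ⊓ Q ≠ A := by
      intro h
      have h2 : A ≤ Q := inf_eq_left.1 h
      have h3 := hgen x₀ hx₀ hx₀M
      exact hMP (h3 ▸ (sup_le h2 (cj_le_of_mem_normalizer h2 (le_normalizer_pCoreOf p P hx₀))).trans
        (hT.pCoreOf_le.trans hTM))
    have h2 := hlt _ inf_le_left h0 h1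
    have h3 := Grp.card_mul_card_le_of_le (H := cj(x₀, W ⊓ 𝐂[A])) (K := V ⊓ 𝐂[A]) (L := V ⊓ 𝐂[(A ⊓ Q : Subgroup G)])
      ((cj_le_of_mem_normalizer inf_le_left (hPW hx₀)).trans (inf_le_inf_left _ (centralizer_anti inf_le_right)))
      (inf_le_inf_left _ (centralizer_anti inf_le_left))
    have h4 : cj(x₀, W ⊓ 𝐂[A]) ⊓ (V ⊓ 𝐂[A]) ≤ V ⊓ 𝐂[P] := by
      rintro v ⟨hv, hv'⟩
      refine ⟨hv'.1, hdisj 1 P.one_mem x₀ hx₀ (by simpa using hx₀M) ⟨by rw [cj_one]; exact hv'.2, ?_⟩⟩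
      rw [centralizer_cj]
      exact cj_mono x₀ inf_le_right hv
    have h5 := card_le_of_le h4
    rw [card_cj] at h3
    have h6 : 0 < Nat.card ↥(V ⊓ 𝐂[P]) := Nat.card_pos
    have h7 : 0 < Nat.card ↥(V ⊓ 𝐂[A]) := Nat.card_pos
    have h8 := Nat.mul_le_mul_left (Nat.card ↥(A ⊓ Q)) (h3.trans (Nat.mul_le_mul_right _ h5))
    have h9 := Nat.mul_le_mul_right (Nat.card ↥(V ⊓ 𝐂[A])) hcount
    have h10 := Nat.mul_lt_mul_of_pos_left h2 h6
    nlinarith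
  have hoff : ∀ x ∈ P, x ∉ M → AmbOff P A M ⊥ V (V ⊓ 𝐂[A]) (V ⊓ 𝐂[P]) x := fun x hx hxM =>
    ambOff_module hVc hPV hAP (hAT.trans hTM) hx hxM le_normalizer_of_normal (by simp)
      (fun g hg hgM => by rw [hgen g hg hgM]; exact le_sup_left)
      (fun g hg hgM a ha h => hAQ ▸ (⟨ha, hall g hg hgM a ha h⟩ : a ∈ A ⊓ Q)) hq
      (fun h => hZ ((inf_le_inf_left _ (centralizer_anti hAT)).trans h)) (by simpa using hc)
  refine ⟨?_, hA0, hoff⟩
  have o := hoff x₀ hx₀ hx₀M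
  have h1 : W ⊓ 𝐂[A] = V ⊓ 𝐂[A] := by
    refine eq_of_le_of_card_ge (inf_le_inf_right _ inf_le_left) ?_
    have h2 := o.card_U₁
    rw [hAQ, card_bot, one_mul] at hcount
    rw [inf_bot_eq, card_bot, mul_one] at h2
    rwa [h2]
  have h2 : V ⊓ 𝐂[A] ≤ W := h1 ▸ inf_le_left
  have h3 : V ≤ W := o.le_sup.trans (sup_le h2 (cj_le_of_mem_normalizer h2 (hPW hx₀)))
  exact le_bot_iff.1 (hf ▸ le_inf (pCoreOf_le p P) (le_centralizer_iff.1 (h3.trans inf_le_right)))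

end Cfsg.Agent.PLocal.SL2Nat
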