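import Cfsg.Agent.PLocal.SL2NatMore
import Cfsg.Prelude.Def_TwoFusion

/-!
Action of a Sylow `p`-subgroup on a faithful natural `SL₂(F)`-module.
-/

set_option autoImplicit false

namespace Cfsg.Agent.PLocal.SL2Nat

open Subgroup Cfsg Cfsg.Agent.PLocal.Amb Matrix
open scoped MatrixGroups commutatorElement

variable {G : Type*} [Group G]

namespace NatData

variable {F : Type*} [Field F] {L V : Subgroup G}

theorem ψ_inj (D : NatData F L V ⊥) {u v : G} (hu : u ∈ V) (hv : v ∈ V) (h : D.ψ u = D.ψ v) : u = v := by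
  have h1 := (D.ψ_eq_iff hu hv).1 h
  rw [mem_bot, inv_mul_eq_one] at h1
  exact h1

theorem mul_comm' (D : NatData F L V ⊥) {u v : G} (hu : u ∈ V) (hv : v ∈ V) : u * v = v * u :=
  D.ψ_inj (V.mul_mem hu hv) (V.mul_mem hv hu) (by rw [D.ψ_mul u hu v hv, D.ψ_mul v hv u hu, add_comm])

theorem commute_iff (D : NatData F L V ⊥) {g v : G} (hg : g ∈ L) (hv : v ∈ V) :
    g * v = v * g ↔ D.φ ⟨g, hg⟩ • D.ψ v = D.ψ v := by
  rw [← D.ψ_conj' hg hv]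
  constructor
  · intro h
    rw [h, mul_inv_cancel_right]
  · intro h
    rw [← mul_inv_eq_iff_eq_mul]
    exact D.ψ_inj (D.conj_mem hg hv) hv h

theorem φ_inj (D : NatData F L V ⊥) (hf : L ⊓ 𝐂[V] = ⊥) : Function.Injective D.φ := by
  rw [injective_iff_map_eq_one]
  intro g hg
  have h1 : (g : G) ∈ L ⊓ 𝐂[V] := by
    refine ⟨g.2, ?_⟩
    change (g : G) ∈ 𝐂[V]
    rw [mem_centralizer_iff]
    intro v hv
    exact ((D.commute_iff g.2 hv).2 (by simp [hg])).symm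
  rw [hf, mem_bot] at h1
  exact Subtype.ext h1

/-- `T` corresponds to the upper unitriangular group. -/
structure UpStd (D : NatData F L V ⊥) (T : Subgroup G) : Prop where
  le : T ≤ L
  inj : Function.Injective D.φ
  iff : ∀ g : L, (g : G) ∈ T ↔ D.φ g ∈ Up F

theorem exists_upStd [Finite G] [Fintype F] {p : ℕ} [Fact p.Prime] [CharP F p] (D : NatData F L V ⊥)
    (hf : L ⊓ 𝐂[V] = ⊥) {T : Subgroup G} (hT : IsSyl p T L) : ∃ D' : NatData F L V ⊥, D'.UpStd T := by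
  obtain ⟨s, hs⟩ := exists_cj_eq_Up (D.isSyl_map hT)
  refine ⟨D.conj s, hT.le, (D.conj s).φ_inj hf, fun g => ?_⟩
  rw [conj_φ, ← hs, conj_mem_cj_iff]
  constructor
  · intro h
    exact ⟨g, h, rfl⟩
  · rintro ⟨g', h, e⟩
    rw [← D.φ_inj hf e]
    exact h

namespace UpStd

variable {D : NatData F L V ⊥} {T : Subgroup G} (h : D.UpStd T)
include h

theorem exists_uu {t : G} (ht : t ∈ T) : ∃ a, D.φ ⟨t, h.le ht⟩ = uu a := by
  obtain ⟨a, ha⟩ := (h.iff ⟨t, h.le ht⟩).1 ht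
  exact ⟨a, ha.symm⟩

theorem exists_mem (a : F) : ∃ t, ∃ ht : t ∈ T, D.φ ⟨t, h.le ht⟩ = uu a := by
  obtain ⟨g, hg⟩ := D.φ_surj (uu a)
  exact ⟨g, (h.iff g).2 (hg ▸ uu_mem a), hg⟩

theorem exists_uu_ne {t : G} (ht : t ∈ T) (h1 : t ≠ 1) : ∃ a, a ≠ 0 ∧ D.φ ⟨t, h.le ht⟩ = uu a := by
  obtain ⟨a, ha⟩ := h.exists_uu ht
  refine ⟨a, ?_, ha⟩
  rintro rfl
  rw [uu_zero] at ha
  exact h1 (congrArg Subtype.val (h.inj (ha.trans (map_one D.φ).symm)))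

theorem mem_cent {v : G} (hv : v ∈ V) : v ∈ 𝐂[T] ↔ D.ψ v 1 = 0 := by
  rw [mem_centralizer_iff]
  constructor
  · intro H
    obtain ⟨t, ht, e⟩ := h.exists_mem 1
    have h1 := (D.commute_iff (h.le ht) hv).1 (H t ht)
    rw [e] at h1
    simpa using congrFun h1 0
  · intro H t ht
    obtain ⟨a, e⟩ := h.exists_uu ht
    rw [D.commute_iff (h.le ht) hv, e]
    exact vec_ext (by simp [H]) (by simp)

theorem mem_C {v : G} : v ∈ V ⊓ 𝐂[T] ↔ v ∈ V ∧ D.ψ v 1 = 0 :=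
  ⟨fun H => ⟨H.1, (h.mem_cent H.1).1 H.2⟩, fun H => ⟨H.1, (h.mem_cent H.1).2 H.2⟩⟩

theorem inf_centralizer_singleton {s : G} (hs : s ∈ T) (h1 : s ≠ 1) :
    V ⊓ centralizer ({s} : Set G) = V ⊓ 𝐂[T] := by
  obtain ⟨a, ha, e⟩ := h.exists_uu_ne hs h1
  ext v
  rw [h.mem_C, mem_inf, mem_centralizer_singleton_iff]
  refine and_congr_right fun hv => ?_
  rw [eq_comm, D.commute_iff (h.le hs) hv, e]
  constructor
  · intro H
    simpa [ha] using congrFun H 0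
  · intro H
    exact vec_ext (by simp [H]) (by simp)

theorem comm_mem_C {t v : G} (ht : t ∈ T) (hv : v ∈ V) : ⁅t, v⁆ ∈ V ⊓ 𝐂[T] := by
  obtain ⟨a, e⟩ := h.exists_uu ht
  rw [h.mem_C, D.ψ_comm (h.le ht) hv, e]
  exact ⟨D.comm_mem (h.le ht) hv, by simp⟩

theorem commutator_le_C : ⁅V, T⁆ ≤ V ⊓ 𝐂[T] := by
  rw [commutator_comm, commutator_le]
  exact fun t ht v hv => h.comm_mem_C ht hv

theorem C_le_commutator_zpowers {s : G} (hs : s ∈ T) (h1 : s ≠ 1) : V ⊓ 𝐂[T] ≤ ⁅V, zpowers s⁆ := by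
  obtain ⟨a, ha, e⟩ := h.exists_uu_ne hs h1
  intro w hw
  rw [h.mem_C] at hw
  obtain ⟨v, hv, ev⟩ := D.ψ_surj ![0, a⁻¹ * D.ψ w 0]
  have h2 : ⁅s, v⁆ = w := by
    refine D.ψ_inj (D.comm_mem (h.le hs) hv) hw.1 ?_
    rw [D.ψ_comm (h.le hs) hv, e, ev]
    exact vec_ext (by simp [ha]) (by simp [hw.2])
  rw [← h2, commutator_comm]
  exact commutator_mem_commutator (mem_zpowers s) hv

theorem exists_comm_eq {v w : G} (hv : v ∈ V) (hvT : v ∉ 𝐂[T]) (hw : w ∈ V ⊓ 𝐂[T]) :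
    ∃ t ∈ T, w = ⁅t, v⁆ := by
  rw [h.mem_cent hv] at hvT
  rw [h.mem_C] at hw
  obtain ⟨t, ht, e⟩ := h.exists_mem (D.ψ w 0 * (D.ψ v 1)⁻¹)
  refine ⟨t, ht, D.ψ_inj hw.1 (D.comm_mem (h.le ht) hv) ?_⟩
  rw [D.ψ_comm (h.le ht) hv, e]
  exact vec_ext (by simp [hvT]) (by simp [hw.2])

theorem card_C [Finite F] : Nat.card ↥(V ⊓ 𝐂[T]) = Nat.card F := by
  refine Nat.card_congr (Equiv.ofBijective (fun v => D.ψ v 0) ⟨?_, ?_⟩)
  · intro u v e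
    have hu := h.mem_C.1 u.2
    have hv := h.mem_C.1 v.2
    exact Subtype.ext (D.ψ_inj hu.1 hv.1 (vec_ext e (hu.2.trans hv.2.symm)))
  · intro a
    obtain ⟨v, hv, e⟩ := D.ψ_surj ![a, 0]
    exact ⟨⟨v, h.mem_C.2 ⟨hv, by simp [e]⟩⟩, by simp [e]⟩

theorem mem_normalizer {g : G} (hg : g ∈ L) : g ∈ 𝐍[T] ↔ (D.φ ⟨g, hg⟩).1 1 0 = 0 := by
  rw [← mem_normalizer_Up]
  constructor
  · intro H
    rw [mem_normalizer_iff]
    intro s
    obtain ⟨x, rfl⟩ := D.φ_surj s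
    rw [← map_inv, ← map_mul, ← map_mul, ← h.iff, ← h.iff]
    exact mem_normalizer_iff.1 H x
  · intro H
    rw [mem_normalizer_iff]
    intro x
    constructor
    · intro hx
      have h1 := (mem_normalizer_iff.1 H (D.φ ⟨x, h.le hx⟩)).1 ((h.iff ⟨x, h.le hx⟩).1 hx)
      rw [← map_inv, ← map_mul, ← map_mul, ← h.iff] at h1
      exact h1
    · intro hx
      have hxL : x ∈ L := by
        have h2 := L.mul_mem (L.mul_mem (L.inv_mem hg) (h.le hx)) hg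
        simpa [mul_assoc] using h2
      refine (h.iff ⟨x, hxL⟩).2 ((mem_normalizer_iff.1 H (D.φ ⟨x, hxL⟩)).2 ?_)
      rw [← map_inv, ← map_mul, ← map_mul, ← h.iff]
      exact hx

theorem mem_C_cj {g : G} (hg : g ∈ L) {v : G} :
    v ∈ V ⊓ 𝐂[cj(g, T)] ↔ v ∈ V ∧ ((D.φ ⟨g, hg⟩)⁻¹ • D.ψ v) 1 = 0 := by
  rw [centralizer_cj, mem_inf, mem_cj]
  refine and_congr_right fun hv => ?_
  have h1 := D.ψ_conj' (L.inv_mem hg) hv
  have h2 := D.conj_mem (L.inv_mem hg) hv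
  rw [inv_inv] at h1 h2
  rw [h.mem_cent h2, h1, ← map_inv]
  rfl

theorem isInternalDirectProduct {g : G} (hg : g ∈ L) (hgT : g ∉ 𝐍[T]) :
    IsInternalDirectProduct (V ⊓ 𝐂[T]) (V ⊓ 𝐂[cj(g, T)]) V := by
  rw [h.mem_normalizer hg] at hgT
  set s := D.φ ⟨g, hg⟩ with hs
  refine ⟨inf_le_left, inf_le_left, fun a ha b hb => D.mul_comm' ha.1 hb.1, ?_, ?_⟩
  · rw [eq_bot_iff]
    rintro v ⟨h1, h2⟩
    have h3 := h.mem_C.1 h1
    have h4 := (h.mem_C_cj hg).1 h2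
    rw [← hs, smul_apply', inv_apply₁₀, h3.2] at h4
    rw [← D.ψ_eq_zero v h3.1]
    exact vec_ext (by simpa [hgT] using h4.2) h3.2
  · refine le_antisymm (sup_le inf_le_left inf_le_left) fun v hv => ?_
    obtain ⟨w, hw, ew⟩ := D.ψ_surj (s • ![D.ψ v 1 * (s.1 1 0)⁻¹, 0])
    have h1 : w ∈ V ⊓ 𝐂[cj(g, T)] := (h.mem_C_cj hg).2 ⟨hw, by rw [← hs, ew, inv_smul_smul]; simp⟩
    have h2 : v * w⁻¹ ∈ V ⊓ 𝐂[T] := by
      refine h.mem_C.2 ⟨V.mul_mem hv (V.inv_mem hw), ?_⟩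
      rw [D.ψ_mul _ hv _ (V.inv_mem hw), D.ψ_inv hw, ew, Pi.add_apply, Pi.neg_apply, smul_apply']
      simp only [cons_val_zero, cons_val_one, cons_val_fin_one, mul_zero, add_zero]
      field_simp
      ring
    have h3 : v = v * w⁻¹ * w := by group
    rw [h3]
    exact mul_mem_sup h2 h1

theorem exists_hh (a : F) (ha : a ≠ 0) : ∃ g, ∃ hg : g ∈ L, g ∈ 𝐍[T] ∧ D.φ ⟨g, hg⟩ = hh a ha := by
  obtain ⟨g, hg⟩ := D.φ_surj (hh a ha)
  exact ⟨g, g.2, (h.mem_normalizer g.2).2 (by rw [Subtype.coe_eta, hg]; simp [coe_hh]), hg⟩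

theorem irred_C {U : Subgroup G} (hU : U ≤ V ⊓ 𝐂[T]) (hn : L ⊓ 𝐍[T] ≤ 𝐍[U]) : U = ⊥ ∨ U = V ⊓ 𝐂[T] := by
  rw [or_iff_not_imp_left]
  intro h0
  obtain ⟨⟨u, hu⟩, hu1⟩ := ne_bot_iff_exists_ne_one.1 h0
  have h1 := h.mem_C.1 (hU hu)
  have h2 : D.ψ u 0 ≠ 0 := fun e => hu1 (Subtype.ext (mem_bot.1 ((D.ψ_eq_zero u h1.1).1 (vec_ext e h1.2))))
  refine le_antisymm hU fun w hw => ?_
  have h3 := h.mem_C.1 hw
  by_cases h4 : D.ψ w 0 = 0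
  · rw [mem_bot.1 ((D.ψ_eq_zero w h3.1).1 (vec_ext h4 h3.2))]
    exact U.one_mem
  obtain ⟨g, hg, hgT, e⟩ := h.exists_hh (D.ψ w 0 * (D.ψ u 0)⁻¹) (mul_ne_zero h4 (inv_ne_zero h2))
  have h5 : g * u * g⁻¹ = w := by
    refine D.ψ_inj (D.conj_mem hg h1.1) h3.1 ?_
    rw [D.ψ_conj' hg h1.1, e]
    exact vec_ext (by simp [h2]) (by simp [h1.2, h3.2])
  rw [← h5]
  exact conj_mem_of_mem_normalizer (hn ⟨hg, hgT⟩) hu

theorem irred_quot {U : Subgroup G} (hU : V ⊓ 𝐂[T] ≤ U) (hUV : U ≤ V) (hn : L ⊓ 𝐍[T] ≤ 𝐍[U]) :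
    U = V ⊓ 𝐂[T] ∨ U = V := by
  rw [or_iff_not_imp_left]
  intro h0
  obtain ⟨u, hu, hu1⟩ : ∃ u ∈ U, u ∉ V ⊓ 𝐂[T] := by
    by_contra H
    push Not at H
    exact h0 (le_antisymm H hU)
  have h2 : D.ψ u 1 ≠ 0 := fun e => hu1 (h.mem_C.2 ⟨hUV hu, e⟩)
  refine le_antisymm hUV fun w hw => ?_
  by_cases h4 : D.ψ w 1 = 0
  · exact hU (h.mem_C.2 ⟨hw, h4⟩)
  obtain ⟨g, hg, hgT, e⟩ := h.exists_hh (D.ψ u 1 * (D.ψ w 1)⁻¹) (mul_ne_zero h2 (inv_ne_zero h4))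
  have h5 := D.conj_mem hg (hUV hu)
  have h6 : w * (g * u * g⁻¹)⁻¹ ∈ V ⊓ 𝐂[T] := by
    refine h.mem_C.2 ⟨V.mul_mem hw (V.inv_mem h5), ?_⟩
    rw [D.ψ_mul _ hw _ (V.inv_mem h5), D.ψ_inv h5, D.ψ_conj' hg (hUV hu), e, Pi.add_apply, Pi.neg_apply,
      hh_smul_one]
    field_simp
    ring
  have h7 : w = w * (g * u * g⁻¹)⁻¹ * (g * u * g⁻¹) := by group
  rw [h7]
  exact U.mul_mem (hU h6) (conj_mem_of_mem_normalizer (hn ⟨hg, hgT⟩) hu)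

end UpStd

end NatData

/-- An element of `SL₂(F)` fixing a nonzero vector is unipotent. -/
theorem pow_char_eq_one_of_fix {F : Type*} [Field F] {p : ℕ} [CharP F p] {g : SL(2, F)} {y : Fin 2 → F}
    (hy : y ≠ 0) (h : g • y = y) : g ^ p = 1 := by
  obtain ⟨s, hs⟩ := exists_smul_eq hy (z := ![1, 0]) (by
    intro e
    simpa using congrFun e 0)
  have h1 : (s * g * s⁻¹) • (![1, 0] : Fin 2 → F) = ![1, 0] := by
    rw [← hs, mul_smul, inv_smul_smul, mul_smul, h]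
  set k := s * g * s⁻¹ with hk
  have h2 : k.1 0 0 = 1 := by simpa [smul_apply'] using congrFun h1 0
  have h3 : k.1 1 0 = 0 := by simpa [smul_apply'] using congrFun h1 1
  have h4 : k.1 1 1 = 1 := by simpa [h2, h3] using det_eq k
  have h5 : k = uu (k.1 0 1) := sl_ext (by simp [coe_uu, h2]) (by simp [coe_uu]) (by simp [coe_uu, h3])
    (by simp [coe_uu, h4])
  have h6 : k ^ p = 1 := by rw [h5, uu_pow, CharP.cast_eq_zero, zero_mul, uu_zero]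
  rw [hk, conj_pow] at h6
  simpa [mul_inv_eq_iff_eq_mul] using h6

theorem NatData.inf_centralizer_eq_bot {F : Type*} [Field F] {p : ℕ} [CharP F p] {L V : Subgroup G}
    (D : NatData F L V ⊥) (hinj : Function.Injective D.φ) {x : G} (hx : x ∈ L) (h1 : x ≠ 1)
    (hc : (orderOf x).Coprime p) : V ⊓ centralizer ({x} : Set G) = ⊥ := by
  rw [eq_bot_iff]
  rintro v ⟨hv, hvx⟩
  rw [← D.ψ_eq_zero v hv]
  by_contra h0
  have h2 := pow_char_eq_one_of_fix (p := p) h0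
    ((D.commute_iff hx hv).1 (mem_centralizer_singleton_iff.1 hvx).symm)
  rw [← map_pow] at h2
  have h3 : x ^ p = 1 := congrArg Subtype.val (hinj (h2.trans (map_one D.φ).symm))
  exact h1 (orderOf_eq_one_iff.1 (Nat.Coprime.eq_one_of_dvd hc (orderOf_dvd_of_pow_eq_one h3)))

end Cfsg.Agent.PLocal.SL2Nat
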