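import Mathlib
import Cfsg.Agent.PLocal.AmbSyl
import Cfsg.Agent.Grp.MinNormal

/-! The generator sequences of Sims and Glauberman (`P ∩ P^c` of index `p`). -/

set_option autoImplicit false
set_option linter.unusedSectionVars false
set_option linter.style.haveILetI false

namespace Cfsg.Agent.Sims

open Subgroup Cfsg Cfsg.Agent.PLocal Cfsg.Agent.PLocal.Amb
open scoped commutatorElement

variable {G : Type*} [Group G]

/-- `⟨x a, …, x (b-1)⟩` -/
def Y (x : ℤ → G) (a b : ℤ) : Subgroup G := closure (x '' Set.Ico a b)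

theorem mem_Y {x : ℤ → G} {a b m : ℤ} (h1 : a ≤ m) (h2 : m < b) : x m ∈ Y x a b :=
  subset_closure ⟨m, ⟨h1, h2⟩, rfl⟩

theorem Y_le {x : ℤ → G} {a b : ℤ} {K : Subgroup G} :
    Y x a b ≤ K ↔ ∀ m, a ≤ m → m < b → x m ∈ K := by
  rw [Y, closure_le]
  exact ⟨fun h m h1 h2 => h ⟨m, ⟨h1, h2⟩, rfl⟩, by rintro h _ ⟨m, hm, rfl⟩; exact h m hm.1 hm.2⟩

theorem Y_mono {x : ℤ → G} {a b c d : ℤ} (h1 : c ≤ a) (h2 : b ≤ d) : Y x a b ≤ Y x c d :=
  Y_le.2 fun _ h3 h4 => mem_Y (by omega) (by omega)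

theorem Y_eq_bot {x : ℤ → G} {a b : ℤ} (h : b ≤ a) : Y x a b = ⊥ :=
  le_bot_iff.1 (Y_le.2 fun _ _ _ => by omega)

theorem Y_neg (x : ℤ → G) (a b : ℤ) : Y (fun m => x (-m)) a b = Y x (1 - b) (1 - a) :=
  le_antisymm (Y_le.2 fun _ _ _ => mem_Y (by omega) (by omega)) (Y_le.2 fun m _ _ => by
    have := mem_Y (x := fun m => x (-m)) (a := a) (b := b) (m := -m) (by omega) (by omega)
    simpa using this)

theorem commute_Y {x : ℤ → G} {a b c d : ℤ}
    (h : ∀ m j, a ≤ m → m < b → c ≤ j → j < d → Commute (x m) (x j)) {u v : G}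
    (hu : u ∈ Y x a b) (hv : v ∈ Y x c d) : Commute u v := by
  have h1 : Y x a b ≤ 𝐂[Y x c d] := Y_le.2 fun m h1 h2 => by
    have : Y x c d ≤ centralizer {x m} := Y_le.2 fun j h3 h4 =>
      mem_centralizer_singleton_iff.2 (h m j h1 h2 h3 h4).symm
    exact fun y hy => mem_centralizer_singleton_iff.1 (this hy)
  exact (h1 hu v hv).symm

theorem commute_Y_left {x : ℤ → G} {a b : ℤ} {z : G}
    (h : ∀ m, a ≤ m → m < b → Commute z (x m)) {u : G} (hu : u ∈ Y x a b) : Commute z u := by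
  have : Y x a b ≤ centralizer {z} := Y_le.2 fun j h3 h4 =>
    mem_centralizer_singleton_iff.2 (h j h3 h4).symm
  exact (mem_centralizer_singleton_iff.1 (this hu)).symm

theorem le_normalizer_of_card [Finite G] {p : ℕ} [hp : Fact p.Prime] {A B : Subgroup G}
    (hB : IsPGroup p B) (h : A ≤ B) (hc : Nat.card B = Nat.card A * p) : B ≤ 𝐍[A] := by
  have h1 : A.relIndex B = p := by
    have := card_mul_index (A.subgroupOf B)
    rw [Nat.card_congr (subgroupOfEquivOfLe h).toEquiv, hc] at this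
    exact Nat.eq_of_mul_eq_mul_left Nat.card_pos this
  have h2 : A < B := lt_of_le_of_ne h (by
    rintro rfl
    rw [relIndex_self] at h1
    exact hp.out.one_lt.ne h1)
  have h3 := lt_inf_normalizer hB h2
  have h4 := relIndex_mul_relIndex A (B ⊓ 𝐍[A]) B h3.le inf_le_left
  rw [h1] at h4
  rcases (Nat.dvd_prime hp.out).1 (Dvd.intro _ h4) with h5 | h5
  · exact absurd (relIndex_eq_one.1 h5) h3.not_ge
  · rw [h5] at h4
    have h6 : (B ⊓ 𝐍[A]).relIndex B = 1 :=
      Nat.eq_of_mul_eq_mul_left hp.out.pos (by rw [h4, mul_one])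
    exact (relIndex_eq_one.1 h6).trans inf_le_right

theorem eq_sup_of_card [Finite G] {p : ℕ} [hp : Fact p.Prime] {A A' B : Subgroup G}
    (h : A ≤ B) (h' : A' ≤ B) (hc : Nat.card B = Nat.card A * p) (hn : ¬ A' ≤ A) :
    A ⊔ A' = B := by
  have h1 : A.relIndex B = p := by
    have := card_mul_index (A.subgroupOf B)
    rw [Nat.card_congr (subgroupOfEquivOfLe h).toEquiv, hc] at this
    exact Nat.eq_of_mul_eq_mul_left Nat.card_pos this
  have h4 := relIndex_mul_relIndex A (A ⊔ A') B le_sup_left (sup_le h h')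
  rw [h1] at h4
  rcases (Nat.dvd_prime hp.out).1 (Dvd.intro _ h4) with h5 | h5
  · exact absurd (le_sup_right.trans (relIndex_eq_one.1 h5)) hn
  · rw [h5] at h4
    have h6 : (A ⊔ A').relIndex B = 1 :=
      Nat.eq_of_mul_eq_mul_left hp.out.pos (by rw [h4, mul_one])
    exact le_antisymm (sup_le h h') (relIndex_eq_one.1 h6)

/-- a Sims sequence of length `t` -/
structure Seq (p t : ℕ) (x : ℤ → G) : Prop where
  card : ∀ (a : ℤ) (l : ℕ), l ≤ t → Nat.card (Y x a (a + l)) = p ^ l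
  comm : ∀ a b c : ℤ, Commute (x a) (x b) → Commute (x (a + c)) (x (b + c))

namespace Seq

variable [Finite G] {p t : ℕ} [hp : Fact p.Prime] {x : ℤ → G} (h : Seq p t x)
include h

theorem neg : Seq p t fun m => x (-m) where
  card a l hl := by
    rw [Y_neg, ← h.card (1 - (a + l)) l hl, show 1 - (a + l) + l = 1 - a by ring]
  comm a b c hc := by
    have := h.comm _ _ (-c) hc
    simp only [neg_add]
    exact this

theorem card' {a b : ℤ} (h1 : a ≤ b) (h2 : b ≤ a + t) :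
    Nat.card (Y x a b) = p ^ (b - a).toNat := by
  rw [← h.card a (b - a).toNat (by omega), show a + ((b - a).toNat : ℕ) = b by omega]

theorem isPGroup {a b : ℤ} (h2 : b ≤ a + t) : IsPGroup p (Y x a b) := by
  by_cases h1 : a ≤ b
  · exact IsPGroup.of_card (h.card' h1 h2)
  · rw [Y_eq_bot (by omega)]; exact IsPGroup.of_bot

theorem card_left {a b : ℤ} (h1 : a < b) (h2 : b ≤ a + t) :
    Nat.card (Y x a b) = Nat.card (Y x (a + 1) b) * p := by
  rw [h.card' h1.le h2, h.card' (by omega) (by omega), ← pow_succ]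
  congr 1; omega

theorem card_right {a b : ℤ} (h1 : a ≤ b) (h2 : b < a + t) :
    Nat.card (Y x a (b + 1)) = Nat.card (Y x a b) * p := by
  rw [h.card' h1 h2.le, h.card' (by omega) (by omega), ← pow_succ]
  congr 1; omega

theorem norm_left {a b : ℤ} (h1 : a < b) (h2 : b ≤ a + t) : Y x a b ≤ 𝐍[Y x (a + 1) b] :=
  le_normalizer_of_card (h.isPGroup h2) (Y_mono (by omega) le_rfl) (h.card_left h1 h2)

theorem norm_right {a b : ℤ} (h1 : a ≤ b) (h2 : b < a + t) : Y x a (b + 1) ≤ 𝐍[Y x a b] :=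
  le_normalizer_of_card (h.isPGroup (by omega)) (Y_mono le_rfl (by omega)) (h.card_right h1 h2)

theorem pow_eq_one (ht : 1 ≤ t) (a : ℤ) : x a ^ p = 1 := by
  have h1 := h.card a 1 ht
  have := pow_card_eq_one' (G := Y x a (a + (1 : ℕ))) (x := ⟨x a, mem_Y le_rfl (by simp)⟩)
  rw [h1, pow_one] at this
  exact congrArg Subtype.val this

theorem not_mem_left {a b : ℤ} (h1 : a < b) (h2 : b ≤ a + t) : x a ∉ Y x (a + 1) b := by
  intro hx
  have h3 : Y x a b ≤ Y x (a + 1) b := Y_le.2 fun m h3 h4 => by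
    rcases eq_or_lt_of_le h3 with rfl | h5
    · exact hx
    · exact mem_Y (by omega) h4
  have := card_le_of_le h3
  rw [h.card_left h1 h2] at this
  exact absurd this (not_le.2 (lt_mul_right Nat.card_pos hp.out.one_lt))

theorem ne_one (ht : 1 ≤ t) (a : ℤ) : x a ≠ 1 := fun e =>
  h.not_mem_left (a := a) (b := a + 1) (by omega) (by omega) (e ▸ one_mem _)

/-- an element of `Y a b` lies in `Y (a+1) b`, or `x a` is a power of it modulo `Y (a+1) b` -/
theorem decomp {a b : ℤ} (h1 : a < b) (h2 : b ≤ a + t) {c : G} (hc : c ∈ Y x a b) :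
    c ∈ Y x (a + 1) b ∨ ∃ u ∈ Y x (a + 1) b, ∃ e : ℕ, x a = (c * u) ^ e := by
  have h3 : Y x a b ≤ zpowers (x a) ⊔ Y x (a + 1) b := Y_le.2 fun m h3 h4 => by
    rcases eq_or_lt_of_le h3 with rfl | h5
    · exact mem_sup_left (mem_zpowers _)
    · exact mem_sup_right (mem_Y (by omega) h4)
  obtain ⟨y, hy, u, hu, rfl⟩ := (mem_sup_of_le_normalizer_right
    ((zpowers_le.2 (mem_Y le_rfl h1)).trans (h.norm_left h1 h2))).1 (h3 hc)
  by_cases hy1 : y = 1
  · left; rwa [hy1, one_mul]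
  right
  refine ⟨u⁻¹, inv_mem hu, ?_⟩
  rw [mul_inv_cancel_right]
  have ho : orderOf (x a) = p := orderOf_eq_prime (h.pow_eq_one (by omega) a) (h.ne_one (by omega) a)
  have h4 : zpowers y = zpowers (x a) := by
    haveI : Fact (Nat.card (zpowers (x a))).Prime := ⟨by rw [Nat.card_zpowers, ho]; exact hp.out⟩
    have h5 := zpowers_le.2 hy
    refine eq_of_le_of_card_ge h5 ?_
    have h6 := card_dvd_of_le h5
    rw [Nat.card_zpowers (x a), ho] at h6 ⊢
    rcases (Nat.dvd_prime hp.out).1 h6 with h7 | h7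
    · exact absurd (zpowers_eq_bot.1 (card_eq_one.1 h7)) hy1
    · exact h7.ge
  obtain ⟨e, he⟩ := (mem_powers_iff_mem_zpowers.2 (h4 ▸ mem_zpowers (x a)) :
    x a ∈ Submonoid.powers y)
  exact ⟨e, he.symm⟩

theorem inf_step {a b d : ℤ} (h1 : b ≤ d) (h2 : d ≤ a + t) :
    Y x a b ⊓ Y x (a + 1) d ≤ Y x (a + 1) b := by
  by_cases hab : a < b
  swap
  · rw [Y_eq_bot (not_lt.1 hab)]; simp
  rintro c ⟨hc, hc'⟩
  rcases h.decomp hab (by omega) hc with h3 | ⟨u, hu, e, he⟩
  · exact h3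
  · exact absurd (he ▸ pow_mem (mul_mem hc' (Y_mono le_rfl h1 hu)) e)
      (h.not_mem_left (by omega) h2)

theorem inf_le {a b c d : ℤ} (h0 : a ≤ c) (h1 : b ≤ d) (h2 : d ≤ a + t) :
    Y x a b ⊓ Y x c d ≤ Y x c b := by
  obtain ⟨n, rfl⟩ : ∃ n : ℕ, c = a + n := ⟨(c - a).toNat, by omega⟩
  clear h0
  induction n generalizing a with
  | zero => simp
  | succ n ih =>
    rintro y ⟨hy, hy'⟩
    have e : a + (n + 1 : ℕ) = a + 1 + n := by push_cast; ring
    rw [e] at hy' ⊢
    exact ih (by omega) ⟨h.inf_step h1 h2 ⟨hy, Y_mono (by omega) le_rfl hy'⟩, hy'⟩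

theorem comm_mem {a b : ℤ} (h1 : a < b) (h2 : b < a + t) : ⁅x a, x b⁆ ∈ Y x (a + 1) b := by
  refine h.inf_step (d := b + 1) (by omega) (by omega) ⟨?_, ?_⟩
  · rw [commutatorElement_def, mul_assoc, mul_assoc, ← mul_assoc (x b)]
    exact mul_mem (mem_Y le_rfl h1) (conj_mem_of_mem_normalizer
      (h.norm_right h1.le h2 (mem_Y h1.le (by omega))) ((Y x a b).inv_mem (mem_Y le_rfl h1)))
  · rw [commutatorElement_def]
    exact mul_mem (conj_mem_of_mem_normalizer
      (h.norm_left (b := b + 1) (by omega) (by omega) (mem_Y le_rfl (by omega)))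
      (mem_Y (by omega) (by omega)))
      ((Y x (a + 1) (b + 1)).inv_mem (mem_Y (by omega) (by omega)))

theorem comm_mem_left {k : ℤ} (hk0 : 0 < k) (hkt : k < t)
    (hk : ∀ a b, a - b < k → b - a < k → Commute (x a) (x b))
    (hn : ∀ a, ¬ Commute (x a) (x (a + k))) (a : ℤ) :
    ⁅x a, x (a + k)⁆ ∈ Y x (a + t - k) (a + k) := by
  have key : ∀ i : ℕ, (i : ℤ) + 1 ≤ t - k → ⁅x a, x (a + k)⁆ ∈ Y x (a + (i + 1)) (a + k) := by
    intro i
    induction i with
    | zero => intro _; simpa using h.comm_mem (a := a) (b := a + k) (by omega) (by omega)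
    | succ i ih =>
      intro hi
      push_cast at hi ⊢
      have hc := ih (by omega)
      by_cases hik : (i : ℤ) + 1 < k
      swap
      · rw [Y_eq_bot (by omega), mem_bot] at hc
        rw [hc]; exact one_mem _
      rcases h.decomp (by omega) (by omega) hc with h3 | ⟨u, hu, e, he⟩
      · rwa [add_assoc] at h3
      exfalso
      apply hn (a + (i + 1))
      set z := x (a + (i + 1) + k)
      have hzu : Commute z u := commute_Y_left (fun m _ _ => hk _ _ (by omega) (by omega)) hu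
      have hy : ⁅x a, z⁆⁻¹ ∈ Y x (a + 1) (a + (i + 1) + k) :=
        inv_mem (h.comm_mem (by omega) (by omega))
      have h1 : Commute z (x (a + k)) := hk _ _ (by omega) (by omega)
      have h2 : Commute (x (a + k)) ⁅x a, z⁆⁻¹ :=
        commute_Y_left (fun m _ _ => hk _ _ (by omega) (by omega)) hy
      have h3 : Commute ⁅x a, z⁆⁻¹ ⁅x a, x (a + k)⁆ :=
        commute_Y (fun m j _ _ _ _ => hk _ _ (by omega) (by omega)) hy hc
      have h4 : Commute z ⁅x a, x (a + k)⁆ := by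
        generalize hy' : ⁅x a, z⁆⁻¹ = y at h2 h3
        have e1 : z * x a * z⁻¹ = y * x a := by rw [← hy']; group
        have e2 : z * x (a + k) * z⁻¹ = x (a + k) := by rw [h1.eq]; group
        have e3 : z * ⁅x a, x (a + k)⁆ * z⁻¹ = ⁅z * x a * z⁻¹, z * x (a + k) * z⁻¹⁆ := by
          simp only [commutatorElement_def]; group
        have e4 : ⁅y * x a, x (a + k)⁆ = y * ⁅x a, x (a + k)⁆ * y⁻¹ * ⁅y, x (a + k)⁆ := by
          simp only [commutatorElement_def]; group
        rw [e1, e2, e4, commutatorElement_eq_one_iff_commute.2 h2.symm, h3.eq] at e3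
        exact mul_inv_eq_iff_eq_mul.1 (by rw [e3]; group)
      rw [he]
      exact ((h4.mul_right hzu).pow_right e).symm
  have := key (t - k - 1).toNat (by omega)
  convert this using 2
  omega

theorem comm_mem_mid {k : ℤ} (hk0 : 0 < k) (hkt : k < t)
    (hk : ∀ a b, a - b < k → b - a < k → Commute (x a) (x b))
    (hn : ∀ a, ¬ Commute (x a) (x (a + k))) (a : ℤ) :
    ⁅x a, x (a + k)⁆ ∈ Y x (a + t - k) (a + 2 * k - t + 1) := by
  have h1 := h.comm_mem_left hk0 hkt hk hn a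
  have h2 := h.neg.comm_mem_left hk0 hkt (fun a b _ _ => hk _ _ (by omega) (by omega))
    (fun b hb => hn (-(b + k)) (by
      have := hb.symm
      rwa [show -(b + k) + k = -b by ring])) (-(a + k))
  rw [Y_neg] at h2
  simp only [neg_neg, show -(-(a + k) + k) = a by ring] at h2
  have h3 := inv_mem h2
  rw [commutatorElement_inv] at h3
  exact h.inf_le (a := a + 1) (by omega) (by omega) (by omega)
    ⟨Y_mono (by omega) (by omega) h3, h1⟩

theorem two_mul_le {k : ℤ} (hk0 : 0 < k) (hkt : k < t)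
    (hk : ∀ a b, a - b < k → b - a < k → Commute (x a) (x b))
    (hn : ∀ a, ¬ Commute (x a) (x (a + k))) : 2 * (t : ℤ) ≤ 3 * k := by
  by_contra hc
  have := h.comm_mem_mid hk0 hkt hk hn 0
  rw [Y_eq_bot (by omega), mem_bot, commutatorElement_eq_one_iff_commute] at this
  exact hn 0 this

/-- either all `x`'s at distance `< N` commute, or there is a first non-commuting distance -/
theorem exists_k (N : ℕ) : (∀ a b : ℤ, a - b < N → b - a < N → Commute (x a) (x b)) ∨
    ∃ k : ℤ, 0 < k ∧ k < N ∧ (∀ a b, a - b < k → b - a < k → Commute (x a) (x b)) ∧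
      ∀ a, ¬ Commute (x a) (x (a + k)) := by
  induction N with
  | zero => left; intro a b h1 h2; omega
  | succ N ih =>
    rcases ih with ih | ⟨k, h1, h2, h3⟩
    · by_cases hN : Commute (x 0) (x N)
      · left
        intro a b h1 h2
        push_cast at h1 h2
        by_cases h3 : a - b = N
        · have := (h.comm _ _ b hN).symm
          rwa [zero_add, show N + b = a by omega] at this
        by_cases h4 : b - a = N
        · have := h.comm _ _ a hN
          rwa [zero_add, show N + a = b by omega] at this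
        exact ih a b (by omega) (by omega)
      · right
        refine ⟨N, ?_, by omega, ih, fun a ha => hN ?_⟩
        · rcases Nat.eq_zero_or_pos N with rfl | h0
          · exact absurd (Commute.refl _) hN
          · omega
        · have := h.comm _ _ (-a) ha
          rwa [add_neg_cancel, show a + N + -a = N by ring] at this
    · exact Or.inr ⟨k, h1, by omega, h3⟩

theorem cases (ht : 1 ≤ t) (n : ℕ)
    (hZ : ∀ j : ℤ, 0 ≤ j → j < t → ∃ m : ℤ, 0 ≤ m ∧ m < t + n ∧ ¬ Commute (x j) (x m)) :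
    ∃ k : ℤ, 0 < k ∧ (∀ a b, a - b < k → b - a < k → Commute (x a) (x b)) ∧
      (∀ a, ¬ Commute (x a) (x (a + k))) ∧
      ((t ≤ k ∧ k ≤ n) ∨ (k < t ∧ 2 * (t : ℤ) ≤ 3 * k ∧ 2 * k ≤ t + n)) := by
  rcases h.exists_k (t + n) with h1 | ⟨k, h1, h2, h3, h4⟩
  · obtain ⟨m, h2, h3, h4⟩ := hZ 0 le_rfl (by omega)
    exact absurd (h1 _ _ (by omega) (by push_cast; omega)) h4
  refine ⟨k, h1, h3, h4, ?_⟩
  by_cases hk : k < t
  · refine Or.inr ⟨hk, h.two_mul_le h1 hk h3 h4, ?_⟩
    obtain ⟨m, h5, h6, h7⟩ := hZ (k - 1) (by omega) (by omega)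
    by_contra h8
    exact h7 (h3 _ _ (by omega) (by omega))
  · refine Or.inl ⟨by omega, ?_⟩
    obtain ⟨m, h5, h6, h7⟩ := hZ (t - 1) (by omega) (by omega)
    by_contra h8
    exact h7 (h3 _ _ (by omega) (by omega))

end Seq

variable [Finite G] {p : ℕ} [hp : Fact p.Prime] {c : G}

theorem step_card {P : Subgroup G} (h : P.relIndex cj(c, P) ∣ p) (hne : ¬ cj(c, P) ≤ P) :
    Nat.card P = Nat.card ↥(P ⊓ cj(c, P)) * p := by
  have h1 : P.relIndex cj(c, P) = p := ((Nat.dvd_prime hp.out).1 h).resolve_left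
    fun e => hne (relIndex_eq_one.1 e)
  have := card_mul_index ((P ⊓ cj(c, P)).subgroupOf cj(c, P))
  rw [Nat.card_congr (subgroupOfEquivOfLe inf_le_right).toEquiv, card_cj] at this
  rw [← this, ← h1, ← inf_relIndex_right P]
  rfl

theorem step_dvd {P : Subgroup G} (hP : IsPGroup p P) (h : P.relIndex cj(c, P) ∣ p) :
    (P ⊓ cj(c, P)).relIndex cj(c, P ⊓ cj(c, P)) ∣ p := by
  have hle : cj(c, P ⊓ cj(c, P)) ≤ cj(c, P) := cj_mono c inf_le_left
  by_cases hne : cj(c, P) ≤ P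
  · rw [relIndex_eq_one.2 (le_inf (hle.trans hne) hle)]; exact one_dvd _
  have hn : cj(c, P) ≤ 𝐍[P ⊓ cj(c, P)] := le_normalizer_of_card (isPGroup_cj c hP) inf_le_right
    (by rw [card_cj, step_card h hne])
  haveI := normal_subgroupOf' hn
  have h1 := relIndex_dvd_index_of_normal ((P ⊓ cj(c, P)).subgroupOf cj(c, P))
    ((cj(c, P ⊓ cj(c, P))).subgroupOf cj(c, P))
  rw [relIndex_subgroupOf hle] at h1
  refine h1.trans ?_
  rw [← inf_relIndex_right] at h
  exact h

theorem exists_core (n : ℕ) : ∀ P : Subgroup G, Nat.card P = n → IsPGroup p P →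
    P.relIndex cj(c, P) ∣ p →
    ∃ D, D ≤ P ∧ cj(c, D) = D ∧ P ≤ 𝐍[D] ∧ ∀ Q, Q ≤ P → cj(c, Q) = Q → Q ≤ D := by
  induction n using Nat.strong_induction_on with
  | _ n ih =>
  intro P hn hP h
  by_cases hne : cj(c, P) ≤ P
  · exact ⟨P, le_rfl, cj_of_mem_normalizer (mem_normalizer_of_cj_le hne), le_normalizer,
      fun Q hQ _ => hQ⟩
  have hc := step_card h hne
  obtain ⟨D, h1, h2, h3, h4⟩ := ih _ (by
    rw [← hn, hc]; exact lt_mul_right Nat.card_pos hp.out.one_lt) (P ⊓ cj(c, P)) rfl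
    (hP.to_le inf_le_left) (step_dvd hP h)
  refine ⟨D, h1.trans inf_le_left, h2, ?_, fun Q hQ e => h4 Q (le_inf hQ (e ▸ cj_mono c hQ)) e⟩
  by_cases hR : cj(c⁻¹, P ⊓ cj(c, P)) ≤ P ⊓ cj(c, P)
  · have e : cj(c, P ⊓ cj(c, P)) = P ⊓ cj(c, P) := cj_of_mem_normalizer
      (inv_mem_iff.1 (mem_normalizer_of_cj_le hR))
    rw [le_antisymm h1 (h4 _ le_rfl e)]
    exact le_normalizer_of_card hP inf_le_left hc
  · rw [← eq_sup_of_card inf_le_left (cj_le_iff.2 (by rw [inv_inv]; exact inf_le_right)) hc hR]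
    refine sup_le h3 ((cj_mono _ h3).trans ?_)
    rw [← normalizer_cj, cj_of_mem_normalizer (inv_mem (cj_eq_iff.1 h2))]

/-- the sequence of conjugates -/
def sq (c x₀ : G) (m : ℤ) : G := c ^ m * x₀ * (c ^ m)⁻¹

theorem sq_add (c x₀ : G) (a m : ℤ) : sq c x₀ (a + m) = c ^ a * sq c x₀ m * (c ^ a)⁻¹ := by
  simp only [sq, zpow_add]; group

theorem cj_Y (c x₀ : G) (a b m : ℤ) :
    cj(c ^ m, Y (sq c x₀) a b) = Y (sq c x₀) (m + a) (m + b) := by
  refine le_antisymm (cj_le_iff.2 (Y_le.2 fun j h1 h2 => mem_cj.2 ?_)) (Y_le.2 fun j h1 h2 => ?_)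
  · rw [inv_inv, ← sq_add]; exact mem_Y (by omega) (by omega)
  · rw [show j = m + (j - m) by ring, sq_add]
    exact conj_mem_cj _ (mem_Y (by omega) (by omega))

theorem exists_gen (t : ℕ) : ∀ P : Subgroup G, Nat.card P = p ^ t → P.relIndex cj(c, P) ∣ p →
    (∀ Q, Q ≤ P → cj(c, Q) = Q → Q = ⊥) →
    ∃ x₀, (∀ l : ℕ, l ≤ t → Nat.card (Y (sq c x₀) 0 l) = p ^ l) ∧ Y (sq c x₀) 0 t = P := by
  induction t with
  | zero =>
    intro P hP _ _
    refine ⟨1, fun l hl => ?_, ?_⟩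
    · obtain rfl : l = 0 := by omega
      rw [Y_eq_bot (by simp)]; simp
    · rw [Y_eq_bot (by simp)]; exact (card_eq_one.1 (by simpa using hP)).symm
  | succ t ih =>
    intro P hP h h2
    have hPp : IsPGroup p P := IsPGroup.of_card hP
    have hP1 : P ≠ ⊥ := fun e => by
      rw [e, card_bot] at hP
      exact (Nat.one_lt_pow (by omega) hp.out.one_lt).ne hP
    have hne : ¬ cj(c, P) ≤ P := fun e =>
      hP1 (h2 P le_rfl (cj_of_mem_normalizer (mem_normalizer_of_cj_le e)))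
    have hc := step_card h hne
    have hR : Nat.card ↥(P ⊓ cj(c, P)) = p ^ t :=
      Nat.eq_of_mul_eq_mul_right hp.out.pos (by rw [← hc, hP, pow_succ])
    rcases Nat.eq_zero_or_pos t with rfl | ht
    · obtain ⟨⟨y, hy⟩, hy1⟩ := (Subgroup.ne_bot_iff_exists_ne_one).1 hP1
      have hy2 : y ≠ 1 := fun e => hy1 (Subtype.ext e)
      have e : Y (sq c y) 0 (0 + 1 : ℕ) = P := by
        have hle : Y (sq c y) 0 (0 + 1 : ℕ) ≤ P := Y_le.2 fun m _ _ => by
          obtain rfl : m = 0 := by omega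
          simpa [sq] using hy
        have := eq_sup_of_card (p := p) bot_le hle (by rw [hP]; simp) fun e => hy2 (by
          simpa [sq] using e (mem_Y (m := 0) le_rfl (by simp)))
        rwa [bot_sup_eq] at this
      refine ⟨y, fun l hl => ?_, e⟩
      rcases Nat.eq_zero_or_pos l with rfl | h0
      · rw [Y_eq_bot (by simp)]; simp
      · obtain rfl : l = 0 + 1 := by omega
        rw [e, hP]
    obtain ⟨x₀, h3, h4⟩ := ih _ hR (step_dvd hPp h) fun Q hQ => h2 Q (hQ.trans inf_le_left)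
    have hsq : ∀ a b, Y (sq c (sq c x₀ (-1))) a b = Y (sq c x₀) (a - 1) (b - 1) := by
      have e : ∀ m, sq c (sq c x₀ (-1)) m = sq c x₀ (m - 1) := fun m => by
        rw [sub_eq_add_neg, sq_add]; rfl
      intro a b
      refine le_antisymm (Y_le.2 fun j h1 h2 => ?_) (Y_le.2 fun j h1 h2 => ?_)
      · rw [e]; exact mem_Y (by omega) (by omega)
      · rw [show j = (j + 1) - 1 by ring, ← e]; exact mem_Y (by omega) (by omega)
    have hR' : ¬ cj(c⁻¹, P ⊓ cj(c, P)) ≤ P ⊓ cj(c, P) := fun e => by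
      have := h2 _ inf_le_left (cj_of_mem_normalizer
        (inv_mem_iff.1 (mem_normalizer_of_cj_le e)))
      rw [this, card_bot] at hR
      exact (Nat.one_lt_pow (by omega) hp.out.one_lt).ne hR
    have e : Y (sq c (sq c x₀ (-1))) 0 (t + 1 : ℕ) = P := by
      rw [← eq_sup_of_card inf_le_left (cj_le_iff.2 (by rw [inv_inv]; exact inf_le_right)) hc hR',
        ← h4, ← zpow_neg_one, cj_Y, hsq]
      refine le_antisymm (Y_le.2 fun j h1 h2 => ?_)
        (sup_le (Y_mono (by omega) (by omega)) (Y_mono (by omega) (by omega)))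
      by_cases hj : 0 ≤ j
      · exact mem_sup_left (mem_Y hj (by omega))
      · exact mem_sup_right (mem_Y (by omega) (by omega))
    refine ⟨sq c x₀ (-1), fun l hl => ?_, e⟩
    rcases eq_or_lt_of_le hl with rfl | hl
    · rw [e, hP]
    · rw [← h3 l (by omega), ← card_cj (c ^ (-1 : ℤ)) (Y (sq c x₀) 0 l), cj_Y, hsq,
        show (0 : ℤ) - 1 = -1 + 0 by ring, show (l : ℤ) - 1 = -1 + l by ring]

theorem exists_seq {P : Subgroup G} (hN : cj(c, P) ≤ 𝐍[P ⊓ cj(c, P)])
    (hidx : P.relIndex cj(c, P) = p) (h1 : ∀ Q, Q ≤ P → P ≤ 𝐍[Q] → cj(c, Q) = Q → Q = ⊥) :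
    ∃ (t : ℕ) (x₀ : G), 1 ≤ t ∧ Nat.card P = p ^ t ∧ Seq p t (sq c x₀) ∧
      Y (sq c x₀) 0 t = P := by
  have hP : IsPGroup p P := by
    have e1 : 𝐎[p, cj(c, P)] ≤ P ⊓ cj(c, P) := pRes_le_of_pow fun g hg => ⟨1, by
      haveI := normal_subgroupOf' hN
      have := pow_index_mem ((P ⊓ cj(c, P)).subgroupOf cj(c, P)) ⟨g, hg⟩
      rw [← inf_relIndex_right, relIndex] at hidx
      rw [hidx] at this
      rw [pow_one]; exact this⟩
    have e2 : cj(c, 𝐎[p, P]) ≤ 𝐎[p, P] := by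
      rw [← pRes_cj, ← pRes_eq_of_le e1 inf_le_right]
      exact pRes_mono inf_le_left
    have := h1 _ (pRes_le p P) (le_normalizer_pRes p P)
      (cj_of_mem_normalizer (mem_normalizer_of_cj_le e2))
    exact isPGroup_of_pRes_le IsPGroup.of_bot this.le
  obtain ⟨D, d1, d2, d3, d4⟩ := exists_core _ P rfl hP hidx.dvd
  obtain rfl := h1 D d1 d3 d2
  obtain ⟨t, ht⟩ := hP.exists_card_eq
  obtain ⟨x₀, h3, h4⟩ := exists_gen t P ht hidx.dvd fun Q hQ e => le_bot_iff.1 (d4 Q hQ e)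
  refine ⟨t, x₀, ?_, ht, ⟨fun a l hl => ?_, fun a b m hab => ?_⟩, h4⟩
  · by_contra h0
    obtain rfl : t = 0 := by omega
    rw [card_eq_one.1 (show Nat.card P = 1 by simpa using ht), cj_bot, relIndex_self] at hidx
    exact hp.out.one_lt.ne hidx
  · rw [← h3 l hl, ← card_cj (c ^ a) (Y (sq c x₀) 0 l), cj_Y, add_zero]
  · rw [add_comm a, add_comm b, sq_add, sq_add]
    exact hab.conj _

end Cfsg.Agent.Sims
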